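import Cfsg.Agent.S0200
import Cfsg.Agent.H88.EqO0
import Cfsg.Agent.H11.Act
import Cfsg.Prelude.Def_Involutions
import Cfsg.Agent.Solv.Core

/-! Groups in which subgroups of equal order are conjugate: the fusion argument. -/

set_option autoImplicit false

namespace Cfsg.Agent.H88.EqO

open Subgroup

/-- subgroups of equal order are conjugate -/
def CP (G : Type*) [Group G] : Prop :=
  ∀ H K : Subgroup G, Nat.card H = Nat.card K → ∃ g : G, K = H.map (MulAut.conj g).toMonoidHom

variable {G : Type*} [Group G] [Finite G]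

theorem CP.quot (h : CP G) (N : Subgroup G) [N.Normal] : CP (G ⧸ N) := by
  intro H K hHK
  have h1 : Nat.card (H.comap (QuotientGroup.mk' N)) = Nat.card (K.comap (QuotientGroup.mk' N)) := by
    have h2 : ∀ A : Subgroup (G ⧸ N), Nat.card (A.comap (QuotientGroup.mk' N)) = Nat.card A * Nat.card N := by
      intro A
      have h3 := Subgroup.index_comap_of_surjective A (QuotientGroup.mk'_surjective N)
      have h4 := Subgroup.card_mul_index (A.comap (QuotientGroup.mk' N))
      have h5 := Subgroup.card_mul_index A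
      have h6 := Subgroup.card_mul_index N
      have h7 : N.index = Nat.card (G ⧸ N) := rfl
      rw [h3] at h4
      have h8 : 0 < A.index := Nat.pos_of_ne_zero Subgroup.index_ne_zero_of_finite
      apply Nat.eq_of_mul_eq_mul_right h8
      rw [h4, ← h6, h7, ← h5]
      ring
    rw [h2, h2, hHK]
  obtain ⟨g, hg⟩ := h _ _ h1
  refine ⟨QuotientGroup.mk' N g, ?_⟩
  have h3 := congrArg (Subgroup.map (QuotientGroup.mk' N)) hg
  rw [Subgroup.map_comap_eq_self_of_surjective (QuotientGroup.mk'_surjective N)] at h3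
  rw [h3, Subgroup.map_map]
  have h4 : (QuotientGroup.mk' N).comp (MulAut.conj g).toMonoidHom =
      ((MulAut.conj (QuotientGroup.mk' N g)).toMonoidHom).comp (QuotientGroup.mk' N) := by
    ext x
    simp
  rw [h4, ← Subgroup.map_map, Subgroup.map_comap_eq_self_of_surjective (QuotientGroup.mk'_surjective N)]

theorem CP.congr {G' : Type*} [Group G'] (h : CP G) (e : G ≃* G') : CP G' := by
  intro H K hHK
  obtain ⟨g, hg⟩ := h (H.map e.symm.toMonoidHom) (K.map e.symm.toMonoidHom) (by
    rw [Subgroup.card_map_of_injective e.symm.injective, Subgroup.card_map_of_injective e.symm.injective, hHK])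
  refine ⟨e g, ?_⟩
  ext x
  have h1 : e.symm x ∈ K.map e.symm.toMonoidHom ↔ x ∈ K := by
    constructor
    · rintro ⟨y, hy, hyx⟩
      have : y = x := e.symm.injective hyx
      rwa [← this]
    · intro hx
      exact ⟨x, hx, rfl⟩
  rw [← h1, hg]
  constructor
  · rintro ⟨_, ⟨y, hy, rfl⟩, h2⟩
    refine ⟨y, hy, ?_⟩
    have h3 := congrArg e h2
    simpa using h3
  · rintro ⟨y, hy, rfl⟩
    refine ⟨e.symm y, ⟨y, hy, rfl⟩, ?_⟩
    simp

/-- a real element of odd order commutes with no involution -/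
theorem CP.claimA (hC : CP G) {t y v : G} (ht : orderOf t = 2) (hty : y * t = t * y) (hy : Odd (orderOf y))
    (hv : orderOf v = 2) (hvy : v * y * v⁻¹ = y⁻¹) : y = 1 := by
  have hc1 : Nat.card (zpowers (y * t)) = orderOf y * 2 := by
    rw [Nat.card_zpowers, Commute.orderOf_mul_eq_mul_orderOf_of_coprime hty (by
      rw [ht]; exact (Nat.coprime_two_right).2 hy), ht]
  have hc2 : Nat.card (zpowers v ⊔ zpowers y : Subgroup G) = orderOf y * 2 := by
    have hnn : zpowers v ≤ normalizer (zpowers y : Set G) := by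
      rw [zpowers_le, mem_normalizer_iff]
      have hkey : ∀ n : ℤ, v * y ^ n * v⁻¹ = y ^ (-n) := by
        intro n
        rw [← conj_zpow, hvy, inv_zpow, zpow_neg]
      have hvi : v⁻¹ = v := by
        rw [inv_eq_iff_mul_eq_one, ← pow_two, ← hv, pow_orderOf_eq_one]
      intro x
      constructor
      · rintro ⟨n, rfl⟩
        exact ⟨-n, (hkey n).symm⟩
      · rintro ⟨n, hn⟩
        refine ⟨-n, ?_⟩
        have h3 := hkey n
        have h4 : y ^ n = v * x * v⁻¹ := hn
        have h5 : x = v * (v * x * v⁻¹) * v⁻¹ := by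
          nth_rewrite 2 [← hvi]
          nth_rewrite 4 [← hvi]
          group
        show y ^ (-n) = x
        rw [h5, ← h4, h3]
    have hdd : zpowers v ⊓ zpowers y = ⊥ := by
      apply Subgroup.inf_eq_bot_of_coprime
      rw [Nat.card_zpowers, Nat.card_zpowers, hv]
      exact (Nat.coprime_two_left).2 hy
    rw [H11.card_sup_of_disjoint hnn hdd, Nat.card_zpowers, Nat.card_zpowers, hv, mul_comm]
  obtain ⟨g, hg⟩ := hC _ _ (hc1.trans hc2.symm)
  have hvm : v ∈ (zpowers (y * t)).map (MulAut.conj g).toMonoidHom := by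
    rw [← hg]; exact (le_sup_left : zpowers v ≤ _) (mem_zpowers v)
  have hym : y ∈ (zpowers (y * t)).map (MulAut.conj g).toMonoidHom := by
    rw [← hg]; exact (le_sup_right : zpowers y ≤ _) (mem_zpowers y)
  have hcomm : v * y = y * v := by
    obtain ⟨x, ⟨a, hxa⟩, ha⟩ := hvm
    obtain ⟨x', ⟨b, hxb⟩, hb⟩ := hym
    have h0 : x * x' = x' * x := by
      rw [← hxa, ← hxb]
      show (y * t) ^ a * (y * t) ^ b = (y * t) ^ b * (y * t) ^ a
      rw [← zpow_add, ← zpow_add, add_comm]
    have h00 := congrArg (MulAut.conj g).toMonoidHom h0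
    rw [map_mul, map_mul, ha, hb] at h00
    exact h00
  have h1 : y = y⁻¹ := by
    rw [← hvy, hcomm]; group
  have h2 : y ^ 2 = 1 := by
    rw [pow_two]
    nth_rewrite 1 [h1]
    exact inv_mul_cancel y
  have h3 : orderOf y ∣ 2 := orderOf_dvd_of_pow_eq_one h2
  rcases (Nat.dvd_prime Nat.prime_two).1 h3 with h4 | h4
  · exact orderOf_eq_one_iff.1 h4
  · rw [h4] at hy
    exact absurd hy (by decide)

/-- an involution of a centralizer of an involution lies in the 2-core -/
theorem CP.claimB (hC : CP G) {t : G} (ht : orderOf t = 2) (v : centralizer ({t} : Set G)) (hv : orderOf v = 2) :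
    ∃ N : Subgroup (centralizer ({t} : Set G)), N.Normal ∧ IsPGroup 2 N ∧ v ∈ N := by
  by_contra hcon
  push Not at hcon
  obtain ⟨h, h1, hodd, hinv⟩ := S0200.result v hv (fun N hN hNp => hcon N hN hNp)
  apply h1
  apply Subtype.ext
  refine hC.claimA (t := t) (v := (v : G)) ht ?_ ?_ ?_ ?_
  · exact mem_centralizer_singleton_iff.1 h.2
  · rwa [Subgroup.orderOf_coe]
  · rwa [Subgroup.orderOf_coe]
  · exact congrArg Subtype.val hinv

theorem CP.sylow_le (hC : CP G) (S : Sylow 2 G) (hsq : ∀ x ∈ (S : Subgroup G), x ^ 2 = 1) {t : G}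
    (htS : t ∈ (S : Subgroup G)) (ht : orderOf t = 2) :
    centralizer ({t} : Set G) ≤ normalizer ((S : Subgroup G) : Set G) := by
  have : Fact (Nat.Prime 2) := ⟨Nat.prime_two⟩
  set H := centralizer ({t} : Set G) with hH
  have hSH : (S : Subgroup G) ≤ H := by
    intro x hx
    rw [hH, mem_centralizer_singleton_iff]
    have h1 := hsq _ (mul_mem hx htS)
    have h2 := hsq _ hx
    have h3 := hsq _ htS
    have hx' : x⁻¹ = x := by rw [inv_eq_iff_mul_eq_one, ← pow_two, h2]
    have ht' : t⁻¹ = t := by rw [inv_eq_iff_mul_eq_one, ← pow_two, h3]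
    have h4 : (x * t)⁻¹ = x * t := by rw [inv_eq_iff_mul_eq_one, ← pow_two, h1]
    rw [mul_inv_rev, hx', ht'] at h4
    exact h4.symm
  have hcore : (S : Subgroup G).subgroupOf H ≤ Cfsg.pCore 2 H := by
    rintro ⟨x, hxH⟩ hx
    rw [mem_subgroupOf] at hx
    simp only at hx
    by_cases hx1 : x = 1
    · subst hx1
      exact one_mem _
    obtain ⟨N, hN, hNp, hxN⟩ := hC.claimB ht ⟨x, hxH⟩ (by
      rw [← Subgroup.orderOf_coe]
      exact orderOf_eq_prime (hsq x hx) hx1)
    exact Solv.le_pCore hN hNp hxN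
  have heq : (S : Subgroup G).subgroupOf H = Cfsg.pCore 2 H := by
    have h1 : IsPGroup 2 (Cfsg.pCore 2 H) := Solv.pCore_isPGroup 2
    let T : Sylow 2 H := S.subtype hSH
    have h2 : (T : Subgroup H) = (S : Subgroup G).subgroupOf H := rfl
    rw [← h2] at hcore ⊢
    exact T.3 h1 hcore ▸ rfl
  have hn : ((S : Subgroup G).subgroupOf H).Normal := by
    rw [heq]; infer_instance
  intro h hh
  rw [mem_normalizer_iff]
  intro x
  constructor
  · intro hx
    have := hn.conj_mem ⟨x, hSH hx⟩ (mem_subgroupOf.2 hx) ⟨h, hh⟩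
    exact mem_subgroupOf.1 this
  · intro hx
    have := hn.conj_mem ⟨h * x * h⁻¹, hSH hx⟩ (mem_subgroupOf.2 hx) ⟨h, hh⟩⁻¹
    have h3 := mem_subgroupOf.1 this
    simp only [Subgroup.coe_mul, InvMemClass.coe_inv] at h3
    have h4 : h⁻¹ * (h * x * h⁻¹) * h⁻¹⁻¹ = x := by group
    rwa [h4] at h3

/-- the dichotomy -/
theorem CP.se (hC : CP G) (S : Sylow 2 G) (hsq : ∀ x ∈ (S : Subgroup G), x ^ 2 = 1) (hS : (S : Subgroup G) ≠ ⊥) :
    (S : Subgroup G).Normal ∨ Cfsg.IsStronglyEmbedded (normalizer ((S : Subgroup G) : Set G)) := by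
  rcases se_or_top S (M := normalizer ((S : Subgroup G) : Set G)) le_rfl
    (fun t ht ht2 => hC.sylow_le S hsq ht ht2) hS with h | h
  · exact Or.inl (Subgroup.normalizer_eq_top_iff.1 h)
  · exact Or.inr h

end Cfsg.Agent.H88.EqO
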