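import Mathlib
import Cfsg.Agent.FT.Base
import Cfsg.Agent.Solv.Core

set_option autoImplicit false

namespace Cfsg.Agent.H88.EqO

open Cfsg Subgroup


theorem solvK' {G : Type*} [Group G] [Finite G] (S : Sylow 2 G) (N : Subgroup G)
    (hN : N = Subgroup.normalizer ((S : Subgroup G) : Set G)) : Group.IsSolvable ↥N := by
  have : Fact (Nat.Prime 2) := ⟨Nat.prime_two⟩
  have hSN : (S : Subgroup G) ≤ N := hN ▸ le_normalizer
  have hn : ((S : Subgroup G).subgroupOf N).Normal := by
    rw [hN]; exact Subgroup.normal_in_normalizer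
  have h1 : IsPGroup 2 ((S : Subgroup G).subgroupOf N) := S.2.comap_subtype
  have h2 : Group.IsSolvable ((S : Subgroup G).subgroupOf N) := by
    have := h1.isNilpotent
    infer_instance
  have h3 : Group.IsSolvable (N ⧸ (S : Subgroup G).subgroupOf N) := by
    apply FT.solvable_of_odd
    have h4 : ¬ 2 ∣ ((S : Subgroup G).subgroupOf N).index := by
      intro h5
      have h6 : ((S : Subgroup G).subgroupOf N).index ∣ (S : Subgroup G).index := Subgroup.relIndex_dvd_index_of_le hSN
      exact S.not_dvd_index (h5.trans h6)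
    rw [Nat.odd_iff, ← Nat.two_dvd_ne_zero]
    exact h4
  exact (Group.isSolvable_iff_subgroup_quotient ((S : Subgroup G).subgroupOf N)).2 ⟨h2, h3⟩

theorem solvK {G : Type*} [Group G] [Finite G] (S : Sylow 2 G) (N : Subgroup G)
    (hN : N = Subgroup.normalizer ((S : Subgroup G) : Set G)) : Group.IsSolvable (↥N ⧸ Cfsg.pPrimeCore 2 ↥N) := by
  have := solvK' S N hN
  infer_instance

theorem cycM {G : Type*} [Group G] [Finite G] (S : Sylow 2 G) (hc : IsCyclic (S : Subgroup G))
    (hO : Cfsg.pPrimeCore 2 G = ⊥) : IsCyclic G ∧ IsPGroup 2 G := by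
  have : Fact (Nat.Prime 2) := ⟨Nat.prime_two⟩
  have hS : (S : Subgroup G) = ⊤ := by
    by_cases h2 : 2 ∣ Nat.card G
    · have hmin : (Nat.card G).minFac = 2 := (Nat.minFac_eq_two_iff _).2 h2
      have h1 := hc.isComplement' hmin (P := S)
      set K := (MonoidHom.transferSylow S (hc.normalizer_le_centralizer hmin)).ker with hK
      have hKn : K.Normal := inferInstance
      have h3 : ¬ 2 ∣ Nat.card K := by
        rw [← h1.index_eq_card]
        exact S.not_dvd_index
      have h4 : K ≤ ⊥ := by
        rw [← hO]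
        exact Solv.le_pPrimeCore hKn ((Nat.coprime_comm.1 ((Nat.Prime.coprime_iff_not_dvd Nat.prime_two).2 h3)))
      have h5 : K = ⊥ := le_bot_iff.1 h4
      rw [h5] at h1
      exact Subgroup.isComplement'_bot_left.1 h1
    · have h4 : (⊤ : Subgroup G) ≤ ⊥ := by
        rw [← hO]
        refine Solv.le_pPrimeCore inferInstance ?_
        rw [Subgroup.card_top]
        exact ((Nat.coprime_comm.1 ((Nat.Prime.coprime_iff_not_dvd Nat.prime_two).2 h2)))
      exact top_le_iff.1 (h4.trans bot_le)
  refine ⟨?_, ?_⟩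
  · rw [hS] at hc
    exact (Subgroup.topEquiv (G := G)).isCyclic.1 hc
  · have h1 := S.2
    rw [hS] at h1
    exact h1.of_equiv (Subgroup.topEquiv (G := G))

end Cfsg.Agent.H88.EqO
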