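import Mathlib

/-!
# The field generated by an irreducible element

`E` acts faithfully on an elementary abelian `p`-group `W` of order `p ^ r`; `x ∈ E` acts irreducibly.
Then `C_E(x)` is cyclic and at most `r` elements commuting with `x` are conjugate to `x`.
-/

set_option autoImplicit false
set_option linter.unusedSectionVars false

namespace Cfsg.Agent.H88.FB

open Polynomial

section lin

variable {F V : Type*} [Field F] [AddCommGroup V] [Module F V]

/-- `x` acts irreducibly. -/
def Irr (x : Module.End F V) : Prop := ∀ U : Submodule F V, (∀ v ∈ U, x v ∈ U) → U = ⊥ ∨ U = ⊤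

/-- The centralizer algebra. -/
abbrev Ce (x : Module.End F V) : Subalgebra F (Module.End F V) := Subalgebra.centralizer F {x}

theorem mem_Ce {x y : Module.End F V} : y ∈ Ce x ↔ x * y = y * x := by
  rw [Subalgebra.mem_centralizer_iff]
  simp

theorem ker_eq_bot {x y : Module.End F V} (hx : Irr x) (hy : y ∈ Ce x) (h0 : y ≠ 0) :
    LinearMap.ker y = ⊥ := by
  rw [mem_Ce] at hy
  rcases hx (LinearMap.ker y) (fun v hv => by
    rw [LinearMap.mem_ker] at hv ⊢
    have := congrArg (fun f : Module.End F V => f v) hy
    simp only [Module.End.mul_apply] at this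
    rw [← this, hv, map_zero]) with h | h
  · exact h
  · exact absurd (LinearMap.ker_eq_top.mp h) h0

theorem noZeroDivisors {x : Module.End F V} (hx : Irr x) : NoZeroDivisors (Ce x) := by
  refine ⟨fun {a b} hab => ?_⟩
  by_cases ha : a = 0
  · exact Or.inl ha
  right
  have ha' : (a : Module.End F V) ≠ 0 := fun h => ha (Subtype.ext h)
  have hk := ker_eq_bot hx a.2 ha'
  apply Subtype.ext
  apply LinearMap.ext
  intro v
  have h1 : (a : Module.End F V) ((b : Module.End F V) v) = 0 := by
    have := congrArg (fun f : Ce x => (f : Module.End F V) v) hab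
    simpa using this
  have h2 : (b : Module.End F V) v ∈ LinearMap.ker (a : Module.End F V) := h1
  rw [hk] at h2
  simpa using h2

theorem comm [Finite V] {x : Module.End F V} (hx : Irr x) (a b : Ce x) : a * b = b * a := by
  rcases subsingleton_or_nontrivial V with h | h
  · apply Subtype.ext
    apply LinearMap.ext
    intro v
    exact Subsingleton.elim _ _
  haveI := noZeroDivisors hx
  haveI : Nontrivial (Ce x) := by
    refine ⟨⟨0, 1, fun h01 => ?_⟩⟩
    obtain ⟨v, hv⟩ := exists_ne (0 : V)
    have := congrArg (fun f : Ce x => (f : Module.End F V) v) h01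
    apply hv
    simpa using this.symm
  haveI : IsDomain (Ce x) := NoZeroDivisors.to_isDomain _
  haveI : Finite (Module.End F V) :=
    Finite.of_injective (fun f : Module.End F V => (f : V → V)) DFunLike.coe_injective
  haveI : Finite (Ce x) := Subtype.finite
  exact (Finite.isDomain_to_isField (Ce x)).mul_comm a b

/-- Elements of the centralizer algebra that are conjugate to `x` (as units of the endomorphism ring) are
roots of the characteristic polynomial of `x`. -/
theorem card_le [Finite V] [FiniteDimensional F V] {x : Module.End F V} (hx : Irr x) (S : Set (Module.End F V))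
    (hS : ∀ y ∈ S, x * y = y * x ∧ ∃ g h : Module.End F V, g * h = 1 ∧ h * g = 1 ∧ y = g * x * h)
    (hV : Nontrivial V) :
    S.Finite ∧ S.ncard ≤ Module.finrank F V := by
  classical
  haveI := noZeroDivisors hx
  haveI : Nontrivial (Ce x) := by
    refine ⟨⟨0, 1, fun h01 => ?_⟩⟩
    obtain ⟨v, hv⟩ := exists_ne (0 : V)
    have := congrArg (fun f : Ce x => (f : Module.End F V) v) h01
    apply hv
    simpa using this.symm
  letI : CommRing (Ce x) := { (inferInstance : Ring (Ce x)) with mul_comm := comm hx }
  haveI : IsDomain (Ce x) := NoZeroDivisors.to_isDomain _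
  set f : F[X] := LinearMap.charpoly x with hf
  have hmon : f.Monic := LinearMap.charpoly_monic x
  have hdeg : f.natDegree = Module.finrank F V := LinearMap.charpoly_natDegree x
  have hx0 : aeval x f = 0 := LinearMap.aeval_self_charpoly x
  set fK : (Ce x)[X] := f.map (algebraMap F (Ce x)) with hfK
  have hmonK : fK.Monic := hmon.map _
  have hroot : ∀ y : Ce x, (y : Module.End F V) ∈ S → y ∈ fK.roots.toFinset := by
    intro y hy
    rw [Multiset.mem_toFinset, mem_roots hmonK.ne_zero, IsRoot.def, hfK, eval_map]
    obtain ⟨-, g, h, hgh, hhg, hy'⟩ := hS _ hy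
    apply Subtype.ext
    have h1 : ((eval₂ (algebraMap F (Ce x)) y f : Ce x) : Module.End F V) =
        aeval (y : Module.End F V) f := by
      have := aeval_algHom_apply (Ce x).val y f
      rw [Subalgebra.coe_val] at this
      rw [this]
      rfl
    rw [h1, hy']
    have key : ∀ q : F[X], aeval (g * x * h) q = g * aeval x q * h := by
      intro q
      induction q using Polynomial.induction_on' with
      | add a b ha hb => rw [map_add, map_add, ha, hb]; noncomm_ring
      | monomial n a =>
        rw [aeval_monomial, aeval_monomial]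
        have hpow : ∀ m : ℕ, (g * x * h) ^ m = g * x ^ m * h := by
          intro m
          induction m with
          | zero => rw [pow_zero, pow_zero, mul_one, hgh]
          | succ m ih =>
            rw [pow_succ, ih, pow_succ]
            calc g * x ^ m * h * (g * x * h) = g * x ^ m * (h * g) * x * h := by noncomm_ring
              _ = g * (x ^ m * x) * h := by rw [hhg, mul_one]; noncomm_ring
        rw [hpow]
        calc (algebraMap F (Module.End F V)) a * (g * x ^ n * h)
            = ((algebraMap F (Module.End F V)) a * g) * x ^ n * h := by noncomm_ring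
          _ = (g * (algebraMap F (Module.End F V)) a) * x ^ n * h := by rw [Algebra.commutes]
          _ = g * ((algebraMap F (Module.End F V)) a * x ^ n) * h := by noncomm_ring
    rw [key, hx0]
    simp
  have hsub : S ⊆ ((fK.roots.toFinset.image (fun y : Ce x => (y : Module.End F V)) :
      Finset (Module.End F V)) : Set (Module.End F V)) := by
    intro y hy
    have hyC : y ∈ Ce x := mem_Ce.mpr (hS y hy).1
    simp only [Finset.coe_image, Set.mem_image, Finset.mem_coe]
    exact ⟨⟨y, hyC⟩, hroot ⟨y, hyC⟩ hy, rfl⟩
  refine ⟨Set.Finite.subset (Finset.finite_toSet _) hsub, ?_⟩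
  refine (Set.ncard_le_ncard hsub (Finset.finite_toSet _)).trans ?_
  rw [Set.ncard_coe_finset]
  refine Finset.card_image_le.trans ?_
  refine (Multiset.toFinset_card_le _).trans ?_
  refine (card_roots' fK).trans ?_
  rw [hfK, natDegree_map_eq_of_injective (algebraMap F (Ce x)).injective, hdeg]

end lin

section grp

variable {E W : Type*} [Group E] [Finite E] [CommGroup W] [Finite W] [MulDistribMulAction E W]
  [FaithfulSMul E W] {p r : ℕ} [hp : Fact p.Prime]

/-- The action as linear maps over `ZMod p`. -/
def rho (p : ℕ) [Module (ZMod p) (Additive W)] (g : E) : Module.End (ZMod p) (Additive W) where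
  toFun v := Additive.ofMul (g • v.toMul)
  map_add' v w := by
    apply Additive.toMul.injective
    simp [smul_mul']
  map_smul' c v := by
    have := (AddMonoidHom.toZModLinearMap p ((MulDistribMulAction.toMonoidHom W g).toAdditive)).map_smul c v
    exact this

theorem rho_apply (p : ℕ) [Module (ZMod p) (Additive W)] (g : E) (v : Additive W) :
    rho p g v = Additive.ofMul (g • v.toMul) := rfl

theorem rho_mul (p : ℕ) [Module (ZMod p) (Additive W)] (g h : E) :
    (rho p (g * h) : Module.End (ZMod p) (Additive W)) = rho p g * rho p h := by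
  apply LinearMap.ext
  intro v
  rw [Module.End.mul_apply, rho_apply, rho_apply, rho_apply, mul_smul]
  rfl

theorem rho_one (p : ℕ) [Module (ZMod p) (Additive W)] :
    (rho p (1 : E) : Module.End (ZMod p) (Additive W)) = 1 := by
  apply LinearMap.ext
  intro v
  rw [rho_apply, one_smul]
  rfl

theorem rho_inj (p : ℕ) [Module (ZMod p) (Additive W)] :
    Function.Injective (fun g : E => (rho p g : Module.End (ZMod p) (Additive W))) := by
  intro g h hgh
  apply FaithfulSMul.eq_of_smul_eq_smul (α := W)
  intro w
  have := congrArg (fun f : Module.End (ZMod p) (Additive W) => f (Additive.ofMul w)) hgh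
  exact this

theorem irr_rho [Module (ZMod p) (Additive W)] {x : E}
    (hirr : ∀ U : Subgroup W, (∀ w ∈ U, x • w ∈ U) → U = ⊥ ∨ U = ⊤) :
    Irr (rho p x : Module.End (ZMod p) (Additive W)) := by
  intro U hU
  rcases hirr (AddSubgroup.toSubgroup' U.toAddSubgroup) (fun w hw => hU _ hw) with h | h
  · left
    rw [eq_bot_iff]
    intro v hv
    have : v.toMul ∈ (AddSubgroup.toSubgroup' U.toAddSubgroup : Subgroup W) := hv
    rw [h, Subgroup.mem_bot] at this
    rw [Submodule.mem_bot]
    exact this
  · right
    rw [eq_top_iff]
    intro v _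
    have : v.toMul ∈ (AddSubgroup.toSubgroup' U.toAddSubgroup : Subgroup W) := by
      rw [h]; exact Subgroup.mem_top _
    exact this

include hp in
theorem finrank_eq [Module (ZMod p) (Additive W)] (hcard : Nat.card W = p ^ r) :
    Module.finrank (ZMod p) (Additive W) = r := by
  have h1 := Module.natCard_eq_pow_finrank (K := ZMod p) (V := Additive W)
  rw [Nat.card_zmod] at h1
  have h2 : Nat.card (Additive W) = Nat.card W := rfl
  rw [h2, hcard] at h1
  exact (Nat.pow_right_injective hp.out.two_le h1).symm

/-- (B1) The centralizer of an irreducible element is cyclic. -/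
theorem isCyclic_centralizer [Nontrivial W] (hexp : ∀ w : W, w ^ p = 1) {x : E}
    (hirr : ∀ U : Subgroup W, (∀ w ∈ U, x • w ∈ U) → U = ⊥ ∨ U = ⊤) :
    IsCyclic (Subgroup.centralizer ({x} : Set E)) := by
  letI : Module (ZMod p) (Additive W) := AddCommGroup.zmodModule (n := p) (fun v => hexp v.toMul)
  have hx := irr_rho (p := p) hirr
  haveI := noZeroDivisors hx
  haveI : Nontrivial (Additive W) := inferInstanceAs (Nontrivial W)
  haveI : Finite (Additive W) := inferInstanceAs (Finite W)
  haveI : Nontrivial (Ce (rho p x : Module.End (ZMod p) (Additive W))) := by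
    refine ⟨⟨0, 1, fun h01 => ?_⟩⟩
    obtain ⟨v, hv⟩ := exists_ne (0 : Additive W)
    have := congrArg (fun f : Ce (rho p x : Module.End (ZMod p) (Additive W)) =>
      (f : Module.End (ZMod p) (Additive W)) v) h01
    apply hv
    simpa using this.symm
  letI : CommRing (Ce (rho p x : Module.End (ZMod p) (Additive W))) :=
    { (inferInstance : Ring (Ce (rho p x : Module.End (ZMod p) (Additive W)))) with mul_comm := comm hx }
  haveI : IsDomain (Ce (rho p x : Module.End (ZMod p) (Additive W))) := NoZeroDivisors.to_isDomain _
  let F : Subgroup.centralizer ({x} : Set E) →* Ce (rho p x : Module.End (ZMod p) (Additive W)) :=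
    { toFun := fun g => ⟨rho p (g : E), mem_Ce.mpr (by
        rw [← rho_mul, ← rho_mul]
        have := Subgroup.mem_centralizer_singleton_iff.mp g.2
        rw [this])⟩
      map_one' := Subtype.ext (rho_one p)
      map_mul' := fun a b => Subtype.ext (rho_mul p _ _) }
  refine isCyclic_of_subgroup_isDomain F ?_
  intro a b hab
  apply Subtype.ext
  refine rho_inj (W := W) p ?_
  exact congrArg (fun f : Ce (rho p x : Module.End (ZMod p) (Additive W)) =>
    (f : Module.End (ZMod p) (Additive W))) hab

/-- (B2), strong form: at most `r` elements commuting with `x` are conjugate to `x`. -/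
theorem card_conj_le [Nontrivial W] (hexp : ∀ w : W, w ^ p = 1) (hcard : Nat.card W = p ^ r) {x : E}
    (hirr : ∀ U : Subgroup W, (∀ w ∈ U, x • w ∈ U) → U = ⊥ ∨ U = ⊤) :
    Nat.card {y : E // x * y = y * x ∧ IsConj x y} ≤ r := by
  letI : Module (ZMod p) (Additive W) := AddCommGroup.zmodModule (n := p) (fun v => hexp v.toMul)
  have hx := irr_rho (p := p) hirr
  haveI : Nontrivial (Additive W) := inferInstanceAs (Nontrivial W)
  haveI : Finite (Additive W) := inferInstanceAs (Finite W)
  have h := card_le hx ((fun g : E => (rho p g : Module.End (ZMod p) (Additive W))) ''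
    {y : E | x * y = y * x ∧ IsConj x y}) (by
      rintro _ ⟨y, ⟨hy1, hy2⟩, rfl⟩
      refine ⟨?_, ?_⟩
      · simp only
        rw [← rho_mul, ← rho_mul, hy1]
      · obtain ⟨c, hc⟩ := isConj_iff.mp hy2
        refine ⟨rho p c, rho p c⁻¹, ?_, ?_, ?_⟩
        · rw [← rho_mul, mul_inv_cancel, rho_one]
        · rw [← rho_mul, inv_mul_cancel, rho_one]
        · rw [← rho_mul, ← rho_mul, hc]) inferInstance
  rw [finrank_eq hcard, Set.ncard_image_of_injective _ (rho_inj p)] at h
  exact h.2

/-- (B2): the number of `k` with `x ^ k` conjugate to `x` is at most `r`. -/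
theorem card_units_le [Nontrivial W] (hexp : ∀ w : W, w ^ p = 1) (hcard : Nat.card W = p ^ r) {x : E}
    (hirr : ∀ U : Subgroup W, (∀ w ∈ U, x • w ∈ U) → U = ⊥ ∨ U = ⊤) :
    Nat.card {k : (ZMod (orderOf x))ˣ // IsConj x (x ^ (k : ZMod (orderOf x)).val)} ≤ r := by
  refine le_trans ?_ (card_conj_le hexp hcard hirr)
  haveI : NeZero (orderOf x) := ⟨(orderOf_pos x).ne'⟩
  refine Nat.card_le_card_of_injective
    (fun k => ⟨x ^ ((k : (ZMod (orderOf x))ˣ) : ZMod (orderOf x)).val, ?_, k.2⟩) ?_
  · exact (Commute.self_pow x _)
  · intro a b hab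
    have h1 : x ^ ((a : (ZMod (orderOf x))ˣ) : ZMod (orderOf x)).val =
        x ^ ((b : (ZMod (orderOf x))ˣ) : ZMod (orderOf x)).val := congrArg Subtype.val hab
    have h2 := pow_injOn_Iio_orderOf (ZMod.val_lt _) (ZMod.val_lt _) h1
    exact Subtype.ext (Units.ext (ZMod.val_injective _ h2))

end grp

end Cfsg.Agent.H88.FB
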