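import Mathlib

/-! Transfer of a linear character evaluated at an involution central in the Sylow normalizer (helper88). -/

set_option autoImplicit false

namespace H88.GL3

open MulAction

variable {G : Type*} [Group G] [Finite G]

open Classical in
theorem transfer_involution (H : Subgroup G) (hH2 : IsPGroup 2 H) (hHi : ¬ 2 ∣ H.index)
    {A : Type*} [CommGroup A] (φ : H →* A)
    (t : G) (htP : t ∈ H) (ht2 : t * t = 1)
    (hN : ∀ n ∈ Subgroup.normalizer (H : Set G), n * t = t * n) :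
    MonoidHom.transfer φ t = φ ⟨t, htP⟩ := by
  classical
  have htinv : t⁻¹ = t := inv_eq_of_mul_eq_one_left ht2
  have hPt : ∀ x ∈ H, x * t = t * x := fun x hx => hN x (Subgroup.le_normalizer hx)
  let T : H.LeftTransversal := ⟨Set.range (Quotient.out : G ⧸ H → G), Subgroup.isComplement_range_left (by
    intro q; exact Quotient.out_eq' q)⟩
  letI : Fintype (G ⧸ H) := H.fintypeQuotientOfFiniteIndex
  have hT : ∀ q : G ⧸ H, ((T.2.leftQuotientEquiv q : T.1) : G) = q.out := by
    intro q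
    exact Subgroup.IsComplement.leftQuotientEquiv_apply (fun q => Quotient.out_eq' q) q
  have hmk : ∀ q : G ⧸ H, (QuotientGroup.mk (q.out : G) : G ⧸ H) = q := fun q => Quotient.out_eq' q
  have hmem : ∀ q : G ⧸ H, (q.out)⁻¹ * (t * (t⁻¹ • q).out) ∈ H := by
    intro q
    have h3 : (QuotientGroup.mk (t * (t⁻¹ • q).out : G) : G ⧸ H) = q := by
      have h4 : (QuotientGroup.mk (t * (t⁻¹ • q).out : G) : G ⧸ H)
          = t • (QuotientGroup.mk ((t⁻¹ • q).out : G) : G ⧸ H) := rfl
      rw [h4, hmk, smul_inv_smul]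
    exact QuotientGroup.eq.1 ((hmk q).trans h3.symm)
  let F : G ⧸ H → A := fun q => φ ⟨(q.out)⁻¹ * (t * (t⁻¹ • q).out), hmem q⟩
  have htr : MonoidHom.transfer φ t = ∏ q : G ⧸ H, F q := by
    rw [MonoidHom.transfer_def φ T t]
    unfold Subgroup.leftTransversals.diff
    refine Finset.prod_congr rfl (fun q _ => ?_)
    congr 1
    apply Subtype.ext
    simp only
    rw [Subgroup.smul_apply_eq_smul_apply_inv_smul, hT, hT]
    rfl
  have hFF : ∀ q : G ⧸ H, F q * F (t • q) = 1 := by
    intro q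
    show φ _ * φ _ = 1
    rw [← map_mul]
    have : (⟨(q.out)⁻¹ * (t * (t⁻¹ • q).out), hmem q⟩ : H) *
        ⟨((t • q).out)⁻¹ * (t * (t⁻¹ • (t • q)).out), hmem (t • q)⟩ = 1 := by
      apply Subtype.ext
      show (q.out)⁻¹ * (t * (t⁻¹ • q).out) * (((t • q).out)⁻¹ * (t * (t⁻¹ • (t • q)).out)) = 1
      rw [inv_smul_smul, htinv]
      calc (q.out)⁻¹ * (t * (t • q).out) * (((t • q).out)⁻¹ * (t * q.out))
          = (q.out)⁻¹ * (t * t) * q.out := by group
        _ = 1 := by rw [ht2]; group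
    rw [this, map_one]
  have htt : ∀ q : G ⧸ H, t • t • q = q := by
    intro q; rw [smul_smul, ht2, one_smul]
  -- product over the non-fixed points is one
  have hsplit : ∏ q : G ⧸ H, F q = ∏ q ∈ Finset.univ.filter (fun q : G ⧸ H => t • q = q), F q := by
    rw [← Finset.prod_filter_mul_prod_filter_not Finset.univ (fun q : G ⧸ H => t • q = q) F]
    have h1 : ∏ q ∈ Finset.univ.filter (fun q : G ⧸ H => ¬ t • q = q), F q = 1 := by
      refine Finset.prod_involution (fun q _ => t • q) (fun q _ => hFF q) ?_ ?_ (fun q _ => htt q)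
      · intro q hq _
        exact (Finset.mem_filter.1 hq).2
      · intro q hq
        rw [Finset.mem_filter] at hq ⊢
        refine ⟨Finset.mem_univ _, fun h => hq.2 ?_⟩
        rw [htt] at h
        exact h.symm
    rw [h1, mul_one]
  -- value at a fixed point
  have hval : ∀ (g : G) (hg : g⁻¹ * t * g ∈ H), F (QuotientGroup.mk g) = φ ⟨g⁻¹ * t * g, hg⟩ := by
    intro g hg
    have h1 : t⁻¹ • (QuotientGroup.mk g : G ⧸ H) = QuotientGroup.mk g := by
      have h2 : t⁻¹ • (QuotientGroup.mk g : G ⧸ H) = QuotientGroup.mk (t⁻¹ * g) := rfl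
      rw [h2, htinv]
      refine (QuotientGroup.eq.2 ?_)
      have h3 : (t * g)⁻¹ * g = g⁻¹ * t * g := by rw [mul_inv_rev, htinv]
      rw [h3]; exact hg
    obtain ⟨p, hp⟩ : ∃ p : H, (QuotientGroup.mk g : G ⧸ H).out = g * p := by
      have h2 : (QuotientGroup.mk g : G ⧸ H) = QuotientGroup.mk ((QuotientGroup.mk g : G ⧸ H).out) :=
        (hmk _).symm
      exact ⟨⟨g⁻¹ * (QuotientGroup.mk g : G ⧸ H).out, QuotientGroup.eq.1 h2⟩, by simp⟩
    have h4 : (⟨((QuotientGroup.mk g : G ⧸ H).out)⁻¹ * (t * (t⁻¹ • (QuotientGroup.mk g : G ⧸ H)).out),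
        hmem _⟩ : H) = p⁻¹ * ⟨g⁻¹ * t * g, hg⟩ * p := by
      apply Subtype.ext
      show ((QuotientGroup.mk g : G ⧸ H).out)⁻¹ * (t * (t⁻¹ • (QuotientGroup.mk g : G ⧸ H)).out)
        = (p : G)⁻¹ * (g⁻¹ * t * g) * (p : G)
      rw [h1, hp]; group
    show φ _ = _
    rw [h4, map_mul, map_mul, map_inv, mul_comm (φ p)⁻¹, inv_mul_cancel_right]
  have hfix : ∀ g : G, t • (QuotientGroup.mk g : G ⧸ H) = QuotientGroup.mk g ↔ g⁻¹ * t * g ∈ H := by
    intro g
    have h2 : t • (QuotientGroup.mk g : G ⧸ H) = QuotientGroup.mk (t * g) := rfl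
    rw [h2, QuotientGroup.eq]
    have h3 : (t * g)⁻¹ * g = g⁻¹ * t * g := by rw [mul_inv_rev, htinv]
    rw [h3]
  -- the set of fixed points with a given value is P-invariant
  let X : A → Set (G ⧸ H) := fun a => {q | t • q = q ∧ F q = a}
  have hinv : ∀ (x : H) (a : A) (q : G ⧸ H), q ∈ X a → (x : G) • q ∈ X a := by
    rintro x a q ⟨h1, h2⟩
    induction q using QuotientGroup.induction_on with
    | H g =>
      have hg := (hfix g).1 h1
      have h3 : ((x : G) * g)⁻¹ * t * ((x : G) * g) = g⁻¹ * t * g := by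
        have := hPt x x.2
        calc ((x : G) * g)⁻¹ * t * ((x : G) * g) = g⁻¹ * (x : G)⁻¹ * (t * x) * g := by group
          _ = g⁻¹ * t * g := by rw [← this]; group
      have hg' : ((x : G) * g)⁻¹ * t * ((x : G) * g) ∈ H := h3 ▸ hg
      have h4 : (x : G) • (QuotientGroup.mk g : G ⧸ H) = QuotientGroup.mk ((x : G) * g) := rfl
      refine ⟨?_, ?_⟩
      · rw [h4]; exact (hfix _).2 hg'
      · rw [h4, hval _ hg', ← h2, hval g hg]
        congr 1
        exact Subtype.ext h3
  have hcardX : ∀ a : A, Nat.card (X a) ≡ Nat.card {q : G ⧸ H // (∀ x : H, (x : G) • q = q) ∧ q ∈ X a} [MOD 2] := by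
    intro a
    let S : SubMulAction H (G ⧸ H) := ⟨X a, fun x {q} hq => hinv x a q hq⟩
    have h1 : IsPGroup 2 H := hH2
    have h2 := h1.card_modEq_card_fixedPoints S
    have h3 : Nat.card (fixedPoints H S) = Nat.card {q : G ⧸ H // (∀ x : H, (x : G) • q = q) ∧ q ∈ X a} := by
      refine Nat.card_congr ⟨fun q => ⟨q.1.1, fun x => ?_, q.1.2⟩, fun q => ⟨⟨q.1, q.2.2⟩, fun x => ?_⟩,
        fun q => rfl, fun q => rfl⟩
      · have := q.2 x
        exact congrArg Subtype.val this
      · exact Subtype.ext (q.2.1 x)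
    rw [h3] at h2
    exact h2
  -- fixed points of P
  have hfixP : ∀ q : G ⧸ H, (∀ x : H, (x : G) • q = q) → q ∈ X (φ ⟨t, htP⟩) := by
    intro q hq
    induction q using QuotientGroup.induction_on with
    | H g =>
      have hgn : g ∈ Subgroup.normalizer (H : Set G) := by
        have h1 : ∀ x ∈ H, g⁻¹ * x * g ∈ H := by
          intro x hx
          have h2 := hq ⟨x⁻¹, H.inv_mem hx⟩
          have h3 : (x⁻¹ : G) • (QuotientGroup.mk g : G ⧸ H) = QuotientGroup.mk (x⁻¹ * g) := rfl
          have h4 : (QuotientGroup.mk (x⁻¹ * g) : G ⧸ H) = QuotientGroup.mk g := h3.symm.trans h2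
          have h5 := QuotientGroup.eq.1 h4
          have h6 : (x⁻¹ * g)⁻¹ * g = g⁻¹ * x * g := by group
          rwa [h6] at h5
        have h7 : H.map (MulAut.conj g⁻¹).toMonoidHom ≤ H := by
          rintro y ⟨x, hx, rfl⟩
          have := h1 x hx
          simpa [MulAut.conj_apply] using this
        have h8 : H.map (MulAut.conj g⁻¹).toMonoidHom = H := by
          refine Subgroup.eq_of_le_of_card_ge h7 ?_
          rw [Subgroup.card_map_of_injective (MulAut.conj g⁻¹).injective]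
        have h9 : g⁻¹ ∈ Subgroup.normalizer (H : Set G) := by
          rw [Subgroup.mem_normalizer_iff]
          intro x
          constructor
          · intro hx
            have := h1 x hx
            simpa using this
          · intro hx
            rw [← h8] at hx
            obtain ⟨y, hy, hyx⟩ := hx
            have : y = x := (MulAut.conj g⁻¹).injective hyx
            exact this ▸ hy
        simpa using Subgroup.inv_mem _ h9
      have h1 : g⁻¹ * t * g = t := by
        have := hN g hgn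
        rw [mul_assoc, ← this]; group
      have hg : g⁻¹ * t * g ∈ H := by rw [h1]; exact htP
      refine ⟨(hfix g).2 hg, ?_⟩
      rw [hval g hg]
      congr 1
      exact Subtype.ext h1
  have hcardfix : ¬ 2 ∣ Nat.card {q : G ⧸ H // ∀ x : H, (x : G) • q = q} := by
    have h1 : IsPGroup 2 H := hH2
    have h2 := h1.card_modEq_card_fixedPoints (G ⧸ H)
    have h3 : Nat.card (fixedPoints H (G ⧸ H)) = Nat.card {q : G ⧸ H // ∀ x : H, (x : G) • q = q} :=
      Nat.card_congr ⟨fun q => ⟨q.1, q.2⟩, fun q => ⟨q.1, q.2⟩, fun _ => rfl, fun _ => rfl⟩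
    rw [h3] at h2
    have h4 : ¬ 2 ∣ Nat.card (G ⧸ H) := hHi
    intro h5
    exact h4 ((Nat.modEq_zero_iff_dvd).1 (h2.trans ((Nat.modEq_zero_iff_dvd).2 h5)))
  -- squares of values
  have hsq : ∀ q : G ⧸ H, t • q = q → F q * F q = 1 := by
    intro q hq
    have := hFF q
    rwa [hq] at this
  rw [htr, hsplit]
  have hcomp := Finset.prod_comp (s := Finset.univ.filter (fun q : G ⧸ H => t • q = q)) (id : A → A) F
  simp only [id] at hcomp
  rw [hcomp]
  have hcnt : ∀ a : A, ({q ∈ Finset.univ.filter (fun q : G ⧸ H => t • q = q) | F q = a} : Finset (G ⧸ H)).card = Nat.card (X a) := by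
    intro a
    rw [Nat.card_eq_fintype_card, Fintype.card_subtype]
    congr 1
    ext q
    simp [X]
  have hpow : ∀ (a : A), a * a = 1 → ∀ n m : ℕ, n ≡ m [MOD 2] → a ^ n = a ^ m := by
    intro a ha n m hnm
    have h1 : orderOf a ∣ 2 := orderOf_dvd_of_pow_eq_one (by rw [pow_two]; exact ha)
    exact pow_eq_pow_iff_modEq.2 (hnm.of_dvd h1)
  set a₀ : A := φ ⟨t, htP⟩ with ha0
  have ha0sq : a₀ * a₀ = 1 := by
    rw [ha0, ← map_mul]
    have : (⟨t, htP⟩ : H) * ⟨t, htP⟩ = 1 := Subtype.ext ht2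
    rw [this, map_one]
  have hX0 : Nat.card {q : G ⧸ H // (∀ x : H, (x : G) • q = q) ∧ q ∈ X a₀}
      = Nat.card {q : G ⧸ H // ∀ x : H, (x : G) • q = q} :=
    Nat.card_congr ⟨fun q => ⟨q.1, q.2.1⟩, fun q => ⟨q.1, q.2, hfixP q.1 q.2⟩, fun _ => rfl, fun _ => rfl⟩
  have hodd : Nat.card (X a₀) ≡ 1 [MOD 2] := by
    refine (hcardX a₀).trans ?_
    rw [hX0]
    have := hcardfix
    rw [Nat.dvd_iff_mod_eq_zero] at this
    show _ % 2 = 1 % 2
    omega
  have heven : ∀ a : A, a ≠ a₀ → Nat.card (X a) ≡ 0 [MOD 2] := by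
    intro a ha
    refine (hcardX a).trans ?_
    have : IsEmpty {q : G ⧸ H // (∀ x : H, (x : G) • q = q) ∧ q ∈ X a} := by
      refine ⟨fun q => ha ?_⟩
      have h1 := hfixP q.1 q.2.1
      exact q.2.2.2.symm.trans h1.2
    rw [Nat.card_of_isEmpty]
  rw [Finset.prod_eq_single a₀]
  · rw [hcnt, hpow a₀ ha0sq _ 1 hodd, pow_one]
  · intro a ha hne
    obtain ⟨q, hq, rfl⟩ := Finset.mem_image.1 ha
    rw [hcnt, hpow _ (hsq q (Finset.mem_filter.1 hq).2) _ 0 (heven _ hne), pow_zero]
  · intro hn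
    exfalso
    apply hn
    have h1 : Nat.card (X a₀) ≠ 0 := by
      intro h0
      rw [h0] at hodd
      exact absurd hodd (by decide)
    have h2 : Nonempty (X a₀) := by
      by_contra hne
      rw [not_nonempty_iff] at hne
      exact h1 (Nat.card_of_isEmpty)
    obtain ⟨q⟩ := h2
    exact Finset.mem_image.2 ⟨q.1, Finset.mem_filter.2 ⟨Finset.mem_univ _, q.2.1⟩, q.2.2⟩

end H88.GL3
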