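import Mathlib

/-! Two-subgroups of `GL₃` over a finite field of odd order (helper88). -/

set_option autoImplicit false

namespace H88.GL3

open MulAction

variable {F : Type*} [Field F] [Fintype F]

theorem two_ne_zero_of_odd (hF : Odd (Fintype.card F)) : (2 : F) ≠ 0 := by
  intro h
  have h1 : CharP F 2 := by
    apply CharTwo.of_one_ne_zero_of_two_eq_zero one_ne_zero h
  obtain ⟨n, hp, hn⟩ := FiniteField.card F 2
  rw [hn] at hF
  have : Even (2 ^ (n : ℕ)) := (Nat.even_pow' n.ne_zero).2 even_two
  exact (Nat.not_even_iff_odd.2 hF) this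

/-- An involutory `2 × 2` matrix of determinant one is scalar. -/
theorem mat_inv_det_one (h2 : (2 : F) ≠ 0) (M : Matrix (Fin 2) (Fin 2) F) (hM : M * M = 1)
    (hd : M.det = 1) : M = 1 ∨ M = -1 := by
  have e00 := congrFun (congrFun hM 0) 0
  have e01 := congrFun (congrFun hM 0) 1
  have e10 := congrFun (congrFun hM 1) 0
  have e11 := congrFun (congrFun hM 1) 1
  rw [Matrix.det_fin_two] at hd
  simp only [Matrix.mul_apply, Fin.sum_univ_two, Matrix.one_apply_eq, Matrix.one_apply_ne (show (0 : Fin 2) ≠ 1 by decide), Matrix.one_apply_ne (show (1 : Fin 2) ≠ 0 by decide)] at e00 e01 e10 e11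
  set a := M 0 0
  set b := M 0 1
  set c := M 1 0
  set d := M 1 1
  -- a² + bc = 1, ad − bc = 1 so a(a + d) = 2
  have h3 : a * (a + d) = 2 := by linear_combination e00 + hd
  have h4 : a + d ≠ 0 := by intro h; rw [h, mul_zero] at h3; exact h2 h3.symm
  have hb : b = 0 := by
    have : b * (a + d) = 0 := by linear_combination e01
    exact (mul_eq_zero.1 this).resolve_right h4
  have hc : c = 0 := by
    have : c * (a + d) = 0 := by linear_combination e10
    exact (mul_eq_zero.1 this).resolve_right h4
  have had : a = d := by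
    have h5 : d * (a + d) = 2 := by linear_combination e11 + hd
    have : (a - d) * (a + d) = 0 := by linear_combination h3 - h5
    exact sub_eq_zero.1 ((mul_eq_zero.1 this).resolve_right h4)
  have ha : a * a = 1 := by rw [hb] at e00; linear_combination e00
  rcases mul_self_eq_one_iff.1 ha with h | h
  · left
    ext i j
    fin_cases i <;> fin_cases j
    · simpa using h
    · simpa using hb
    · simpa using hc
    · simpa using had.symm.trans h
  · right
    ext i j
    fin_cases i <;> fin_cases j
    · simpa using h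
    · simpa using hb
    · simpa using hc
    · simpa using had.symm.trans h

/-- The centralizer of a non-scalar `2 × 2` matrix is commutative. -/
theorem mat_comm_of_comm (M A B : Matrix (Fin 2) (Fin 2) F) (hM : ∀ c : F, M ≠ Matrix.scalar (Fin 2) c)
    (hA : A * M = M * A) (hB : B * M = M * B) : A * B = B * A := by
  have key : ∀ C : Matrix (Fin 2) (Fin 2) F, C * M = M * C →
      C 0 1 * M 1 0 = M 0 1 * C 1 0 ∧ C 0 1 * (M 0 0 - M 1 1) = M 0 1 * (C 0 0 - C 1 1)
        ∧ C 1 0 * (M 0 0 - M 1 1) = M 1 0 * (C 0 0 - C 1 1) := by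
    intro C hC
    have e00 := congrFun (congrFun hC 0) 0
    have e01 := congrFun (congrFun hC 0) 1
    have e10 := congrFun (congrFun hC 1) 0
    simp only [Matrix.mul_apply, Fin.sum_univ_two] at e00 e01 e10
    refine ⟨by linear_combination e00, by linear_combination -e01, by linear_combination e10⟩
  obtain ⟨a1, a2, a3⟩ := key A hA
  obtain ⟨b1, b2, b3⟩ := key B hB
  have hne : M 0 1 ≠ 0 ∨ M 1 0 ≠ 0 ∨ M 0 0 - M 1 1 ≠ 0 := by
    by_contra h
    push Not at h
    apply hM (M 0 0)
    ext i j
    fin_cases i <;> fin_cases j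
    · simp
    · simpa using h.1
    · simpa using h.2.1
    · simpa using (sub_eq_zero.1 h.2.2).symm
  -- A and B have proportional "trace free parts"
  have c1 : A 0 1 * B 1 0 = B 0 1 * A 1 0 := by
    rcases hne with h | h | h
    · apply mul_left_cancel₀ h
      linear_combination A 0 1 * (-b1) + B 0 1 * a1
    · apply mul_left_cancel₀ h
      linear_combination B 1 0 * a1 - A 1 0 * b1
    · apply mul_left_cancel₀ h
      linear_combination A 0 1 * b3 + (B 0 0 - B 1 1) * a1 - A 1 0 * b2
  have c2 : A 0 1 * (B 0 0 - B 1 1) = B 0 1 * (A 0 0 - A 1 1) := by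
    rcases hne with h | h | h
    · apply mul_left_cancel₀ h
      linear_combination B 0 1 * a2 - A 0 1 * b2
    · apply mul_left_cancel₀ h
      linear_combination -(A 0 1) * b3 + B 0 1 * a3 + (M 0 0 - M 1 1) * c1
    · apply mul_left_cancel₀ h
      linear_combination (B 0 0 - B 1 1) * a2 - (A 0 0 - A 1 1) * b2
  have c3 : A 1 0 * (B 0 0 - B 1 1) = B 1 0 * (A 0 0 - A 1 1) := by
    rcases hne with h | h | h
    · apply mul_left_cancel₀ h
      linear_combination -(B 0 0 - B 1 1) * a1 + (A 0 0 - A 1 1) * b1 + M 1 0 * c2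
    · apply mul_left_cancel₀ h
      linear_combination B 1 0 * a3 - A 1 0 * b3
    · apply mul_left_cancel₀ h
      linear_combination (B 0 0 - B 1 1) * a3 - (A 0 0 - A 1 1) * b3
  ext i j
  fin_cases i <;> fin_cases j
  · simp only [Matrix.mul_apply, Fin.sum_univ_two]
    simp
    linear_combination c1
  · simp only [Matrix.mul_apply, Fin.sum_univ_two]
    simp
    linear_combination -c2
  · simp only [Matrix.mul_apply, Fin.sum_univ_two]
    simp
    linear_combination c3
  · simp only [Matrix.mul_apply, Fin.sum_univ_two]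
    simp
    linear_combination -c1

end H88.GL3
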