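import Mathlib
import Cfsg.Agent.H88.GL3b

/-! Two-subgroups of `GL₃` over a finite field of odd order preserve a line and a complement (helper88). -/

set_option autoImplicit false

namespace H88.GL3

open MulAction

variable {F : Type*} [Field F] [Fintype F]

open scoped LinearAlgebra.Projectivization in
theorem exists_split {X : Type*} [Group X] [Finite X] (hX : IsPGroup 2 X) (hF : Odd (Fintype.card F))
    (f : X →* GL (Fin 3) F) :
    ∃ (l : X →* Fˣ) (R : X →* Matrix (Fin 2) (Fin 2) F), ∀ x, l x = 1 → R x = 1 → f x = 1 := by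
  classical
  have h2 : (2 : F) ≠ 0 := two_ne_zero_of_odd hF
  cases nonempty_fintype X
  let V := Fin 3 → F
  let g : X →* (V ≃ₗ[F] V) :=
    (LinearMap.GeneralLinearGroup.generalLinearEquiv F V).toMonoidHom.comp
      ((Matrix.GeneralLinearGroup.toLin (n := Fin 3) (R := F)).toMonoidHom.comp f)
  have hginj : ∀ x, g x = 1 → f x = 1 := by
    intro x hx
    have h3 : (Matrix.GeneralLinearGroup.toLin (n := Fin 3) (R := F)) (f x) = 1 :=
      (LinearMap.GeneralLinearGroup.generalLinearEquiv F V).injective (hx.trans (map_one _).symm)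
    exact (Matrix.GeneralLinearGroup.toLin (n := Fin 3) (R := F)).injective (h3.trans (map_one _).symm)
  letI : MulAction X (ℙ F V) := MulAction.compHom _ g
  have hcard : ¬ 2 ∣ Nat.card (ℙ F V) := by
    have h3 : Module.finrank F V = 3 := by simp [V]
    rw [Projectivization.card_of_finrank F V h3, Nat.card_eq_fintype_card]
    simp only [Finset.sum_range_succ, Finset.sum_range_zero, pow_zero, pow_one, zero_add]
    have h4 : Odd (Fintype.card F ^ 2) := hF.pow
    obtain ⟨a, ha⟩ := hF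
    obtain ⟨b, hb⟩ := h4
    omega
  obtain ⟨D, hD⟩ := hX.nonempty_fixed_point_of_prime_not_dvd_card (ℙ F V) hcard
  induction D using Projectivization.ind with
  | h v hv =>
  have hc : ∀ x : X, ∃ a : Fˣ, g x v = a • v := by
    intro x
    have h3 : g x • Projectivization.mk F v hv = Projectivization.mk F v hv := hD x
    rw [Projectivization.smul_mk, Projectivization.mk_eq_mk_iff] at h3
    obtain ⟨a, ha⟩ := h3
    exact ⟨a, ha.symm⟩
  choose c hc using hc
  have hcu : ∀ a b : Fˣ, a • v = b • v → a = b := by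
    intro a b h
    have h3 : ((a : F) - (b : F)) • v = 0 := by
      rw [sub_smul]
      exact sub_eq_zero.2 h
    rcases smul_eq_zero.1 h3 with h4 | h4
    · exact Units.ext (sub_eq_zero.1 h4)
    · exact absurd h4 hv
  let l : X →* Fˣ := MonoidHom.mk' c (by
    intro x y
    apply hcu
    rw [← hc, map_mul]
    show g x (g y v) = _
    rw [hc y]
    have : g x (c y • v) = c y • g x v := by
      exact (g x).map_smul (c y : F) v
    rw [this, hc x, smul_smul, mul_comm])
  obtain ⟨i, hi⟩ : ∃ i, v i ≠ 0 := by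
    by_contra h
    push Not at h
    exact hv (funext h)
  let ℓ0 : V →ₗ[F] F := (v i)⁻¹ • LinearMap.proj i
  have hℓ0 : ℓ0 v = 1 := by
    show (v i)⁻¹ • v i = 1
    rw [smul_eq_mul, inv_mul_cancel₀ hi]
  let ℓ : V →ₗ[F] F := ∑ x : X, ((c x : Fˣ) : F) • (ℓ0 ∘ₗ ((g x)⁻¹ : V ≃ₗ[F] V).toLinearMap)
  have hℓ_apply : ∀ w, ℓ w = ∑ x : X, ((c x : Fˣ) : F) * ℓ0 ((g x)⁻¹ w) := by
    intro w
    simp [ℓ, LinearMap.sum_apply]
  have hℓ : ∀ (y : X) (w : V), ℓ (g y w) = ((c y : Fˣ) : F) * ℓ w := by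
    intro y w
    rw [hℓ_apply, hℓ_apply, Finset.mul_sum]
    refine Fintype.sum_equiv (Equiv.mulLeft y⁻¹) _ _ (fun x => ?_)
    show ((c x : Fˣ) : F) * ℓ0 ((g x)⁻¹ (g y w)) = ((c y : Fˣ) : F) * (((c (y⁻¹ * x) : Fˣ) : F) * ℓ0 ((g (y⁻¹ * x))⁻¹ w))
    have h3 : ((c x : Fˣ) : F) = ((c y : Fˣ) : F) * ((c (y⁻¹ * x) : Fˣ) : F) := by
      rw [← Units.val_mul]
      congr 1
      have : l x = l y * l (y⁻¹ * x) := by rw [← map_mul]; group
      exact this
    have h4 : (g x)⁻¹ (g y w) = (g (y⁻¹ * x))⁻¹ w := by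
      have : (g x)⁻¹ * g y = (g (y⁻¹ * x))⁻¹ := by
        rw [map_mul, map_inv]; group
      rw [← this]; rfl
    rw [h3, h4, mul_assoc]
  have hℓv : ℓ v ≠ 0 := by
    rw [hℓ_apply]
    have h3 : ∀ x : X, ((c x : Fˣ) : F) * ℓ0 ((g x)⁻¹ v) = 1 := by
      intro x
      have h4 : (g x)⁻¹ v = (c x)⁻¹ • v := by
        have h5 : (g x)⁻¹ = g x⁻¹ := by rw [map_inv]
        rw [h5, hc]
        congr 1
        exact map_inv l x
      rw [h4]
      have h6 : ℓ0 ((c x)⁻¹ • v) = ((c x)⁻¹ : Fˣ) • ℓ0 v := by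
        exact ℓ0.map_smul (((c x)⁻¹ : Fˣ) : F) v
      rw [h6, hℓ0]
      rw [Units.smul_def, smul_eq_mul, mul_one, Units.mul_inv]
    rw [Finset.sum_congr rfl (fun x _ => h3 x)]
    simp only [Finset.sum_const, Finset.card_univ, nsmul_eq_mul, mul_one]
    obtain ⟨n, hn⟩ := (IsPGroup.iff_card).1 hX
    rw [Nat.card_eq_fintype_card] at hn
    rw [hn]
    push_cast
    exact pow_ne_zero _ h2
  -- the invariant plane
  let W : Submodule F V := LinearMap.ker ℓ
  have hWfr : Module.finrank F W = 2 := by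
    have h3 := LinearMap.finrank_range_add_finrank_ker ℓ
    have h4 : LinearMap.range ℓ = ⊤ := by
      rw [LinearMap.range_eq_top]
      intro a
      refine ⟨(a * (ℓ v)⁻¹) • v, ?_⟩
      rw [map_smul, smul_eq_mul, mul_assoc, inv_mul_cancel₀ hℓv, mul_one]
    rw [h4, finrank_top, Module.finrank_self] at h3
    have h5 : Module.finrank F V = 3 := by simp [V]
    rw [h5] at h3
    show Module.finrank F (LinearMap.ker ℓ) = 2
    omega
  have hWinv : ∀ (x : X), ∀ w ∈ W, (g x).toLinearMap w ∈ W := by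
    intro x w hw
    show ℓ (g x w) = 0
    rw [hℓ, show ℓ w = 0 from hw, mul_zero]
  let r : X →* Module.End F W :=
    { toFun := fun x => (g x).toLinearMap.restrict (hWinv x)
      map_one' := by
        ext w
        simp
      map_mul' := by
        intro x y
        ext w
        simp }
  let bW : Module.Basis (Fin 2) F W := Module.finBasisOfFinrankEq F W hWfr
  let R : X →* Matrix (Fin 2) (Fin 2) F :=
    ((LinearMap.toMatrixAlgEquiv bW : Module.End F W ≃ₐ[F] Matrix (Fin 2) (Fin 2) F) :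
      Module.End F W →* Matrix (Fin 2) (Fin 2) F).comp r
  refine ⟨l, R, ?_⟩
  intro x hlx hRx
  apply hginj
  have hr : r x = 1 := by
    apply (LinearMap.toMatrixAlgEquiv bW).injective
    rw [map_one]
    exact hRx
  have hgW : ∀ w ∈ W, g x w = w := by
    intro w hw
    have h3 := congrArg (fun T : Module.End F W => ((T ⟨w, hw⟩ : W) : V)) hr
    exact h3
  have hgv : g x v = v := by
    rw [hc x]
    have : c x = 1 := hlx
    rw [this, one_smul]
  apply LinearEquiv.ext
  intro w
  show g x w = w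
  have h3 : w - (ℓ w * (ℓ v)⁻¹) • v ∈ W := by
    show ℓ _ = 0
    rw [map_sub, map_smul, smul_eq_mul, mul_assoc, inv_mul_cancel₀ hℓv, mul_one, sub_self]
  have h4 : w = (w - (ℓ w * (ℓ v)⁻¹) • v) + (ℓ w * (ℓ v)⁻¹) • v := by abel
  rw [h4, map_add, hgW _ h3, map_smul, hgv]

end H88.GL3
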