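import Mathlib

/-!
# Finite special Jordan division algebras are commutative (via Chevalley–Warning)
-/

set_option autoImplicit false

namespace Cfsg.Agent.H88.Jor

section Closure

variable {k K : Type*} [Field k] [Field K] [Algebra k K] {r : ℕ}

/-- scalar extension of a space of matrices -/
def extd (K : Type*) [Field K] [Algebra k K] (J : Submodule k (Matrix (Fin r) (Fin r) k)) :
    Submodule K (Matrix (Fin r) (Fin r) K) :=
  Submodule.span K ((algebraMap k K).mapMatrix '' (J : Set (Matrix (Fin r) (Fin r) k)))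

variable {J : Submodule k (Matrix (Fin r) (Fin r) k)}

theorem tri (hU : ∀ a ∈ J, ∀ b ∈ J, a * b * a ∈ J) (a b c : Matrix (Fin r) (Fin r) k)
    (ha : a ∈ J) (hb : b ∈ J) (hc : c ∈ J) : a * b * c + c * b * a ∈ J := by
  have h := hU (a + c) (J.add_mem ha hc) b hb
  have e : a * b * c + c * b * a = (a + c) * b * (a + c) - a * b * a - c * b * c := by
    noncomm_ring
  rw [e]
  exact J.sub_mem (J.sub_mem h (hU a ha b hb)) (hU c hc b hb)

theorem tri_ext (hU : ∀ a ∈ J, ∀ b ∈ J, a * b * a ∈ J) (x y z : Matrix (Fin r) (Fin r) K)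
    (hx : x ∈ extd K J) (hy : y ∈ extd K J) (hz : z ∈ extd K J) :
    x * y * z + z * y * x ∈ extd K J := by
  have step1 : ∀ a ∈ J, ∀ b ∈ J, ∀ z ∈ extd K J,
      (algebraMap k K).mapMatrix a * (algebraMap k K).mapMatrix b * z +
        z * (algebraMap k K).mapMatrix b * (algebraMap k K).mapMatrix a ∈ extd K J := by
    intro a ha b hb z hz
    induction hz using Submodule.span_induction with
    | mem w hw =>
      obtain ⟨c, hc, rfl⟩ := hw
      rw [← map_mul, ← map_mul, ← map_mul, ← map_mul, ← map_add]
      exact Submodule.subset_span ⟨_, tri hU a b c ha hb hc, rfl⟩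
    | zero => rw [mul_zero, zero_mul, zero_mul, add_zero]; exact zero_mem _
    | add u v _ _ hu hv =>
      have e : (algebraMap k K).mapMatrix a * (algebraMap k K).mapMatrix b * (u + v) +
          (u + v) * (algebraMap k K).mapMatrix b * (algebraMap k K).mapMatrix a =
          ((algebraMap k K).mapMatrix a * (algebraMap k K).mapMatrix b * u +
          u * (algebraMap k K).mapMatrix b * (algebraMap k K).mapMatrix a) +
          ((algebraMap k K).mapMatrix a * (algebraMap k K).mapMatrix b * v +
          v * (algebraMap k K).mapMatrix b * (algebraMap k K).mapMatrix a) := by noncomm_ring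
      rw [e]
      exact add_mem hu hv
    | smul c u _ hu =>
      rw [Matrix.mul_smul, Matrix.smul_mul, Matrix.smul_mul, ← smul_add]
      exact Submodule.smul_mem _ _ hu
  have step2 : ∀ a ∈ J, ∀ y ∈ extd K J, ∀ z ∈ extd K J,
      (algebraMap k K).mapMatrix a * y * z + z * y * (algebraMap k K).mapMatrix a ∈ extd K J := by
    intro a ha y hy z hz
    induction hy using Submodule.span_induction with
    | mem w hw =>
      obtain ⟨c, hc, rfl⟩ := hw
      exact step1 a ha c hc z hz
    | zero => rw [mul_zero, zero_mul, mul_zero, zero_mul, add_zero]; exact zero_mem _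
    | add u v _ _ hu hv =>
      have e : (algebraMap k K).mapMatrix a * (u + v) * z +
          z * (u + v) * (algebraMap k K).mapMatrix a =
          ((algebraMap k K).mapMatrix a * u * z + z * u * (algebraMap k K).mapMatrix a) +
          ((algebraMap k K).mapMatrix a * v * z + z * v * (algebraMap k K).mapMatrix a) := by
        noncomm_ring
      rw [e]
      exact add_mem hu hv
    | smul c u _ hu =>
      rw [Matrix.mul_smul, Matrix.smul_mul, Matrix.mul_smul, Matrix.smul_mul, ← smul_add]
      exact Submodule.smul_mem _ _ hu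
  induction hx using Submodule.span_induction with
  | mem w hw =>
    obtain ⟨c, hc, rfl⟩ := hw
    exact step2 c hc y hy z hz
  | zero => rw [zero_mul, zero_mul, mul_zero, add_zero]; exact zero_mem _
  | add u v _ _ hu hv =>
    have e : (u + v) * y * z + z * y * (u + v) = (u * y * z + z * y * u) + (v * y * z + z * y * v) := by
      noncomm_ring
    rw [e]
    exact add_mem hu hv
  | smul c u _ hu =>
    rw [Matrix.smul_mul, Matrix.smul_mul, Matrix.mul_smul, ← smul_add]
    exact Submodule.smul_mem _ _ hu

theorem U_ext (hU : ∀ a ∈ J, ∀ b ∈ J, a * b * a ∈ J) (x y : Matrix (Fin r) (Fin r) K)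
    (hx : x ∈ extd K J) (hy : y ∈ extd K J) : x * y * x ∈ extd K J := by
  induction hx using Submodule.span_induction with
  | mem w hw =>
    obtain ⟨c, hc, rfl⟩ := hw
    induction hy using Submodule.span_induction with
    | mem w hw =>
      obtain ⟨d, hd, rfl⟩ := hw
      rw [← map_mul, ← map_mul]
      exact Submodule.subset_span ⟨_, hU c hc d hd, rfl⟩
    | zero => rw [mul_zero, zero_mul]; exact zero_mem _
    | add u v _ _ hu hv =>
      rw [mul_add, add_mul]
      exact add_mem hu hv
    | smul c u _ hu =>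
      rw [Matrix.mul_smul, Matrix.smul_mul]
      exact Submodule.smul_mem _ _ hu
  | zero => rw [zero_mul, zero_mul]; exact zero_mem _
  | add u v hu' hv' hu hv =>
    have e : (u + v) * y * (u + v) = (u * y * u + v * y * v) + (u * y * v + v * y * u) := by
      noncomm_ring
    rw [e]
    exact add_mem (add_mem hu hv) (tri_ext hU u y v hu' hy hv')
  | smul c u _ hu =>
    rw [Matrix.smul_mul, Matrix.smul_mul, Matrix.mul_smul]
    exact Submodule.smul_mem _ _ (Submodule.smul_mem _ _ hu)

theorem pow_ext (hU : ∀ a ∈ J, ∀ b ∈ J, a * b * a ∈ J) (h1 : (1 : Matrix (Fin r) (Fin r) k) ∈ J)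
    (x : Matrix (Fin r) (Fin r) K) (hx : x ∈ extd K J) (n : ℕ) : x ^ n ∈ extd K J := by
  induction n using Nat.twoStepInduction with
  | zero =>
    rw [pow_zero]
    refine Submodule.subset_span ⟨1, h1, map_one _⟩
  | one => rwa [pow_one]
  | more n ih _ =>
    have e : x ^ (n + 2) = x * x ^ n * x := by
      rw [← pow_succ', ← pow_succ]
    rw [e]
    exact U_ext hU _ _ hx ih

end Closure

section Degree

open MvPolynomial

variable {k : Type*} [Field k] {N : ℕ}

/-- weighted degree -/
noncomputable def wd (P : Polynomial (MvPolynomial (Fin N) k)) : ℕ :=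
  ((finSuccEquiv k N).symm P).totalDegree

theorem wd_mul {P Q : Polynomial (MvPolynomial (Fin N) k)} (hP : P ≠ 0) (hQ : Q ≠ 0) :
    wd (P * Q) = wd P + wd Q := by
  rw [wd, map_mul, totalDegree_mul_of_isDomain]
  · rfl
  · simpa using hP
  · simpa using hQ

theorem coeff_add_le_wd (P : Polynomial (MvPolynomial (Fin N) k)) (i : ℕ) (hi : P.coeff i ≠ 0) :
    (P.coeff i).totalDegree + i ≤ wd P := by
  have := totalDegree_coeff_finSuccEquiv_add_le ((finSuccEquiv k N).symm P) i (by simpa using hi)
  rw [AlgEquiv.apply_symm_apply] at this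
  exact this

theorem finSucc_rename (a : MvPolynomial (Fin N) k) :
    finSuccEquiv k N (rename Fin.succ a) = Polynomial.C a := by
  induction a using MvPolynomial.induction_on with
  | C c => rw [rename_C, finSuccEquiv_apply, eval₂Hom_C]; rfl
  | add p q hp hq => rw [map_add, map_add, hp, hq, map_add]
  | mul_X p n hp => rw [map_mul, map_mul, hp, rename_X, finSuccEquiv_X_succ, map_mul]

theorem natDegree_le_wd (P : Polynomial (MvPolynomial (Fin N) k)) (hP : P.Monic) :
    P.natDegree ≤ wd P := by
  have := coeff_add_le_wd P P.natDegree (by rw [hP.coeff_natDegree]; exact one_ne_zero)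
  omega

theorem totalDegree_det_le {σ : Type*} {r : ℕ} (M : Matrix (Fin r) (Fin r) (MvPolynomial σ k))
    (h : ∀ i j, (M i j).totalDegree ≤ 1) : M.det.totalDegree ≤ r := by
  rw [Matrix.det_apply]
  apply totalDegree_finsetSum_le
  intro s _
  have h1 : (∏ i, M (s i) i).totalDegree ≤ r := by
    refine (totalDegree_finsetProd _ _).trans ?_
    calc ∑ i, (M (s i) i).totalDegree ≤ ∑ _i : Fin r, 1 := Finset.sum_le_sum fun i _ => h _ _
      _ = r := by simp
  rcases Int.units_eq_one_or (Equiv.Perm.sign s) with h2 | h2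
  · rw [h2, one_smul]; exact h1
  · rw [h2]
    simpa using h1

theorem wd_charpoly_le {r : ℕ} (M : Matrix (Fin r) (Fin r) (MvPolynomial (Fin N) k))
    (h : ∀ i j, (M i j).totalDegree ≤ 1) : wd M.charpoly ≤ r := by
  rw [wd, Matrix.charpoly]
  have e : (finSuccEquiv k N).symm M.charmatrix.det =
      (((finSuccEquiv k N).symm : _ →+* MvPolynomial (Fin (N + 1)) k).mapMatrix M.charmatrix).det := by
    rw [← RingHom.map_det]
    rfl
  rw [e]
  apply totalDegree_det_le
  intro i j
  rw [RingHom.mapMatrix_apply, Matrix.map_apply]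
  have hC : ∀ a : MvPolynomial (Fin N) k, a.totalDegree ≤ 1 →
      ((finSuccEquiv k N).symm (Polynomial.C a)).totalDegree ≤ 1 := by
    intro a ha
    have e1 : (finSuccEquiv k N).symm (Polynomial.C a) = rename Fin.succ a := by
      rw [AlgEquiv.symm_apply_eq, finSucc_rename]
    rw [e1]
    exact (totalDegree_rename_le _ _).trans ha
  have hX : ((finSuccEquiv k N).symm Polynomial.X).totalDegree ≤ 1 := by
    have e1 : (finSuccEquiv k N).symm Polynomial.X = X 0 := by
      rw [AlgEquiv.symm_apply_eq, finSuccEquiv_X_zero]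
    rw [e1, totalDegree_X]
  change ((finSuccEquiv k N).symm (M.charmatrix i j)).totalDegree ≤ 1
  by_cases hij : i = j
  · subst hij
    rw [Matrix.charmatrix_apply_eq, map_sub]
    exact (totalDegree_sub _ _).trans (max_le hX (hC _ (h _ _)))
  · rw [Matrix.charmatrix_apply_ne _ _ _ hij, map_neg, totalDegree_neg]
    exact hC _ (h _ _)

end Degree

end Cfsg.Agent.H88.Jor
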