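import Cfsg.Agent.H88.Jor1

/-!
# Finite special Jordan division algebras are commutative (via Chevalley–Warning)
-/

set_option autoImplicit false

namespace Cfsg.Agent.H88.Jor

open MvPolynomial

section Main

variable {k : Type*} [Field k] {r N : ℕ}

/-- generic element -/
noncomputable def gen (s : Fin N → Matrix (Fin r) (Fin r) k) :
    Matrix (Fin r) (Fin r) (MvPolynomial (Fin N) k) :=
  fun i j => ∑ t, X t * C (s t i j)

theorem gen_deg (s : Fin N → Matrix (Fin r) (Fin r) k) (i j : Fin r) :
    (gen s i j).totalDegree ≤ 1 := by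
  apply totalDegree_finsetSum_le
  intro t _
  refine (totalDegree_mul _ _).trans ?_
  rw [totalDegree_X, totalDegree_C]

theorem gen_eval (s : Fin N → Matrix (Fin r) (Fin r) k) (x : Fin N → k) :
    (gen s).map (eval x) = ∑ t, x t • s t := by
  ext i j
  rw [Matrix.map_apply, Matrix.sum_apply]
  simp [gen]

/-- The degree of the minimal polynomial of the generic element. -/
theorem deg_minpoly_ge [Finite k] (p : ℕ) [hp : Fact p.Prime] [CharP k p] (hr : 0 < r)
    (s : Fin N → Matrix (Fin r) (Fin r) k)
    (hu : ∀ x : Fin N → k, x ≠ 0 → IsUnit (∑ t, x t • s t)) :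
    N ≤ (minpoly (FractionRing (MvPolynomial (Fin N) k))
      ((gen s).map (algebraMap _ (FractionRing (MvPolynomial (Fin N) k))))).natDegree := by
  classical
  haveI : Fintype k := Fintype.ofFinite k
  haveI : Nonempty (Fin r) := ⟨⟨0, hr⟩⟩
  set K := FractionRing (MvPolynomial (Fin N) k)
  set ξ : Matrix (Fin r) (Fin r) K := (gen s).map (algebraMap _ K) with hξ
  have hint : IsIntegral K ξ := Matrix.isIntegral ξ
  have hmon := minpoly.monic hint
  have hdiv : minpoly K ξ ∣ ((gen s).charpoly).map (algebraMap (MvPolynomial (Fin N) k) K) := by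
    rw [← Matrix.charpoly_map]
    exact Matrix.minpoly_dvd_charpoly ξ
  obtain ⟨μ, hμ⟩ := IsIntegrallyClosed.eq_map_mul_C_of_dvd K (gen s).charpoly_monic hdiv
  rw [hmon.leadingCoeff, Polynomial.C_1, mul_one] at hμ
  have hinj : Function.Injective (algebraMap (MvPolynomial (Fin N) k) K) :=
    IsFractionRing.injective _ _
  have hμmon : μ.Monic := Polynomial.monic_of_injective hinj (by rw [hμ]; exact hmon)
  have hμd : μ ∣ (gen s).charpoly := by
    rw [← hμ] at hdiv
    exact (Polynomial.map_dvd_map _ hinj hμmon).mp hdiv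
  have hdeg : μ.natDegree = (minpoly K ξ).natDegree := by
    rw [← hμ, Polynomial.natDegree_map_eq_of_injective hinj]
  rw [← hdeg]
  by_contra hlt
  rw [not_le] at hlt
  have hpos : 0 < μ.natDegree := by
    rw [hdeg]
    exact minpoly.natDegree_pos hint
  obtain ⟨ν, hν⟩ := hμd
  have hνmon : ν.Monic := by
    have := (gen s).charpoly_monic
    rw [hν] at this
    exact hμmon.of_mul_monic_left this
  have hsum : μ.natDegree + ν.natDegree = r := by
    have h1 := (gen s).charpoly_natDegree_eq_dim
    rw [hν, hμmon.natDegree_mul hνmon, Fintype.card_fin] at h1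
    exact h1
  have hw : wd μ ≤ μ.natDegree := by
    have h1 := wd_charpoly_le (gen s) (gen_deg s)
    rw [hν, wd_mul hμmon.ne_zero hνmon.ne_zero] at h1
    have h2 := natDegree_le_wd ν hνmon
    omega
  have htd : (μ.coeff 0).totalDegree < N := by
    by_cases h0 : μ.coeff 0 = 0
    · rw [h0, totalDegree_zero]; omega
    · have := coeff_add_le_wd μ 0 h0
      omega
  have hcw := char_dvd_card_solutions p (f := μ.coeff 0) (by rw [Fintype.card_fin]; exact htd)
  have hx : ∀ x : Fin N → k, eval x (μ.coeff 0) = 0 ↔ x = 0 := by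
    intro x
    have hdx : μ.map (eval x) ∣ ((∑ t, x t • s t : Matrix (Fin r) (Fin r) k)).charpoly := by
      rw [← gen_eval, Matrix.charpoly_map, hν, Polynomial.map_mul]
      exact Dvd.intro _ rfl
    constructor
    · intro h0
      by_contra hx0
      have h1 : (∑ t, x t • s t : Matrix (Fin r) (Fin r) k).charpoly.coeff 0 = 0 := by
        obtain ⟨ρ, hρ⟩ := hdx
        rw [hρ, Polynomial.mul_coeff_zero, Polynomial.coeff_map, h0, zero_mul]
      have h2 : (∑ t, x t • s t : Matrix (Fin r) (Fin r) k).det = 0 := by
        rw [Matrix.det_eq_sign_charpoly_coeff, h1, mul_zero]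
      have h3 := (Matrix.isUnit_iff_isUnit_det _).mp (hu x hx0)
      rw [h2] at h3
      exact not_isUnit_zero h3
    · rintro rfl
      have h1 : (∑ t, (0 : Fin N → k) t • s t : Matrix (Fin r) (Fin r) k) = 0 := by simp
      rw [h1, Matrix.charpoly_zero, Fintype.card_fin] at hdx
      obtain ⟨i, hi, hass⟩ := (dvd_prime_pow Polynomial.prime_X _).mp hdx
      have h2 : μ.map (eval 0) = Polynomial.X ^ i :=
        Polynomial.eq_of_monic_of_associated (hμmon.map _) (Polynomial.monic_X_pow i) hass
      have h3 : i = μ.natDegree := by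
        have := congrArg Polynomial.natDegree h2
        rw [hμmon.natDegree_map, Polynomial.natDegree_X_pow] at this
        exact this.symm
      have h4 := congrArg (fun P => Polynomial.coeff P 0) h2
      simp only [Polynomial.coeff_map, Polynomial.coeff_X_pow] at h4
      rw [h4, if_neg]
      omega
  have hcard : Fintype.card { x : Fin N → k // eval x (μ.coeff 0) = 0 } = 1 := by
    rw [Fintype.card_eq_one_iff]
    exact ⟨⟨0, (hx 0).mpr rfl⟩, fun y => Subtype.ext ((hx y.1).mp y.2)⟩
  rw [hcard] at hcw
  exact hp.out.one_lt.ne' (Nat.dvd_one.mp hcw)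

/-- Finite special Jordan division algebras are commutative. -/
theorem comm_of_isUnit [Finite k] (p : ℕ) [hp : Fact p.Prime] [CharP k p]
    (J : Submodule k (Matrix (Fin r) (Fin r) k))
    (h1 : (1 : Matrix (Fin r) (Fin r) k) ∈ J) (hu : ∀ a ∈ J, a ≠ 0 → IsUnit a)
    (hU : ∀ a ∈ J, ∀ b ∈ J, a * b * a ∈ J) : ∀ a ∈ J, ∀ b ∈ J, a * b = b * a := by
  classical
  intro a ha b hb
  rcases Nat.eq_zero_or_pos r with hr | hr
  · subst hr
    ext i
    exact i.elim0
  let bs := Module.finBasis k J
  set N := Module.finrank k J with hN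
  let s : Fin N → Matrix (Fin r) (Fin r) k := fun t => (bs t : Matrix (Fin r) (Fin r) k)
  let K := FractionRing (MvPolynomial (Fin N) k)
  have hu' : ∀ x : Fin N → k, x ≠ 0 → IsUnit (∑ t, x t • s t) := by
    intro x hx
    have e : (∑ t, x t • s t) = ((∑ t, x t • bs t : J) : Matrix (Fin r) (Fin r) k) := by
      rw [Submodule.coe_sum]
      rfl
    rw [e]
    apply hu _ (Submodule.coe_mem _)
    intro h0
    apply hx
    have h2 : (∑ t, x t • bs t : J) = 0 := Subtype.ext h0
    have h3 := (Fintype.linearIndependent_iff.mp bs.linearIndependent) x h2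
    funext t
    exact h3 t
  have hdeg := deg_minpoly_ge p hr s hu'
  set ξ : Matrix (Fin r) (Fin r) K := (gen s).map (algebraMap _ K) with hξ
  -- `ξ` is in the extension
  have hsp : ∀ t, (algebraMap k K).mapMatrix (s t) ∈ extd K J := fun t =>
    Submodule.subset_span ⟨_, (bs t).2, rfl⟩
  have hξmem : ξ ∈ extd K J := by
    have e : ξ = ∑ t, (algebraMap (MvPolynomial (Fin N) k) K (X t)) •
        (algebraMap k K).mapMatrix (s t) := by
      ext i j
      rw [Matrix.sum_apply, hξ, Matrix.map_apply, gen, map_sum]
      refine Finset.sum_congr rfl fun t _ => ?_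
      rw [map_mul, Matrix.smul_apply, RingHom.mapMatrix_apply, Matrix.map_apply, smul_eq_mul,
        IsScalarTower.algebraMap_apply k (MvPolynomial (Fin N) k) K]
      rfl
    rw [e]
    exact Submodule.sum_mem _ fun t _ => Submodule.smul_mem _ _ (hsp t)
  -- dimension
  have hfin : Module.finrank K (extd K J) ≤ N := by
    have e : extd K J = Submodule.span K (Set.range fun t => (algebraMap k K).mapMatrix (s t)) := by
      apply le_antisymm
      · rw [extd, Submodule.span_le]
        rintro _ ⟨c, hc, rfl⟩
        have e2 : c = ∑ t, bs.repr ⟨c, hc⟩ t • s t := by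
          have := congrArg (fun z : J => (z : Matrix (Fin r) (Fin r) k)) (bs.sum_repr ⟨c, hc⟩)
          simp only [Submodule.coe_sum, Submodule.coe_smul] at this
          exact this.symm
        rw [e2, map_sum]
        refine Submodule.sum_mem _ fun t _ => ?_
        have e3 : (algebraMap k K).mapMatrix (bs.repr ⟨c, hc⟩ t • s t) =
            (algebraMap k K (bs.repr ⟨c, hc⟩ t)) • (algebraMap k K).mapMatrix (s t) := by
          ext i j
          simp
        rw [e3]
        exact Submodule.smul_mem _ _ (Submodule.subset_span ⟨t, rfl⟩)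
      · rw [Submodule.span_le]
        rintro _ ⟨t, rfl⟩
        exact hsp t
    rw [e]
    refine (finrank_range_le_card _).trans ?_
    rw [Fintype.card_fin]
  -- the powers span
  have hli := linearIndependent_pow (K := K) ξ
  let v : Fin (minpoly K ξ).natDegree → extd K J := fun i => ⟨ξ ^ (i : ℕ), pow_ext hU h1 ξ hξmem _⟩
  have hli2 : LinearIndependent K v := by
    apply LinearIndependent.of_comp (extd K J).subtype
    exact hli
  have hcard : Fintype.card (Fin (minpoly K ξ).natDegree) = Module.finrank K (extd K J) := by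
    apply le_antisymm
    · exact hli2.fintype_card_le_finrank
    · rw [Fintype.card_fin]
      exact hfin.trans hdeg
  have hspan := hli2.span_eq_top_of_card_eq_finrank' hcard
  have hin : ∀ y ∈ extd K J, ∃ f : Polynomial K, y = Polynomial.aeval ξ f := by
    intro y hy
    have h2 : (⟨y, hy⟩ : extd K J) ∈ Submodule.span K (Set.range v) := by
      rw [hspan]; exact Submodule.mem_top
    have h3 : (y : Matrix (Fin r) (Fin r) K) ∈ (Polynomial.aeval (R := K) ξ).range.toSubmodule := by
      have h4 : Submodule.map (extd K J).subtype (Submodule.span K (Set.range v)) ≤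
          (Polynomial.aeval (R := K) ξ).range.toSubmodule := by
        rw [Submodule.map_span, Submodule.span_le]
        rintro _ ⟨_, ⟨i, rfl⟩, rfl⟩
        refine ⟨Polynomial.X ^ (i : ℕ), ?_⟩
        simp [v]
      exact h4 ⟨_, h2, rfl⟩
    obtain ⟨f, hf⟩ := h3
    exact ⟨f, hf.symm⟩
  obtain ⟨f, hf⟩ := hin _ (Submodule.subset_span ⟨a, ha, rfl⟩ :
    (algebraMap k K).mapMatrix a ∈ extd K J)
  obtain ⟨g, hg⟩ := hin _ (Submodule.subset_span ⟨b, hb, rfl⟩ :
    (algebraMap k K).mapMatrix b ∈ extd K J)
  have hc : (algebraMap k K).mapMatrix (a * b) = (algebraMap k K).mapMatrix (b * a) := by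
    rw [map_mul, map_mul, hf, hg, ← map_mul, ← map_mul, mul_comm]
  have hinj : Function.Injective ((algebraMap k K).mapMatrix : Matrix (Fin r) (Fin r) k →+* _) := by
    intro x y hxy
    ext i j
    have := congrFun (congrFun hxy i) j
    exact (algebraMap k K).injective this
  exact hinj hc

end Main

end Cfsg.Agent.H88.Jor
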