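import Cfsg.Agent.H88.Jor2
import Cfsg.Agent.Ito.AZ

/-!
# From inverse-closed families of homomorphisms to a field
-/

set_option autoImplicit false

namespace Cfsg.Agent.H88.Jor

theorem nsmul_mat (p : ℕ) [Fact p.Prime] {r : ℕ} (a : Matrix (Fin r) (Fin r) (ZMod p)) :
    p • a = 0 := by
  ext i j
  rw [Matrix.smul_apply, nsmul_eq_mul, CharP.cast_eq_zero, zero_mul]
  rfl

/-- A finite Jordan division algebra of matrices over the prime field is a field. -/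
theorem field_of_jordan (p : ℕ) [hp : Fact p.Prime] {r : ℕ}
    (J : AddSubgroup (Matrix (Fin r) (Fin r) (ZMod p))) (h1 : 1 ∈ J)
    (h10 : (1 : Matrix (Fin r) (Fin r) (ZMod p)) ≠ 0)
    (hu : ∀ a ∈ J, a ≠ 0 → ∃ b ∈ J, a * b = 1)
    (hU : ∀ a ∈ J, ∀ b ∈ J, a * b * a ∈ J) :
    ∃ (F : Type) (_ : Field F) (_ : Fintype F) (ι : F →+* Matrix (Fin r) (Fin r) (ZMod p)),
      Function.Injective ι ∧ ∀ a, a ∈ J ↔ ∃ f, ι f = a := by
  classical
  have hcomm : ∀ a ∈ J, ∀ b ∈ J, a * b = b * a := by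
    apply comm_of_isUnit p (AddSubgroup.toZModSubmodule p J)
    · exact h1
    · intro a ha ha0
      obtain ⟨b, -, hb⟩ := hu a ha ha0
      exact ⟨⟨a, b, hb, mul_eq_one_comm.mp hb⟩, rfl⟩
    · exact hU
  have hsq : ∀ a ∈ J, a * a ∈ J := by
    intro a ha
    have := hU a ha 1 h1
    rwa [mul_one] at this
  have hmul : ∀ a ∈ J, ∀ b ∈ J, a * b ∈ J := by
    rcases hp.out.eq_two_or_odd' with h2 | hodd
    · have hsurj : Function.Surjective (fun a : J => (⟨a.1 * a.1, hsq a.1 a.2⟩ : J)) := by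
        apply Finite.surjective_of_injective
        intro a b hab
        have hab' : a.1 * a.1 = b.1 * b.1 := congrArg Subtype.val hab
        have hd : (a.1 - b.1) * (a.1 - b.1) = 0 := by
          have e : (a.1 - b.1) * (a.1 - b.1) = a.1 * a.1 + b.1 * b.1 - (a.1 * b.1 + b.1 * a.1) := by
            noncomm_ring
          rw [e, hcomm b.1 b.2 a.1 a.2, ← hab', ← two_nsmul, ← two_nsmul, ← smul_sub]
          have h3 := nsmul_mat p (a.1 * a.1 - a.1 * b.1)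
          have h4 : (2 : ℕ) • (a.1 * a.1 - a.1 * b.1) = p • (a.1 * a.1 - a.1 * b.1) :=
            congrArg (fun n : ℕ => n • (a.1 * a.1 - a.1 * b.1)) h2.symm
          exact h4.trans h3
        by_contra hne
        have hne' : a.1 - b.1 ≠ 0 := fun h => hne (Subtype.ext (sub_eq_zero.mp h))
        obtain ⟨c, hc, hc1⟩ := hu _ (J.sub_mem a.2 b.2) hne'
        apply hne'
        calc a.1 - b.1 = (a.1 - b.1) * ((a.1 - b.1) * c) := by rw [hc1, mul_one]
          _ = 0 := by rw [← mul_assoc, hd, zero_mul]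
      intro a ha b hb
      obtain ⟨c, hc⟩ := hsurj ⟨a, ha⟩
      have hc' : c.1 * c.1 = a := congrArg Subtype.val hc
      have := hU c.1 c.2 b hb
      rwa [mul_assoc, hcomm b hb c.1 c.2, ← mul_assoc, hc'] at this
    · intro a ha b hb
      have h2 : (2 : ℕ) • (a * b) ∈ J := by
        have e : (2 : ℕ) • (a * b) = (a + b) * (a + b) - a * a - b * b := by
          have e2 : (a + b) * (a + b) - a * a - b * b = a * b + b * a := by noncomm_ring
          rw [e2, hcomm b hb a ha, two_nsmul]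
        rw [e]
        exact J.sub_mem (J.sub_mem (hsq _ (J.add_mem ha hb)) (hsq a ha)) (hsq b hb)
      obtain ⟨m, hm⟩ := hodd
      have e : a * b = (m + 1) • ((2 : ℕ) • (a * b)) := by
        rw [← mul_nsmul', show (m + 1) * 2 = p + 1 by omega, succ_nsmul, nsmul_mat, zero_add]
      rw [e]
      exact J.nsmul_mem h2 _
  let S : Subring (Matrix (Fin r) (Fin r) (ZMod p)) :=
    { carrier := J
      mul_mem' := fun {a b} ha hb => hmul a ha b hb
      one_mem' := h1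
      add_mem' := fun {a b} ha hb => J.add_mem ha hb
      zero_mem' := J.zero_mem
      neg_mem' := fun {a} ha => J.neg_mem ha }
  have hF : IsField S :=
    { exists_pair_ne := ⟨0, 1, fun h => h10 (congrArg Subtype.val h).symm⟩
      mul_comm := fun a b => Subtype.ext (hcomm a.1 a.2 b.1 b.2)
      mul_inv_cancel := fun {a} ha => by
        obtain ⟨b, hb, hb1⟩ := hu a.1 a.2 (fun h => ha (Subtype.ext h))
        exact ⟨⟨b, hb⟩, Subtype.ext hb1⟩ }
  letI : Field S := hF.toField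
  refine ⟨S, hF.toField, Fintype.ofFinite S, S.subtype, Subtype.val_injective, fun a => ?_⟩
  constructor
  · intro ha
    exact ⟨⟨a, ha⟩, rfl⟩
  · rintro ⟨f, rfl⟩
    exact f.2

/-- Coordinates. -/
theorem coords_aux (p : ℕ) [hp : Fact p.Prime] {X Y : Type*} [AddCommGroup X] [AddCommGroup Y]
    [Finite X] [Finite Y] [Module (ZMod p) X] (hX : Nontrivial X)
    (Φ : AddSubgroup (Y →+ X)) (Ψ : AddSubgroup (X →+ Y))
    (hΦ : ∀ φ ∈ Φ, φ ≠ 0 → ∃ ψ ∈ Ψ, (∀ x, φ (ψ x) = x) ∧ ∀ y, ψ (φ y) = y)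
    (hΨ : ∀ ψ ∈ Ψ, ψ ≠ 0 → ∃ φ ∈ Φ, (∀ x, φ (ψ x) = x) ∧ ∀ y, ψ (φ y) = y)
    (hcard : Nat.card Φ = Nat.card X) :
    ∃ (F : Type) (_ : Field F) (_ : Fintype F) (ξ : X ≃+ F) (η : Y ≃+ F),
      (∀ φ ∈ Φ, ∃ f, ∀ y, ξ (φ y) = f * η y) ∧ (∀ f, ∃ φ ∈ Φ, ∀ y, ξ (φ y) = f * η y) ∧
      (∀ ψ ∈ Ψ, ∃ f, ∀ x, η (ψ x) = f * ξ x) ∧ (∀ f, ∃ ψ ∈ Ψ, ∀ x, η (ψ x) = f * ξ x) := by
  classical
  -- a unit `e`
  obtain ⟨e, he, he0⟩ : ∃ e ∈ Φ, e ≠ 0 := by
    haveI : Finite (Y →+ X) := DFunLike.finite _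
    have : Nontrivial Φ := by
      rw [← Finite.one_lt_card_iff_nontrivial, hcard, Finite.one_lt_card_iff_nontrivial]
      exact hX
    obtain ⟨x, hx⟩ := exists_ne (0 : Φ)
    exact ⟨x.1, x.2, fun h => hx (Subtype.ext h)⟩
  obtain ⟨e', he', hee, hee'⟩ := hΦ e he he0
  -- the Jordan algebra
  let J0 : AddSubgroup (AddMonoid.End X) :=
    Φ.map ((AddMonoidHom.compHom : (Y →+ X) →+ (X →+ Y) →+ (X →+ X)).flip e')
  have hJ0 : ∀ g : AddMonoid.End X, g ∈ J0 ↔ ∃ φ ∈ Φ, ∀ x, g x = φ (e' x) := by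
    intro g
    constructor
    · rintro ⟨φ, hφ, rfl⟩
      exact ⟨φ, hφ, fun x => rfl⟩
    · rintro ⟨φ, hφ, h⟩
      exact ⟨φ, hφ, by ext x; exact (h x).symm⟩
  have h1J : (1 : AddMonoid.End X) ∈ J0 := (hJ0 _).mpr ⟨e, he, fun x => (hee x).symm⟩
  have hne : ∀ φ : Y →+ X, ∀ g : AddMonoid.End X, (∀ x, g x = φ (e' x)) → g ≠ 0 → φ ≠ 0 := by
    rintro φ g h hg rfl
    apply hg
    ext x
    rw [h]; rfl
  have hinv : ∀ g ∈ J0, g ≠ 0 → ∃ ψ ∈ Ψ, (∀ x, g (e (ψ x)) = x) ∧ ∀ x, e (ψ (g x)) = x := by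
    intro g hg hg0
    obtain ⟨φ, hφ, h⟩ := (hJ0 g).mp hg
    obtain ⟨ψ, hψ, h3, h4⟩ := hΦ φ hφ (hne φ g h hg0)
    refine ⟨ψ, hψ, fun x => ?_, fun x => ?_⟩
    · rw [h, hee', h3]
    · rw [h, h4, hee]
  have hunit : ∀ g ∈ J0, g ≠ 0 → IsUnit g := by
    intro g hg hg0
    obtain ⟨ψ, -, h3, h4⟩ := hinv g hg hg0
    exact ⟨⟨g, (e.comp ψ : X →+ X), by ext x; exact h3 x, by ext x; exact h4 x⟩, rfl⟩
  -- inverses come from `Ψ`, and conversely
  have hΨJ : ∀ ψ ∈ Ψ, ψ ≠ 0 → ∃ g ∈ J0, (∀ x, g (e (ψ x)) = x) ∧ ∀ x, e (ψ (g x)) = x := by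
    intro ψ hψ hψ0
    obtain ⟨φ, hφ, h3, h4⟩ := hΨ ψ hψ hψ0
    refine ⟨(φ.comp e' : X →+ X), (hJ0 _).mpr ⟨φ, hφ, fun x => rfl⟩, fun x => ?_, fun x => ?_⟩
    · change φ (e' (e (ψ x))) = x
      rw [hee', h3]
    · change e (ψ (φ (e' x))) = x
      rw [h4, hee]
  haveI : Nontrivial (AddMonoid.End X) := by
    obtain ⟨a, ha⟩ := exists_ne (0 : X)
    exact ⟨⟨1, 0, fun h => ha (DFunLike.congr_fun h a)⟩⟩
  have hhua := Cfsg.Agent.Ito.AZ.hua J0 h1J hunit (by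
    intro u w hu hw
    obtain ⟨ψ, hψ, h3, h4⟩ := hinv _ hu u.ne_zero
    obtain ⟨ψ', hψ', h3', h4'⟩ := hinv _ hw w.ne_zero
    have eu : ∀ x, (↑u⁻¹ : AddMonoid.End X) x = e (ψ x) := by
      intro x
      have h5 : (↑u⁻¹ : AddMonoid.End X) * u = 1 := by simp
      have h6 := DFunLike.congr_fun h5 (e (ψ x))
      change (↑u⁻¹ : AddMonoid.End X) ((u : AddMonoid.End X) (e (ψ x))) = e (ψ x) at h6
      rwa [h3] at h6
    have ew : ∀ x, (↑w⁻¹ : AddMonoid.End X) x = e (ψ' x) := by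
      intro x
      have h5 : (↑w⁻¹ : AddMonoid.End X) * w = 1 := by simp
      have h6 := DFunLike.congr_fun h5 (e (ψ' x))
      change (↑w⁻¹ : AddMonoid.End X) ((w : AddMonoid.End X) (e (ψ' x))) = e (ψ' x) at h6
      rwa [h3'] at h6
    have esum : ∀ x, ((↑u⁻¹ : AddMonoid.End X) + ↑w⁻¹) x = e ((ψ + ψ') x) := by
      intro x
      change (↑u⁻¹ : AddMonoid.End X) x + (↑w⁻¹ : AddMonoid.End X) x = _
      rw [eu, ew, AddMonoidHom.add_apply, map_add]
    by_cases h0 : ψ + ψ' = 0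
    · left
      ext x
      rw [esum, h0, AddMonoidHom.zero_apply, map_zero]
      rfl
    · right
      obtain ⟨g, hg, h7, h8⟩ := hΨJ _ (Ψ.add_mem hψ hψ') h0
      have hg0 : g ≠ 0 := by
        rintro rfl
        obtain ⟨a, ha⟩ := exists_ne (0 : X)
        exact ha (h7 a).symm
      obtain ⟨t, ht⟩ := hunit g hg hg0
      refine ⟨t, by rw [ht]; exact hg, ?_⟩
      ext x
      rw [esum]
      have h9 : (↑t⁻¹ : AddMonoid.End X) * t = 1 := by simp
      have h10 := DFunLike.congr_fun h9 (e ((ψ + ψ') x))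
      change (↑t⁻¹ : AddMonoid.End X) ((t : AddMonoid.End X) (e ((ψ + ψ') x))) = _ at h10
      rw [ht, h7] at h10
      exact h10.symm)
  obtain ⟨hinvJ, hUJ⟩ := hhua
  -- matrices
  let bX : Module.Basis (Fin (Module.finrank (ZMod p) X)) (ZMod p) X := Module.finBasis (ZMod p) X
  let θ0 : AddMonoid.End X →+* Module.End (ZMod p) X :=
    { toFun := fun f => AddMonoidHom.toZModLinearMap p f
      map_one' := rfl
      map_mul' := fun _ _ => rfl
      map_zero' := rfl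
      map_add' := fun a b => by
        ext x
        change (a + b) x = a x + b x
        rfl }
  let θ : AddMonoid.End X →+* Matrix (Fin (Module.finrank (ZMod p) X))
      (Fin (Module.finrank (ZMod p) X)) (ZMod p) :=
    ((LinearMap.toMatrixAlgEquiv bX).toRingEquiv.toRingHom).comp θ0
  have hθ : Function.Injective θ := by
    intro a b hab
    have h1 : θ0 a = θ0 b := (LinearMap.toMatrixAlgEquiv bX).injective hab
    ext x
    exact LinearMap.congr_fun h1 x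
  obtain ⟨F, iF, iFF, ι, hι, hιJ⟩ := field_of_jordan p (J0.map θ.toAddMonoidHom) ⟨1, h1J, map_one θ⟩
    (by
      intro h
      apply one_ne_zero (α := AddMonoid.End X)
      apply hθ
      rw [map_one, map_zero, h])
    (by
      rintro _ ⟨a, ha, rfl⟩ ha0
      have ha0' : a ≠ 0 := by
        rintro rfl
        exact ha0 (map_zero θ)
      obtain ⟨u, rfl⟩ := hunit a ha ha0'
      refine ⟨θ (↑u⁻¹), ⟨_, hinvJ u ha, rfl⟩, ?_⟩
      change θ u * θ (↑u⁻¹) = 1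
      rw [← map_mul]
      simp)
    (by
      rintro _ ⟨a, ha, rfl⟩ _ ⟨b, hb, rfl⟩
      refine ⟨a * b * a, hUJ a ha b hb, ?_⟩
      change θ (a * b * a) = θ a * θ b * θ a
      rw [map_mul, map_mul])
  -- `τ f` is the endomorphism corresponding to `f`
  have hτ : ∀ f : F, ∃ g : AddMonoid.End X, g ∈ J0 ∧ θ g = ι f := by
    intro f
    obtain ⟨g, hg, h⟩ := (hιJ (ι f)).mpr ⟨f, rfl⟩
    exact ⟨g, hg, h⟩
  choose τ hτJ hτθ using hτ
  have hτadd : ∀ f g, τ (f + g) = τ f + τ g := fun f g => hθ (by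
    rw [map_add, hτθ, hτθ, hτθ, map_add])
  have hτmul : ∀ f g, τ (f * g) = τ f * τ g := fun f g => hθ (by
    rw [map_mul, hτθ, hτθ, hτθ, map_mul])
  have hτ1 : τ 1 = 1 := hθ (by rw [hτθ, map_one, map_one])
  have hτinj : Function.Injective τ := by
    intro a b hab
    apply hι
    rw [← hτθ, ← hτθ, hab]
  have hτsurj : ∀ g ∈ J0, ∃ f, τ f = g := by
    intro g hg
    obtain ⟨f, hf⟩ := (hιJ (θ g)).mp ⟨g, hg, rfl⟩
    exact ⟨f, hθ (by rw [hτθ, hf])⟩
  have hτ0 : τ 0 = 0 := by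
    have := hτadd 0 0
    rw [add_zero] at this
    exact (left_eq_add.mp this)
  obtain ⟨x0, hx0⟩ := exists_ne (0 : X)
  let ev : F →+ X :=
    { toFun := fun f => τ f x0
      map_zero' := by rw [hτ0]; rfl
      map_add' := fun f g => by rw [hτadd]; rfl }
  have hev_inj : Function.Injective ev := by
    rw [injective_iff_map_eq_zero]
    intro f hf
    by_contra hf0
    obtain ⟨ψ, -, -, h4⟩ := hinv (τ f) (hτJ f) (fun h => hf0 (hτinj (h.trans hτ0.symm)))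
    have := h4 x0
    change τ f x0 = 0 at hf
    rw [hf, map_zero, map_zero] at this
    exact hx0 this.symm
  have hcF : Nat.card F = Nat.card X := by
    have e1 : Nat.card F = Nat.card J0 := by
      apply Nat.card_congr
      exact Equiv.ofBijective (fun f => (⟨τ f, hτJ f⟩ : J0))
        ⟨fun a b hab => hτinj (congrArg Subtype.val hab), fun g => by
          obtain ⟨f, hf⟩ := hτsurj g.1 g.2
          exact ⟨f, Subtype.ext hf⟩⟩
    have e2 : Nat.card J0 = Nat.card Φ := by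
      have hinj : Function.Injective
          ((AddMonoidHom.compHom : (Y →+ X) →+ (X →+ Y) →+ (X →+ X)).flip e') := by
        intro a b hab
        ext y
        have := DFunLike.congr_fun hab (e y)
        change a (e' (e y)) = b (e' (e y)) at this
        rwa [hee'] at this
      exact Nat.card_congr (AddSubgroup.equivMapOfInjective Φ _ hinj).symm.toEquiv
    rw [e1, e2, hcard]
  have hev_bij : Function.Bijective ev := by
    rw [Nat.bijective_iff_injective_and_card]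
    exact ⟨hev_inj, hcF⟩
  let ξ' : F ≃+ X := AddEquiv.ofBijective ev hev_bij
  have hξ' : ∀ f, ξ' f = τ f x0 := fun f => rfl
  let E : Y ≃+ X :=
    { toFun := e
      invFun := e'
      left_inv := hee'
      right_inv := hee
      map_add' := map_add e }
  have hE : ∀ y, E y = e y := fun y => rfl
  have key : ∀ f x, ξ'.symm (τ f x) = f * ξ'.symm x := by
    intro f x
    rw [AddEquiv.symm_apply_eq, hξ', hτmul]
    change _ = τ f (τ (ξ'.symm x) x0)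
    rw [← hξ', AddEquiv.apply_symm_apply]
  have keyinv : ∀ f : F, f ≠ 0 → ∀ g : X → X, (∀ x, τ f (g x) = x) → ∀ x, g x = τ f⁻¹ x := by
    intro f hf g hg x
    have h5 : τ f⁻¹ * τ f = 1 := by rw [← hτmul, inv_mul_cancel₀ hf, hτ1]
    have h6 := DFunLike.congr_fun h5 (g x)
    change τ f⁻¹ (τ f (g x)) = g x at h6
    rw [hg] at h6
    exact h6.symm
  refine ⟨F, iF, iFF, ξ'.symm, E.trans ξ'.symm, ?_, ?_, ?_, ?_⟩
  · intro φ hφ
    obtain ⟨f, hf⟩ := hτsurj (φ.comp e' : X →+ X) ((hJ0 _).mpr ⟨φ, hφ, fun x => rfl⟩)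
    refine ⟨f, fun y => ?_⟩
    change _ = f * ξ'.symm (e y)
    rw [← key, hf]
    change _ = ξ'.symm (φ (e' (e y)))
    rw [hee']
  · intro f
    obtain ⟨φ, hφ, h⟩ := (hJ0 _).mp (hτJ f)
    refine ⟨φ, hφ, fun y => ?_⟩
    change _ = f * ξ'.symm (e y)
    rw [← key, h, hee']
  · intro ψ hψ
    by_cases h0 : ψ = 0
    · refine ⟨0, fun x => ?_⟩
      rw [h0, AddMonoidHom.zero_apply, map_zero, zero_mul]
    · obtain ⟨g, hg, h7, h8⟩ := hΨJ ψ hψ h0
      obtain ⟨f, rfl⟩ := hτsurj g hg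
      have hf0 : f ≠ 0 := by
        rintro rfl
        have := h7 x0
        rw [hτ0] at this
        exact hx0 this.symm
      refine ⟨f⁻¹, fun x => ?_⟩
      change ξ'.symm (e (ψ x)) = _
      rw [keyinv f hf0 (fun x => e (ψ x)) h7, key]
  · intro f
    by_cases h0 : f = 0
    · refine ⟨0, Ψ.zero_mem, fun x => ?_⟩
      rw [h0, AddMonoidHom.zero_apply, map_zero, zero_mul]
    · obtain ⟨ψ, hψ, h3, h4⟩ := hinv (τ f⁻¹) (hτJ _) (fun h =>
        inv_ne_zero h0 (hτinj (h.trans hτ0.symm)))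
      refine ⟨ψ, hψ, fun x => ?_⟩
      change ξ'.symm (e (ψ x)) = _
      rw [keyinv f⁻¹ (inv_ne_zero h0) (fun x => e (ψ x)) h3, key, inv_inv]

theorem coords (p : ℕ) [hp : Fact p.Prime] {X Y : Type*} [AddCommGroup X] [AddCommGroup Y]
    [Finite X] [Finite Y] (hpX : ∀ x : X, p • x = 0) (hX : Nontrivial X)
    (Φ : AddSubgroup (Y →+ X)) (Ψ : AddSubgroup (X →+ Y))
    (hΦ : ∀ φ ∈ Φ, φ ≠ 0 → ∃ ψ ∈ Ψ, (∀ x, φ (ψ x) = x) ∧ ∀ y, ψ (φ y) = y)
    (hΨ : ∀ ψ ∈ Ψ, ψ ≠ 0 → ∃ φ ∈ Φ, (∀ x, φ (ψ x) = x) ∧ ∀ y, ψ (φ y) = y)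
    (hcard : Nat.card Φ = Nat.card X) :
    ∃ (F : Type) (_ : Field F) (_ : Fintype F) (ξ : X ≃+ F) (η : Y ≃+ F),
      (∀ φ ∈ Φ, ∃ f, ∀ y, ξ (φ y) = f * η y) ∧ (∀ f, ∃ φ ∈ Φ, ∀ y, ξ (φ y) = f * η y) ∧
      (∀ ψ ∈ Ψ, ∃ f, ∀ x, η (ψ x) = f * ξ x) ∧ (∀ f, ∃ ψ ∈ Ψ, ∀ x, η (ψ x) = f * ξ x) :=
  @coords_aux p hp X Y _ _ _ _ (AddCommGroup.zmodModule hpX) hX Φ Ψ hΦ hΨ hcard

end Cfsg.Agent.H88.Jor
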