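import Cfsg.Agent.H33.Frattini

/-!
# p-minimal groups with a quadratic module: first facts
-/

set_option autoImplicit false
set_option linter.unusedSectionVars false

namespace Cfsg.Agent.H88.MA

open Cfsg.Agent.H33

section PMin

variable {P : Type*} [Group P] [Finite P] {p : ℕ} [Fact p.Prime] {T M : Subgroup P}

/-- the p-minimal situation -/
structure PM (p : ℕ) (T M : Subgroup P) : Prop where
  syl : IsSyl p T ⊤
  TM : T ≤ M
  top : M ≠ ⊤
  uniq : ∀ N : Subgroup P, T ≤ N → N ≠ ⊤ → N ≤ M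
  nn : ¬ T.Normal

theorem PM.norm_T (h : PM p T M) : Subgroup.normalizer (T : Set P) ≤ M :=
  h.uniq _ Subgroup.le_normalizer (fun e => h.nn (Subgroup.normalizer_eq_top_iff.mp e))

theorem PM.norm_le (h : PM p T M) {S : Subgroup P} (hTS : T ≤ S) (hSM : S ≤ M) :
    Subgroup.normalizer (S : Set P) ≤ M := by
  intro x hx
  have hS : IsSyl p T S := h.syl.mono hTS le_top
  obtain ⟨n, hn, hnx⟩ := hS.frattini hx
  exact (M.mul_mem_cancel_left (hSM hn)).mp (h.norm_T hnx)

theorem PM.normal_inf_core (h : PM p T M) : (T ⊓ M.normalCore).Normal := by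
  have hcn : Subgroup.normalizer (M.normalCore : Set P) = ⊤ :=
    Subgroup.normalizer_eq_top_iff.mpr inferInstance
  have hS := h.syl.inf_normal (N := M.normalCore) le_top (by rw [hcn])
  rw [← Subgroup.normalizer_eq_top_iff]
  by_contra hne
  have h1 : Subgroup.normalizer ((T ⊓ M.normalCore : Subgroup P) : Set P) ≤ M := by
    apply h.uniq _ _ hne
    intro t ht
    rw [mem_norm_iff, cj_inf, cj_normal t M.normalCore, mem_norm_iff.mp (Subgroup.le_normalizer ht)]
  apply h.top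
  rw [eq_top_iff]
  intro x _
  obtain ⟨n, hn, hnx⟩ := hS.frattini (y := x) (by rw [hcn]; exact Subgroup.mem_top _)
  exact (M.mul_mem_cancel_left (M.normalCore_le hn)).mp (h1 hnx)

theorem PM.exists_conj (h : PM p T M) {R : Subgroup P} (hR : IsPGroup p R) {g : P}
    (hRg : ∀ r ∈ R, g⁻¹ * r * g ∈ M) : ∃ m ∈ M, ∀ r ∈ R, (g * m)⁻¹ * r * (g * m) ∈ T := by
  have h1 : cj g⁻¹ R ≤ M := by
    rw [cj_le_iff]
    intro r hr
    simpa using hRg r hr
  obtain ⟨x, hx, h2⟩ := (h.syl.mono h.TM le_top).conj_le h1 (isPGroup_cj hR)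
  refine ⟨x⁻¹, M.inv_mem hx, fun r hr => ?_⟩
  rw [← cj_mul, cj_le_iff] at h2
  have := h2 r hr
  convert this using 1
  group

end PMin

section QPart

variable {P : Type*} [Group P] [Finite P] {p : ℕ} [Fact p.Prime] {T M A : Subgroup P}
  {Q : Type*} [AddCommGroup Q] [DistribMulAction P Q] {X : AddSubgroup Q}

/-- hypotheses on the quotient module -/
structure QHyp (p : ℕ) (T M A : Subgroup P) (X : AddSubgroup Q) : Prop where
  pm : PM p T M
  AT : A ≤ T
  fixX : ∀ a ∈ A, ∀ x ∈ X, a • x = x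
  quad : ∀ a ∈ A, ∀ q : Q, a • q - q ∈ X
  triv : ∀ g, g ∉ M → ∀ x ∈ X, g⁻¹ • x ∈ X → x = 0
  gen : ∀ g, g ∉ M → A ⊔ cj g A = ⊤
  hv : ∃ v ∈ X, (∀ t ∈ T, t • v = v) ∧ ∀ g : P, g • v = v → g ∈ M

namespace QHyp

variable (h : QHyp p T M A X)
include h

theorem AM : A ≤ M := h.AT.trans h.pm.TM

theorem pA : IsPGroup p A := h.pm.syl.2.1.to_le h.AT

theorem triv2 {x y : P} (hxy : x⁻¹ * y ∉ M) {w : Q} (hx : x⁻¹ • w ∈ X) (hy : y⁻¹ • w ∈ X) :
    w = 0 := by
  have h1 := h.triv (x⁻¹ * y) hxy (x⁻¹ • w) hx (by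
    rw [← mul_smul]
    have : (x⁻¹ * y)⁻¹ * x⁻¹ = y⁻¹ := by group
    rw [this]; exact hy)
  rw [smul_eq_zero_iff_eq] at h1
  exact h1

theorem inj {a g : P} (ha : g⁻¹ * a * g ∉ M) {y : Q} (hy : g⁻¹ • y ∈ X) (hay : a • y = y) :
    y = 0 := by
  apply h.triv2 (x := g) (y := a * g) (by rwa [← mul_assoc]) hy
  have : (a * g)⁻¹ = g⁻¹ * a⁻¹ := by group
  rw [this, mul_smul]
  have h2 : a⁻¹ • y = y := by
    rw [inv_smul_eq_iff]; exact hay.symm
  rw [h2]
  exact hy

/-- fixed by `A` and `A^g` implies fixed by everything -/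
theorem fix_all {g : P} (hg : g ∉ M) {w : Q} (h1 : ∀ a ∈ A, a • w = w)
    (h2 : ∀ a ∈ A, (g * a * g⁻¹) • w = w) (x : P) : x • w = w := by
  have h3 : A ⊔ cj g A ≤ MulAction.stabilizer P w := by
    apply sup_le
    · intro a ha; exact h1 a ha
    · rw [cj_le_iff]
      intro a ha; exact h2 a ha
  rw [h.gen g hg] at h3
  exact h3 (Subgroup.mem_top x)

theorem mem_of_conj {g : P} (hg : ∀ a ∈ A, g⁻¹ * a * g ∈ M) : g ∈ M := by
  obtain ⟨m, hm, h1⟩ := h.pm.exists_conj h.pA hg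
  obtain ⟨v, hvX, hvT, hvM⟩ := h.hv
  by_contra hgM
  have hh : g * m ∉ M := fun h2 => hgM ((M.mul_mem_cancel_right hm).mp h2)
  have h3 := h.fix_all hh (w := (g * m) • v) (fun a ha => by
    have := hvT _ (h1 a ha)
    rw [mul_smul, mul_smul, inv_smul_eq_iff] at this
    exact this) (fun a ha => by
    rw [← mul_smul]
    have : g * m * a * (g * m)⁻¹ * (g * m) = (g * m) * a := by group
    rw [this, mul_smul, h.fixX a ha v hvX])
  apply h.pm.top
  rw [eq_top_iff]
  intro x _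
  apply hvM
  have h4 := h3 ((g * m) * x * (g * m)⁻¹)
  rw [← mul_smul] at h4
  have : g * m * x * (g * m)⁻¹ * (g * m) = (g * m) * x := by group
  rw [this, mul_smul] at h4
  exact smul_left_cancel _ h4

/-- `X + X^g` is invariant. -/
theorem sum_inv {g : P} (hg : g ∉ M) {w : Q} (hw : ∃ x ∈ X, ∃ y, g⁻¹ • y ∈ X ∧ w = x + y) (z : P) :
    ∃ x ∈ X, ∃ y, g⁻¹ • y ∈ X ∧ z • w = x + y := by
  let S : Set Q := {w | ∃ x ∈ X, ∃ y, g⁻¹ • y ∈ X ∧ w = x + y}
  have hz : z ∈ Subgroup.closure ((A : Set P) ∪ (cj g A : Set P)) := by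
    rw [← Subgroup.sup_eq_closure, h.gen g hg]; exact Subgroup.mem_top _
  have hA : ∀ a ∈ A, ∀ w ∈ S, a • w ∈ S := by
    rintro a ha w ⟨x, hx, y, hy, rfl⟩
    refine ⟨x + (a • y - y), X.add_mem hx (h.quad a ha y), y, hy, ?_⟩
    rw [smul_add, h.fixX a ha x hx]
    abel
  have hB : ∀ b ∈ cj g A, ∀ w ∈ S, b • w ∈ S := by
    rintro b hb w ⟨x, hx, y, hy, rfl⟩
    rw [mem_cj] at hb
    refine ⟨x, hx, y + (b • x - x), ?_, ?_⟩
    · rw [smul_add]
      refine X.add_mem hy ?_
      have h1 := h.quad _ hb (g⁻¹ • x)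
      rw [← mul_smul] at h1
      have : g⁻¹ * b * g * g⁻¹ = g⁻¹ * b := by group
      rw [this, mul_smul, ← smul_sub] at h1
      exact h1
    · have h2 : b • y = y := by
        have h1 := h.fixX _ hb _ hy
        rw [← mul_smul] at h1
        have : g⁻¹ * b * g * g⁻¹ = g⁻¹ * b := by group
        rw [this, mul_smul] at h1
        exact smul_left_cancel _ h1
      rw [smul_add, h2]
      abel
  have key : ∀ w ∈ S, z • w ∈ S ∧ z⁻¹ • w ∈ S := by
    induction hz using Subgroup.closure_induction with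
    | mem u hu =>
      intro w hw
      rcases hu with hu | hu
      · exact ⟨hA u hu w hw, hA _ (A.inv_mem hu) w hw⟩
      · exact ⟨hB u hu w hw, hB _ ((cj g A).inv_mem hu) w hw⟩
    | one => intro w hw; simp [hw]
    | mul a b _ _ ha hb =>
      intro w hw
      rw [mul_inv_rev, mul_smul, mul_smul]
      exact ⟨(ha _ (hb _ hw).1).1, (hb _ (ha _ hw).2).2⟩
    | inv a _ ha =>
      intro w hw
      rw [inv_inv]
      exact (ha w hw).symm
  exact (key w hw).1

/-- The stabilizer of a point outside `M` in `A` does not depend on the point. -/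
theorem indep [Finite Q] {a : P} (ha : a ∈ A) {g g' : P} (hg : g ∉ M) (hg' : g' ∉ M)
    (h1 : g⁻¹ * a * g ∈ M) : g'⁻¹ * a * g' ∈ M := by
  obtain ⟨v, hvX, hvT, hvM⟩ := h.hv
  by_contra hno
  have hv0 : v ≠ 0 := by
    rintro rfl
    exact hg (hvM g (smul_zero g))
  obtain ⟨m, hm, h2⟩ := h.pm.exists_conj (R := Subgroup.zpowers a)
    (h.pA.to_le (by rwa [Subgroup.zpowers_le])) (g := g) (by
      intro r hr
      have h3 : Subgroup.zpowers a ≤ cj g M := by
        rw [Subgroup.zpowers_le, mem_cj]; exact h1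
      exact mem_cj.mp (h3 hr))
  have hh : g * m ∉ M := fun h2 => hg ((M.mul_mem_cancel_right hm).mp h2)
  set k := g * m with hk
  have hak : a • (k • v) = k • v := by
    have := hvT _ (h2 a (Subgroup.mem_zpowers a))
    rw [mul_smul, mul_smul, inv_smul_eq_iff] at this
    exact this
  let f : P → X → X := fun z x => ⟨a • (z • (x : Q)) - z • (x : Q), h.quad a ha _⟩
  have hsub : ∀ z (x y : X), f z x = f z y → a • (z • ((x : Q) - y)) = z • ((x : Q) - y) := by
    intro z x y hxy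
    have h3 : a • (z • (x : Q)) - z • (x : Q) = a • (z • (y : Q)) - z • (y : Q) :=
      congrArg Subtype.val hxy
    rw [smul_sub, smul_sub, ← sub_eq_zero]
    rw [← sub_eq_zero] at h3
    rw [← h3]
    abel
  have hinj : Function.Injective (f g') := by
    intro x y hxy
    have h3 := h.inj hno (y := g' • ((x : Q) - y)) (by
      rw [inv_smul_smul]; exact X.sub_mem x.2 y.2) (hsub g' x y hxy)
    rw [smul_eq_zero_iff_eq, sub_eq_zero] at h3
    exact Subtype.ext h3
  have hsurj : Function.Surjective (f g') := Finite.surjective_of_injective hinj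
  have hsurj2 : Function.Surjective (f k) := by
    intro x
    obtain ⟨x', hx'⟩ := hsurj x
    obtain ⟨x1, hx1, y1, hy1, he⟩ := h.sum_inv hh (w := (x' : Q)) ⟨x', x'.2, 0, by
      rw [smul_zero]; exact X.zero_mem, by rw [add_zero]⟩ g'
    refine ⟨⟨k⁻¹ • y1, hy1⟩, ?_⟩
    rw [← hx']
    apply Subtype.ext
    change a • (k • (k⁻¹ • y1)) - k • (k⁻¹ • y1) = a • (g' • (x' : Q)) - g' • (x' : Q)
    rw [smul_inv_smul, he, smul_add, h.fixX a ha x1 hx1]
    abel
  have hinj2 : Function.Injective (f k) := Finite.injective_iff_surjective.mpr hsurj2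
  have h4 : f k ⟨v, hvX⟩ = f k 0 := by
    apply Subtype.ext
    change a • (k • v) - k • v = a • (k • (0 : Q)) - k • (0 : Q)
    rw [hak, smul_zero, smul_zero]
    abel
  exact hv0 (congrArg Subtype.val (hinj2 h4))

end QHyp

end QPart

end Cfsg.Agent.H88.MA
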