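import Cfsg.Agent.H88.MA1

/-!
# p-minimal groups with a quadratic module: the counting
-/

set_option autoImplicit false
set_option linter.unusedSectionVars false

namespace Cfsg.Agent.H88.MA

open Cfsg.Agent.H33

section WPart

variable {P : Type*} [Group P] (W : Type*) [AddCommGroup W] [DistribMulAction P W]

/-- fixed points -/
def fx (A : Subgroup P) : AddSubgroup W where
  carrier := {w | ∀ a ∈ A, a • w = w}
  zero_mem' := fun a _ => smul_zero a
  add_mem' := fun {x y} hx hy a ha => by rw [smul_add, hx a ha, hy a ha]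
  neg_mem' := fun {x} hx a ha => by rw [smul_neg, hx a ha]

variable {W}

theorem mem_fx {A : Subgroup P} {w : W} : w ∈ fx W A ↔ ∀ a ∈ A, a • w = w := Iff.rfl

theorem fx_anti {A B : Subgroup P} (h : A ≤ B) : fx W B ≤ fx W A := fun _ hw a ha => hw a (h ha)

theorem smul_mem_top {w : W} (g : P) (hw : w ∈ fx W (⊤ : Subgroup P)) :
    g • w ∈ fx W (⊤ : Subgroup P) := by
  rw [hw g (Subgroup.mem_top g)]; exact hw

/-- the action on the quotient by the fixed points -/
noncomputable instance qAct : DistribMulAction P (W ⧸ fx W (⊤ : Subgroup P)) where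
  smul g := QuotientAddGroup.map (fx W (⊤ : Subgroup P)) (fx W (⊤ : Subgroup P)) (DistribSMul.toAddMonoidHom W g)
    (fun _ hw => smul_mem_top g hw)
  one_smul q := by
    obtain ⟨w, rfl⟩ := QuotientAddGroup.mk_surjective q
    change (QuotientAddGroup.mk ((1 : P) • w) : W ⧸ fx W (⊤ : Subgroup P)) = QuotientAddGroup.mk w
    rw [one_smul]
  mul_smul g g' q := by
    obtain ⟨w, rfl⟩ := QuotientAddGroup.mk_surjective q
    change (QuotientAddGroup.mk ((g * g') • w) : W ⧸ fx W (⊤ : Subgroup P)) =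
      QuotientAddGroup.mk (g • g' • w)
    rw [mul_smul]
  smul_zero g := map_zero (QuotientAddGroup.map (fx W (⊤ : Subgroup P)) (fx W (⊤ : Subgroup P)) (DistribSMul.toAddMonoidHom W g)
    (fun _ hw => smul_mem_top g hw))
  smul_add g x y := map_add (QuotientAddGroup.map (fx W (⊤ : Subgroup P)) (fx W (⊤ : Subgroup P)) (DistribSMul.toAddMonoidHom W g)
    (fun _ hw => smul_mem_top g hw)) x y

theorem smul_mk (g : P) (w : W) : g • (QuotientAddGroup.mk w : W ⧸ fx W (⊤ : Subgroup P)) =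
    QuotientAddGroup.mk (g • w) := rfl

/-- image of the fixed points of `A` -/
def Xq (W : Type*) [AddCommGroup W] [DistribMulAction P W] (A : Subgroup P) :
    AddSubgroup (W ⧸ fx W (⊤ : Subgroup P)) :=
  (fx W A).map (QuotientAddGroup.mk' _)

theorem mk_mem_Xq {A : Subgroup P} {w : W} :
    (QuotientAddGroup.mk w : W ⧸ fx W (⊤ : Subgroup P)) ∈ Xq W A ↔ w ∈ fx W A := by
  constructor
  · rintro ⟨w', hw', he⟩
    have h1 : (QuotientAddGroup.mk w' : W ⧸ fx W (⊤ : Subgroup P)) = QuotientAddGroup.mk w := he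
    rw [QuotientAddGroup.eq] at h1
    have h2 : w = w' + (-w' + w) := by abel
    rw [h2]
    exact add_mem hw' (fx_anti le_top h1)
  · intro hw
    exact ⟨w, hw, rfl⟩

theorem mk_eq_zero {w : W} :
    (QuotientAddGroup.mk w : W ⧸ fx W (⊤ : Subgroup P)) = 0 ↔ w ∈ fx W (⊤ : Subgroup P) :=
  QuotientAddGroup.eq_zero_iff w

theorem card_map_mk {U V : AddSubgroup W} (h : U ≤ V) :
    Nat.card U * Nat.card (V.map (QuotientAddGroup.mk' U)) = Nat.card V := by
  have h1 := AddSubgroup.relIndex_mul_relIndex ⊥ U V bot_le h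
  rw [AddSubgroup.relIndex_bot_left, AddSubgroup.relIndex_bot_left] at h1
  rw [← h1, ← AddSubgroup.relIndex_ker, QuotientAddGroup.ker_mk']

theorem card_Xq (A : Subgroup P) :
    Nat.card (fx W (⊤ : Subgroup P)) * Nat.card (Xq W A) = Nat.card (fx W A) :=
  card_map_mk (fx_anti le_top)

end WPart

section WHyp

variable {P : Type*} [Group P] [Finite P] {p : ℕ} [Fact p.Prime] {T M A : Subgroup P}
  {W : Type*} [AddCommGroup W] [Finite W] [DistribMulAction P W]

/-- hypotheses on the module -/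
structure WHyp (p : ℕ) (T M A : Subgroup P) (W : Type*) [AddCommGroup W] [DistribMulAction P W] :
    Prop where
  pm : PM p T M
  AT : A ≤ T
  comm : ∀ a ∈ A, ∀ b ∈ A, a * b = b * a
  quad : ∀ a ∈ A, ∀ b ∈ A, ∀ w : W, b • (a • w - w) = a • w - w
  le : Nat.card W ≤ Nat.card A * Nat.card (fx W A)
  lt : ∀ A₀ : Subgroup P, A₀ ≤ A → A₀ ≠ ⊥ → A₀ ≠ A →
    Nat.card A₀ * Nat.card (fx W A₀) < Nat.card A * Nat.card (fx W A)
  faith : ∀ g : P, (∀ w : W, g • w = w) → g = 1
  nt : ∃ v : W, v ∈ fx W T ∧ v ∉ fx W (⊤ : Subgroup P)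
  gen : ∀ g, g ∉ M → A ⊔ cj g A = ⊤
  exp : ∀ w : W, p • w = 0

/-- regular hypotheses on the quotient module -/
structure QReg {Q : Type*} [AddCommGroup Q] [DistribMulAction P Q] (p : ℕ) (T M A : Subgroup P)
    (X : AddSubgroup Q) : Prop extends QHyp p T M A X where
  comm : ∀ a ∈ A, ∀ b ∈ A, a * b = b * a
  reg : ∀ a ∈ A, a ≠ 1 → ∀ g, g ∉ M → g⁻¹ * a * g ∉ M
  card : Nat.card A = Nat.card X
  cardQ : Nat.card Q = Nat.card X * Nat.card X
  exp : ∀ q : Q, p • q = 0

namespace WHyp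

variable (h : WHyp p T M A W)
include h

theorem stab_le {v : W} (hv : v ∈ fx W T) (hv' : v ∉ fx W (⊤ : Subgroup P)) {g : P}
    (hg : g • v - v ∈ fx W (⊤ : Subgroup P)) : g ∈ M := by
  have hTS : T ≤ MulAction.stabilizer P v := fun t ht => hv t ht
  have hSM : MulAction.stabilizer P v ≤ M := by
    apply h.pm.uniq _ hTS
    intro he
    apply hv'
    intro a _
    have : a ∈ MulAction.stabilizer P v := by rw [he]; exact Subgroup.mem_top a
    exact this
  apply h.pm.norm_le hTS hSM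
  have h1 : g • v = v + (g • v - v) := by abel
  set c := g • v - v with hc
  have hcf : ∀ x : P, x • c = c := fun x => hg x (Subgroup.mem_top x)
  have h2 : g⁻¹ • v = v - c := by
    rw [inv_smul_eq_iff, smul_sub, h1, hcf]
    exact (add_sub_cancel_right v c).symm
  rw [Subgroup.mem_normalizer_iff]
  intro s
  change s • v = v ↔ (g * s * g⁻¹) • v = v
  rw [mul_smul, mul_smul, h2, smul_sub, smul_sub, hcf, hcf]
  constructor
  · intro hs
    rw [hs, h1]; abel
  · intro hs
    have h3 : g • (s • v) = g • v := by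
      rw [h1]
      exact sub_eq_iff_eq_add.mp hs
    exact smul_left_cancel g h3

theorem qhyp : QHyp p T M A (Xq W A) where
  pm := h.pm
  AT := h.AT
  fixX := by
    rintro a ha x ⟨w, hw, rfl⟩
    change (QuotientAddGroup.mk (a • w) : W ⧸ fx W (⊤ : Subgroup P)) = QuotientAddGroup.mk w
    rw [hw a ha]
  quad := by
    intro a ha q
    obtain ⟨w, rfl⟩ := QuotientAddGroup.mk_surjective q
    rw [smul_mk, ← QuotientAddGroup.mk_sub, mk_mem_Xq]
    intro b hb
    exact h.quad a ha b hb w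
  triv := by
    rintro g hg x hx hx2
    obtain ⟨w, rfl⟩ := QuotientAddGroup.mk_surjective x
    rw [smul_mk, mk_mem_Xq] at hx2
    rw [mk_mem_Xq] at hx
    rw [mk_eq_zero]
    have h3 : A ⊔ cj g A ≤ MulAction.stabilizer P w := by
      apply sup_le
      · intro a ha; exact hx a ha
      · rw [cj_le_iff]
        intro a ha
        have := hx2 a ha
        change (g * a * g⁻¹) • w = w
        rw [mul_smul, mul_smul, this, smul_inv_smul]
    rw [h.gen g hg] at h3
    intro x _
    exact h3 (Subgroup.mem_top x)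
  gen := h.gen
  hv := by
    obtain ⟨v, hv, hv'⟩ := h.nt
    refine ⟨QuotientAddGroup.mk v, mk_mem_Xq.mpr (fx_anti h.AT hv), fun t ht => ?_, fun g hg => ?_⟩
    · rw [smul_mk, hv t ht]
    · rw [smul_mk, QuotientAddGroup.eq] at hg
      apply h.stab_le hv hv'
      have h2 : g • v - v = -(-(g • v) + v) := by abel
      rw [h2]
      exact neg_mem hg

theorem exists_nM : ∃ g, g ∉ M := by
  by_contra hno
  push Not at hno
  exact h.pm.top (by rw [eq_top_iff]; intro x _; exact hno x)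

theorem A_core : A ⊓ M.normalCore = ⊥ := by
  by_contra hne
  obtain ⟨g, hg⟩ := h.exists_nM
  obtain ⟨v, hv, hv'⟩ := h.nt
  have hgi : g⁻¹ ∉ M := fun h2 => hg (M.inv_mem_iff.mp h2)
  set A₁ := A ⊓ M.normalCore with hA₁
  have hneA : A₁ ≠ A := by
    intro he
    apply hg
    apply h.qhyp.mem_of_conj
    intro a ha
    have h1 : a ∈ A₁ := by rw [he]; exact ha
    have h2 := M.normalCore_le (Subgroup.normalCore_normal M |>.conj_mem a h1.2 g⁻¹)
    simpa using h2
  have hlt := h.lt A₁ inf_le_left hne hneA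
  apply absurd hlt
  rw [not_lt]
  have hN := h.pm.normal_inf_core
  -- `A₁` fixes all `x • v`
  have hfix : ∀ x : P, x • v ∈ fx W A₁ := by
    intro x a ha
    have h1 : x⁻¹ * a * x⁻¹⁻¹ ∈ T ⊓ M.normalCore :=
      hN.conj_mem a ⟨h.AT ha.1, ha.2⟩ x⁻¹
    have h2 := hv _ h1.1
    rw [inv_inv, mul_smul, mul_smul, inv_smul_eq_iff] at h2
    exact h2
  have hcore : ∀ a ∈ A, g * a * g⁻¹ ∈ M → a ∈ A₁ := by
    intro a ha h1
    refine ⟨ha, ?_⟩
    intro x
    by_cases hx : x⁻¹ ∈ M
    · rw [M.inv_mem_iff] at hx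
      exact M.mul_mem (M.mul_mem hx (h.pm.TM (h.AT ha))) (M.inv_mem hx)
    · have := h.qhyp.indep ha hgi hx (by simpa using h1)
      simpa using this
  let f : (A ⧸ A₁.subgroupOf A) → ((fx W A₁).map (QuotientAddGroup.mk' (fx W A))) := fun c =>
    ⟨QuotientAddGroup.mk ((g * (c.out : P) * g⁻¹) • v), ⟨_, hfix _, rfl⟩⟩
  have hinj : Function.Injective f := by
    intro c c' hcc
    have h1 : (QuotientAddGroup.mk ((g * (c.out : P) * g⁻¹) • v) : W ⧸ fx W A) =
      QuotientAddGroup.mk ((g * (c'.out : P) * g⁻¹) • v) := congrArg Subtype.val hcc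
    rw [QuotientAddGroup.eq] at h1
    -- the difference is in `Z` and `Z^g`
    have hgen : ∀ a ∈ A, ∀ b ∈ A, (g * b * g⁻¹) • ((g * a * g⁻¹) • v - v) = (g * a * g⁻¹) • v - v := by
      intro a ha b hb
      have h2 := h.quad a ha b hb (g⁻¹ • v)
      have h3 := congrArg (fun w => g • w) h2
      simp only [smul_sub, ← mul_smul] at h3 ⊢
      simpa [mul_assoc] using h3
    have hd : -((g * (c.out : P) * g⁻¹) • v) + (g * (c'.out : P) * g⁻¹) • v ∈
        fx W (⊤ : Subgroup P) := by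
      have h3 : A ⊔ cj g A ≤ MulAction.stabilizer P
          (-((g * (c.out : P) * g⁻¹) • v) + (g * (c'.out : P) * g⁻¹) • v) := by
        apply sup_le
        · intro a ha; exact h1 a ha
        · rw [cj_le_iff]
          intro a ha
          have e : -((g * (c.out : P) * g⁻¹) • v) + (g * (c'.out : P) * g⁻¹) • v =
            ((g * (c'.out : P) * g⁻¹) • v - v) - ((g * (c.out : P) * g⁻¹) • v - v) := by abel
          change (g * a * g⁻¹) • _ = _
          rw [e, smul_sub, hgen _ c'.out.2 _ ha, hgen _ c.out.2 _ ha]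
      rw [h.gen g hg] at h3
      intro x _
      exact h3 (Subgroup.mem_top x)
    have h4 : (g * ((c.out : P)⁻¹ * (c'.out : P)) * g⁻¹) • v - v ∈ fx W (⊤ : Subgroup P) := by
      have h5 := smul_mem_top ((g * (c.out : P) * g⁻¹)⁻¹) hd
      have e : (g * (c.out : P) * g⁻¹)⁻¹ •
          (-((g * (c.out : P) * g⁻¹) • v) + (g * (c'.out : P) * g⁻¹) • v) =
          (g * ((c.out : P)⁻¹ * (c'.out : P)) * g⁻¹) • v - v := by
        rw [smul_add, smul_neg, inv_smul_smul, ← mul_smul]
        have : (g * (c.out : P) * g⁻¹)⁻¹ * (g * (c'.out : P) * g⁻¹) =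
          g * ((c.out : P)⁻¹ * (c'.out : P)) * g⁻¹ := by group
        rw [this]; abel
      rw [← e]; exact h5
    have h6 := h.stab_le hv hv' h4
    have h7 := hcore _ (A.mul_mem (A.inv_mem c.out.2) c'.out.2) h6
    have h8 : (QuotientGroup.mk c.out : A ⧸ A₁.subgroupOf A) = QuotientGroup.mk c'.out := by
      rw [QuotientGroup.eq, Subgroup.mem_subgroupOf]
      exact h7
    rwa [QuotientGroup.out_eq', QuotientGroup.out_eq'] at h8
  have hle := Nat.card_le_card_of_injective f hinj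
  have hc1 := Subgroup.card_eq_card_quotient_mul_card_subgroup (A₁.subgroupOf A)
  have hc2 : Nat.card (A₁.subgroupOf A) = Nat.card A₁ :=
    Nat.card_congr (Subgroup.subgroupOfEquivOfLe inf_le_left).toEquiv
  have hc3 := card_map_mk (fx_anti (W := W) (inf_le_left : A₁ ≤ A))
  rw [hc1, hc2, ← hc3]
  calc Nat.card (A ⧸ A₁.subgroupOf A) * Nat.card A₁ * Nat.card (fx W A)
      ≤ Nat.card ((fx W A₁).map (QuotientAddGroup.mk' (fx W A))) * Nat.card A₁ *
        Nat.card (fx W A) := Nat.mul_le_mul_right _ (Nat.mul_le_mul_right _ hle)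
    _ = Nat.card A₁ * (Nat.card (fx W A) *
        Nat.card ((fx W A₁).map (QuotientAddGroup.mk' (fx W A)))) := by ring

theorem reg {a : P} (ha : a ∈ A) (ha1 : a ≠ 1) {g : P} (hg : g ∉ M) : g⁻¹ * a * g ∉ M := by
  intro h1
  apply ha1
  have h2 : a ∈ A ⊓ M.normalCore := by
    refine ⟨ha, ?_⟩
    intro x
    by_cases hx : x⁻¹ ∈ M
    · rw [M.inv_mem_iff] at hx
      exact M.mul_mem (M.mul_mem hx (h.pm.TM (h.AT ha))) (M.inv_mem hx)
    · have := h.qhyp.indep ha hg hx h1
      simpa using this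
  rw [h.A_core] at h2
  exact h2

theorem qreg : QReg p T M A (Xq W A) := by
  obtain ⟨g, hg⟩ := h.exists_nM
  have hq := h.qhyp
  obtain ⟨v, hvX, hvT, hvM⟩ := hq.hv
  have hv0 : v ≠ 0 := by
    rintro rfl
    exact hg (hvM g (smul_zero g))
  have hcpos : 0 < Nat.card (fx W (⊤ : Subgroup P)) := Nat.card_pos
  have h1 : Nat.card A ≤ Nat.card (Xq W A) := by
    let f : A → Xq W A := fun a => ⟨(a : P) • (g • v) - g • v, hq.quad a a.2 _⟩
    apply Nat.card_le_card_of_injective f
    intro a b hab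
    have h2 : (a : P) • (g • v) - g • v = (b : P) • (g • v) - g • v := congrArg Subtype.val hab
    have h3 : ((b : P)⁻¹ * a) • (g • v) = g • v := by
      rw [mul_smul, inv_smul_eq_iff]
      exact sub_left_injective h2
    by_contra hne
    have h4 : (b : P)⁻¹ * a ≠ 1 := fun h5 => hne (Subtype.ext (inv_mul_eq_one.mp h5).symm)
    have h5 := h.reg (A.mul_mem (A.inv_mem b.2) a.2) h4 hg
    have h6 := hq.inj h5 (y := g • v) (by rw [inv_smul_smul]; exact hvX) h3
    rw [smul_eq_zero_iff_eq] at h6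
    exact hv0 h6
  have h2 : Nat.card (Xq W A) * Nat.card (Xq W A) ≤ Nat.card (W ⧸ fx W (⊤ : Subgroup P)) := by
    rw [← Nat.card_prod]
    apply Nat.card_le_card_of_injective
      (fun z : Xq W A × Xq W A => (z.1 : W ⧸ fx W (⊤ : Subgroup P)) + g • (z.2 : _))
    rintro ⟨x, y⟩ ⟨x', y'⟩ he
    simp only at he
    have h3 : (x : W ⧸ fx W (⊤ : Subgroup P)) - x' = g • ((y' : W ⧸ fx W (⊤ : Subgroup P)) - y) := by
      rw [smul_sub]
      rw [sub_eq_sub_iff_add_eq_add]
      rw [add_comm (g • (y' : W ⧸ fx W (⊤ : Subgroup P)))]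
      exact he
    have h4 := hq.triv g hg ((x : W ⧸ fx W (⊤ : Subgroup P)) - x') (sub_mem x.2 x'.2) (by
      rw [h3, inv_smul_smul]; exact sub_mem y'.2 y.2)
    have h5 : (x : W ⧸ fx W (⊤ : Subgroup P)) = x' := sub_eq_zero.mp h4
    rw [h4] at h3
    have h6 : (y' : W ⧸ fx W (⊤ : Subgroup P)) - y = 0 := by
      rw [← smul_eq_zero_iff_eq g]; exact h3.symm
    exact Prod.ext (Subtype.ext h5) (Subtype.ext (sub_eq_zero.mp h6).symm)
  have h3 : Nat.card (W ⧸ fx W (⊤ : Subgroup P)) ≤ Nat.card A * Nat.card (Xq W A) := by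
    have h4 := h.le
    rw [AddSubgroup.card_eq_card_quotient_mul_card_addSubgroup (fx W (⊤ : Subgroup P)),
      ← card_Xq A] at h4
    have h5 : Nat.card (W ⧸ fx W (⊤ : Subgroup P)) * Nat.card (fx W (⊤ : Subgroup P)) ≤
        (Nat.card A * Nat.card (Xq W A)) * Nat.card (fx W (⊤ : Subgroup P)) := by
      calc _ ≤ _ := h4
        _ = _ := by ring
    exact Nat.le_of_mul_le_mul_right h5 hcpos
  have hXpos : 0 < Nat.card (Xq W A) := Nat.card_pos
  have h4 : Nat.card (Xq W A) ≤ Nat.card A :=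
    Nat.le_of_mul_le_mul_right (h2.trans h3) hXpos
  have h5 : Nat.card A = Nat.card (Xq W A) := le_antisymm h1 h4
  exact { h.qhyp with
    comm := h.comm
    reg := fun a ha ha1 g hg => h.reg ha ha1 hg
    card := h5
    cardQ := le_antisymm (by rw [h5] at h3; exact h3) h2
    exp := by
      intro q
      obtain ⟨w, rfl⟩ := QuotientAddGroup.mk_surjective q
      rw [← QuotientAddGroup.mk_nsmul, h.exp]
      rfl }

/-- faithfulness on the quotient -/
theorem faithQ (g : P) (hg : ∀ q : W ⧸ fx W (⊤ : Subgroup P), g • q = q) : g = 1 := by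
  -- the kernel `K` is a normal `p`-subgroup
  let K : Subgroup P :=
    { carrier := {x | ∀ q : W ⧸ fx W (⊤ : Subgroup P), x • q = q}
      one_mem' := fun q => one_smul P q
      mul_mem' := fun {x y} hx hy q => by rw [mul_smul, hy, hx]
      inv_mem' := fun {x} hx q => by rw [inv_smul_eq_iff]; exact (hx q).symm }
  have hKn : K.Normal := ⟨fun x hx y q => by
    rw [mul_smul, mul_smul, hx, smul_inv_smul]⟩
  have hKd : ∀ x ∈ K, ∀ w : W, x • w - w ∈ fx W (⊤ : Subgroup P) := by
    intro x hx w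
    have h1 := hx (QuotientAddGroup.mk w)
    rw [smul_mk, QuotientAddGroup.eq] at h1
    have h2 : x • w - w = -(-(x • w) + w) := by abel
    rw [h2]; exact neg_mem h1
  have hpow : ∀ x ∈ K, ∀ w : W, ∀ n : ℕ, x ^ n • w = w + n • (x • w - w) := by
    intro x hx w n
    induction n with
    | zero => simp
    | succ n ih =>
      rw [pow_succ', mul_smul, ih, smul_add, smul_comm x n, hKd x hx w x (Subgroup.mem_top x),
        succ_nsmul]
      abel
  have hKp : IsPGroup p K := by
    intro x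
    refine ⟨1, ?_⟩
    apply Subtype.ext
    rw [pow_one]
    apply h.faith
    intro w
    change (x : P) ^ p • w = w
    rw [hpow x x.2 w p, h.exp, add_zero]
  have hKT : K ≤ T := by
    obtain ⟨x, -, hx⟩ := h.pm.syl.conj_le (le_top : K ≤ ⊤) hKp
    rwa [cj_normal] at hx
  apply h.faith
  have hgK : g ∈ K := hg
  obtain ⟨v, hv, hv'⟩ := h.nt
  -- elements of `K` fix all conjugates of `v`
  have hfv : ∀ g ∈ K, ∀ x : P, g • (x • v) = x • v := by
    intro g hgK x
    have h1 : x⁻¹ * g * x⁻¹⁻¹ ∈ K := hKn.conj_mem g hgK x⁻¹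
    have h2 := hv _ (hKT h1)
    rw [inv_inv, mul_smul, mul_smul, inv_smul_eq_iff] at h2
    exact h2
  -- the subgroup fixed by `g` in `W` contains `fx ⊤` and all `x • v`; enough
  have hr := h.qreg
  obtain ⟨k, hk⟩ := h.exists_nM
  -- points of `X` are of the form `b • v - v`
  have hz : ∀ g ∈ K, ∀ z ∈ fx W A, g • z = z := by
    intro g hgK z hz
    -- `a ↦ a • (k • v) - k • v` is onto `X`
    let f : A → Xq W A := fun a => ⟨QuotientAddGroup.mk ((a : P) • (k • v) - k • v), by
      rw [mk_mem_Xq]; intro b hb; exact h.quad a a.2 b hb _⟩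
    have hinj : Function.Injective f := by
      intro a b hab
      have h2 : (QuotientAddGroup.mk ((a : P) • (k • v) - k • v) : W ⧸ fx W (⊤ : Subgroup P)) =
        QuotientAddGroup.mk ((b : P) • (k • v) - k • v) := congrArg Subtype.val hab
      rw [QuotientAddGroup.eq] at h2
      have h3 : -((a : P) • (k • v) - k • v) + ((b : P) • (k • v) - k • v) =
        (b : P) • (k • v) - (a : P) • (k • v) := by abel
      rw [h3] at h2
      have h4 := smul_mem_top (k⁻¹ * (a : P)⁻¹) h2
      have h5 : (k⁻¹ * (a : P)⁻¹) • ((b : P) • (k • v) - (a : P) • (k • v)) =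
          (k⁻¹ * ((a : P)⁻¹ * b) * k) • v - v := by
        rw [smul_sub, ← mul_smul, ← mul_smul, ← mul_smul, ← mul_smul]
        congr 1
        · congr 1; group
        · have : k⁻¹ * (a : P)⁻¹ * (a : P) * k = 1 := by group
          rw [this, one_smul]
      rw [h5] at h4
      have h6 := h.stab_le hv hv' h4
      by_contra hne
      have h7 : (a : P)⁻¹ * b ≠ 1 := fun h8 => hne (Subtype.ext (inv_mul_eq_one.mp h8))
      exact h.reg (A.mul_mem (A.inv_mem a.2) b.2) h7 hk h6
    have hbij : Function.Bijective f := by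
      rw [Nat.bijective_iff_injective_and_card]
      exact ⟨hinj, hr.card⟩
    obtain ⟨a, ha⟩ := hbij.2 ⟨QuotientAddGroup.mk z, mk_mem_Xq.mpr hz⟩
    have h2 : (QuotientAddGroup.mk ((a : P) • (k • v) - k • v) : W ⧸ fx W (⊤ : Subgroup P)) =
        QuotientAddGroup.mk z := congrArg Subtype.val ha
    rw [QuotientAddGroup.eq] at h2
    have h3 : z = ((a : P) • (k • v) - k • v) + (-((a : P) • (k • v) - k • v) + z) := by abel
    rw [h3, smul_add, h2 g (Subgroup.mem_top g), smul_sub, hfv g hgK k, ← mul_smul (a : P) k v,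
      hfv g hgK]
  intro w
  -- `w = z + k • z'` modulo `fx ⊤`
  obtain ⟨z, z', hzz, hz1, hz2⟩ : ∃ z z' : W, (w - (z + k • z') ∈ fx W (⊤ : Subgroup P)) ∧
      z ∈ fx W A ∧ z' ∈ fx W A := by
    have hinj : Function.Injective
        (fun z : Xq W A × Xq W A => (z.1 : W ⧸ fx W (⊤ : Subgroup P)) + k • (z.2 : _)) := by
      rintro ⟨x, y⟩ ⟨x', y'⟩ he
      simp only at he
      have h3 : (x : W ⧸ fx W (⊤ : Subgroup P)) - x' =
          k • ((y' : W ⧸ fx W (⊤ : Subgroup P)) - y) := by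
        rw [smul_sub, sub_eq_sub_iff_add_eq_add, add_comm (k • (y' : W ⧸ fx W (⊤ : Subgroup P)))]
        exact he
      have h4 := hr.triv k hk ((x : W ⧸ fx W (⊤ : Subgroup P)) - x') (sub_mem x.2 x'.2) (by
        rw [h3, inv_smul_smul]; exact sub_mem y'.2 y.2)
      have h5 : (x : W ⧸ fx W (⊤ : Subgroup P)) = x' := sub_eq_zero.mp h4
      rw [h4] at h3
      have h6 : (y' : W ⧸ fx W (⊤ : Subgroup P)) - y = 0 := by
        rw [← smul_eq_zero_iff_eq k]; exact h3.symm
      exact Prod.ext (Subtype.ext h5) (Subtype.ext (sub_eq_zero.mp h6).symm)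
    have hbij : Function.Bijective
        (fun z : Xq W A × Xq W A => (z.1 : W ⧸ fx W (⊤ : Subgroup P)) + k • (z.2 : _)) := by
      rw [Nat.bijective_iff_injective_and_card, Nat.card_prod]
      exact ⟨hinj, hr.cardQ.symm⟩
    obtain ⟨⟨⟨x, hx⟩, ⟨y, hy⟩⟩, he⟩ := hbij.2 (QuotientAddGroup.mk w)
    obtain ⟨z, rfl⟩ := QuotientAddGroup.mk_surjective x
    obtain ⟨z', rfl⟩ := QuotientAddGroup.mk_surjective y
    refine ⟨z, z', ?_, mk_mem_Xq.mp hx, mk_mem_Xq.mp hy⟩
    simp only [smul_mk, ← QuotientAddGroup.mk_add] at he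
    rw [QuotientAddGroup.eq] at he
    have : w - (z + k • z') = -(z + k • z') + w := by abel
    rw [this]; exact he
  have h1 : w = z + k • z' + (w - (z + k • z')) := by abel
  have h2 : g • (k • z') = k • z' := by
    -- conjugate element is in `K`, apply the same to it
    have h3 : k⁻¹ * g * k⁻¹⁻¹ ∈ K := hKn.conj_mem g hgK k⁻¹
    have h4 := hz _ h3 z' hz2
    rw [inv_inv, mul_smul, mul_smul, inv_smul_eq_iff] at h4
    exact h4
  rw [h1, smul_add, smul_add, hz g hgK z hz1, h2, hzz g (Subgroup.mem_top g)]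

end WHyp

end WHyp

end Cfsg.Agent.H88.MA
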