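import Cfsg.Agent.H88.MA2
import Cfsg.Agent.H88.Jor3

/-!
# The quotient module is a natural SL₂-module
-/

set_option autoImplicit false
set_option linter.unusedSectionVars false

namespace Cfsg.Agent.H88.MA

open Cfsg.Agent.H33

section Main

variable {P : Type*} [Group P] [Finite P] {p : ℕ} [Fact p.Prime] {T M A : Subgroup P}
  {Q : Type*} [AddCommGroup Q] [Finite Q] [DistribMulAction P Q] {X : AddSubgroup Q}

namespace QReg

variable (h : QReg p T M A X)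
include h

theorem decomp {g : P} (hg : g ∉ M) (q : Q) : ∃ x ∈ X, ∃ y ∈ X, q = x + g • y := by
  have hinj : Function.Injective (fun z : X × X => (z.1 : Q) + g • (z.2 : Q)) := by
    rintro ⟨x, y⟩ ⟨x', y'⟩ he
    simp only at he
    have h3 : (x : Q) - x' = g • ((y' : Q) - y) := by
      rw [smul_sub, sub_eq_sub_iff_add_eq_add, add_comm (g • (y' : Q))]
      exact he
    have h4 := h.triv g hg ((x : Q) - x') (sub_mem x.2 x'.2) (by
      rw [h3, inv_smul_smul]; exact sub_mem y'.2 y.2)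
    have h5 : (x : Q) = x' := sub_eq_zero.mp h4
    rw [h4] at h3
    have h6 : (y' : Q) - y = 0 := by
      rw [← smul_eq_zero_iff_eq g]; exact h3.symm
    exact Prod.ext (Subtype.ext h5) (Subtype.ext (sub_eq_zero.mp h6).symm)
  have hbij : Function.Bijective (fun z : X × X => (z.1 : Q) + g • (z.2 : Q)) := by
    rw [Nat.bijective_iff_injective_and_card, Nat.card_prod]
    exact ⟨hinj, h.cardQ.symm⟩
  obtain ⟨⟨x, y⟩, he⟩ := hbij.2 q
  exact ⟨x, x.2, y, y.2, he.symm⟩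

theorem eq_one_of_fix {g : P} (hg : g ∉ M) {y : Q} (hy : y ∈ X) (hy0 : y ≠ 0) {a : P} (ha : a ∈ A)
    (hay : a • (g • y) = g • y) : a = 1 := by
  by_contra ha1
  have h1 := h.inj (h.reg a ha ha1 g hg) (y := g • y) (by rw [inv_smul_smul]; exact hy) hay
  rw [smul_eq_zero_iff_eq] at h1
  exact hy0 h1

theorem onto {g : P} (hg : g ∉ M) {y : Q} (hy : y ∈ X) (hy0 : y ≠ 0) {x : Q} (hx : x ∈ X) :
    ∃ a ∈ A, a • (g • y) - g • y = x := by
  let f : A → X := fun a => ⟨(a : P) • (g • y) - g • y, h.quad a a.2 _⟩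
  have hinj : Function.Injective f := by
    intro a b hab
    have h2 : (a : P) • (g • y) - g • y = (b : P) • (g • y) - g • y := congrArg Subtype.val hab
    have h3 : ((b : P)⁻¹ * a) • (g • y) = g • y := by
      rw [mul_smul, inv_smul_eq_iff]
      exact sub_left_injective h2
    have h4 := h.eq_one_of_fix hg hy hy0 (A.mul_mem (A.inv_mem b.2) a.2) h3
    exact Subtype.ext (inv_mul_eq_one.mp h4).symm
  have hbij : Function.Bijective f := by
    rw [Nat.bijective_iff_injective_and_card]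
    exact ⟨hinj, h.card⟩
  obtain ⟨a, ha⟩ := hbij.2 ⟨x, hx⟩
  exact ⟨a, a.2, congrArg Subtype.val ha⟩

theorem cover {g : P} (hg : g ∉ M) {q : Q} (hq : q ∉ X) : ∃ a ∈ A, (a * g)⁻¹ • q ∈ X := by
  obtain ⟨x, hx, y, hy, rfl⟩ := h.decomp hg q
  have hy0 : y ≠ 0 := by
    rintro rfl
    rw [smul_zero, add_zero] at hq
    exact hq hx
  obtain ⟨a, ha, he⟩ := h.onto hg hy hy0 hx
  refine ⟨a, ha, ?_⟩
  have h1 : x + g • y = (a * g) • y := by
    rw [mul_smul, ← he]; abel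
  rw [h1, inv_smul_smul]
  exact hy

theorem exists_nM : ∃ g, g ∉ M := by
  by_contra hno
  push Not at hno
  exact h.pm.top (by rw [eq_top_iff]; intro x _; exact hno x)

theorem M_inv {m : P} (hm : m ∈ M) {x : Q} (hx : x ∈ X) : m • x ∈ X := by
  obtain ⟨g, hg⟩ := h.exists_nM
  by_contra hno
  obtain ⟨a, ha, h1⟩ := h.cover hg hno
  apply hno
  have h2 : m⁻¹ * (a * g) ∉ M := fun h3 =>
    hg ((M.mul_mem_cancel_left (h.AM ha)).mp ((M.mul_mem_cancel_left (M.inv_mem hm)).mp h3))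
  rw [h.triv2 (x := m) (y := a * g) h2 (by rw [inv_smul_smul]; exact hx) h1]
  exact X.zero_mem

theorem match1 {g : P} (hg : g ∉ M) {a' : P} (ha' : a' ∈ A) (ha1 : a' ≠ 1) :
    ∃ a ∈ A, a ≠ 1 ∧ (g * a' * g⁻¹)⁻¹ * (a * g) ∈ M := by
  obtain ⟨v, hvX, hvT, hvM⟩ := h.hv
  have hv0 : v ≠ 0 := by
    rintro rfl
    exact hg (hvM g (smul_zero g))
  have hgi : g⁻¹ ∉ M := fun h2 => hg (M.inv_mem_iff.mp h2)
  have hb : g * a' * g⁻¹ ∉ M := by
    have := h.reg a' ha' ha1 g⁻¹ hgi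
    simpa using this
  set b := g * a' * g⁻¹ with hbdef
  have hq0 : b • v ≠ 0 := fun h2 => hv0 ((smul_eq_zero_iff_eq b).mp h2)
  have hq : b • v ∉ X := by
    intro h2
    exact hq0 (h.triv b hb (b • v) h2 (by rw [inv_smul_smul]; exact hvX))
  obtain ⟨a, ha, h1⟩ := h.cover hg hq
  have h2 : b⁻¹ * (a * g) ∈ M := by
    by_contra h3
    exact hq0 (h.triv2 (x := b) (y := a * g) h3 (by rw [inv_smul_smul]; exact hvX) h1)
  refine ⟨a, ha, ?_, h2⟩
  rintro rfl
  rw [one_mul] at h2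
  have h4 : b⁻¹ * g = g * a'⁻¹ := by rw [hbdef]; group
  rw [h4] at h2
  exact hg ((M.mul_mem_cancel_right (M.inv_mem (h.AM ha'))).mp h2)

theorem match2 {g : P} (hg : g ∉ M) {a : P} (ha : a ∈ A) (ha1 : a ≠ 1) :
    ∃ a' ∈ A, a' ≠ 1 ∧ (g * a' * g⁻¹)⁻¹ * (a * g) ∈ M := by
  have hgi : g⁻¹ ∉ M := fun h2 => hg (M.inv_mem_iff.mp h2)
  obtain ⟨a', ha', h1, h2⟩ := h.match1 hgi ha ha1
  refine ⟨a', ha', h1, ?_⟩
  have h3 := M.inv_mem h2
  convert h3 using 1
  group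

/-- the translate of `X` -/
def _root_.Cfsg.Agent.H88.MA.tr (g : P) (X : AddSubgroup Q) : AddSubgroup Q :=
  X.comap (DistribSMul.toAddMonoidHom Q g⁻¹)

omit [Finite P] [Fact p.Prime] [Finite Q] h in
theorem _root_.Cfsg.Agent.H88.MA.mem_tr {g : P} {q : Q} : q ∈ tr g X ↔ g⁻¹ • q ∈ X := Iff.rfl

theorem quadB {g : P} {a : P} (ha : a ∈ A) (q : Q) : (g * a * g⁻¹) • q - q ∈ tr g X := by
  rw [mem_tr, smul_sub, ← mul_smul]
  have h1 := h.quad a ha (g⁻¹ • q)
  have : g⁻¹ * (g * a * g⁻¹) = a * g⁻¹ := by group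
  rw [this, mul_smul]
  exact h1

theorem fixB {g : P} {a : P} (ha : a ∈ A) {q : Q} (hq : q ∈ tr g X) : (g * a * g⁻¹) • q = q := by
  have h1 := h.fixX a ha _ (mem_tr.mp hq)
  rw [mul_smul, mul_smul, h1, smul_inv_smul]

theorem inter {g : P} (hg : g ∉ M) {q : Q} (h1 : q ∈ X) (h2 : q ∈ tr g X) : q = 0 :=
  h.triv g hg q h1 h2

theorem pair {g : P} (hg : g ∉ M) {a a' : P} (ha : a ∈ A) (ha' : a' ∈ A)
    (hm : (g * a' * g⁻¹)⁻¹ * (a * g) ∈ M) (φ : Q ⧸ X →+ Q ⧸ tr g X) (ψ : Q ⧸ tr g X →+ Q ⧸ X)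
    (hφ : ∀ q : Q, φ (QuotientAddGroup.mk q) = QuotientAddGroup.mk (a • q - q))
    (hψ : ∀ q : Q, ψ (QuotientAddGroup.mk q) = QuotientAddGroup.mk ((g * a' * g⁻¹) • q - q)) :
    (∀ x, φ (ψ x) = x) ∧ ∀ y, ψ (φ y) = y := by
  set b := g * a' * g⁻¹ with hb
  constructor
  · intro x
    obtain ⟨q, rfl⟩ := QuotientAddGroup.mk_surjective x
    obtain ⟨x, hx, y, hy, rfl⟩ := h.decomp hg q
    have e1 : (QuotientAddGroup.mk (x + g • y) : Q ⧸ tr g X) = QuotientAddGroup.mk x := by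
      rw [eq_comm, QuotientAddGroup.eq, mem_tr]
      have : -x + (x + g • y) = g • y := by abel
      rw [this, inv_smul_smul]; exact hy
    rw [e1, hψ]
    have hy0 : (a * g)⁻¹ • (b • x) ∈ X := by
      have h1 := h.M_inv (M.inv_mem hm) hx
      rw [← mul_smul]
      convert h1 using 2
      group
    set y0 := (a * g)⁻¹ • (b • x) with hy0d
    have hbx : b • x = a • (g • y0) := by
      rw [← mul_smul, hy0d, smul_inv_smul]
    have e2 : (QuotientAddGroup.mk (b • x - x) : Q ⧸ X) = QuotientAddGroup.mk (g • y0) := by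
      rw [QuotientAddGroup.eq, hbx]
      have : -(a • (g • y0) - x) + g • y0 = x - (a • (g • y0) - g • y0) := by abel
      rw [this]
      exact X.sub_mem hx (h.quad a ha _)
    rw [e2, hφ, eq_comm, QuotientAddGroup.eq, ← hbx]
    have : -x + (b • x - g • y0) = (b • x - x) - g • y0 := by abel
    rw [this]
    refine sub_mem (h.quadB ha' x) ?_
    rw [mem_tr, inv_smul_smul]
    exact hy0
  · intro x
    obtain ⟨q, rfl⟩ := QuotientAddGroup.mk_surjective x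
    obtain ⟨x, hx, y, hy, rfl⟩ := h.decomp hg q
    have e1 : (QuotientAddGroup.mk (x + g • y) : Q ⧸ X) = QuotientAddGroup.mk (g • y) := by
      rw [QuotientAddGroup.eq]
      have : -(x + g • y) + g • y = -x := by abel
      rw [this]; exact X.neg_mem hx
    rw [e1, hφ]
    have hx0 : b⁻¹ • (a • (g • y)) ∈ X := by
      have h1 := h.M_inv hm hy
      rw [← mul_smul, ← mul_smul]
      convert h1 using 2
      group
    set x0 := b⁻¹ • (a • (g • y)) with hx0d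
    have hbx : a • (g • y) = b • x0 := by rw [hx0d, smul_inv_smul]
    have e2 : (QuotientAddGroup.mk (a • (g • y) - g • y) : Q ⧸ tr g X) = QuotientAddGroup.mk x0 := by
      rw [QuotientAddGroup.eq, hbx]
      have : -(b • x0 - g • y) + x0 = g • y - (b • x0 - x0) := by abel
      rw [this]
      refine sub_mem ?_ (h.quadB ha' _)
      rw [mem_tr, inv_smul_smul]; exact hy
    rw [e2, hψ, eq_comm, QuotientAddGroup.eq, ← hbx]
    have : -(g • y) + (a • (g • y) - x0) = (a • (g • y) - g • y) - x0 := by abel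
    rw [this]
    exact X.sub_mem (h.quad a ha _) hx0

theorem addA {a b : P} (ha : a ∈ A) (hb : b ∈ A) (q : Q) :
    (a * b) • q - q = (a • q - q) + (b • q - q) := by
  have h1 := h.fixX a ha _ (h.quad b hb q)
  rw [smul_sub, ← mul_smul] at h1
  rw [← h1]; abel

theorem addB {g : P} {a b : P} (ha : a ∈ A) (hb : b ∈ A) (q : Q) :
    (g * (a * b) * g⁻¹) • q - q = ((g * a * g⁻¹) • q - q) + ((g * b * g⁻¹) • q - q) := by
  have h1 := h.fixB ha (h.quadB (g := g) hb q)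
  rw [smul_sub, ← mul_smul] at h1
  have h2 : g * a * g⁻¹ * (g * b * g⁻¹) = g * (a * b) * g⁻¹ := by group
  rw [h2] at h1
  rw [← h1]; abel

/-- the family of `φ_a` -/
noncomputable def Phi (g : P) : AddSubgroup (Q ⧸ X →+ Q ⧸ tr g X) where
  carrier := {φ | ∃ a ∈ A, ∀ q : Q, φ (QuotientAddGroup.mk q) = QuotientAddGroup.mk (a • q - q)}
  zero_mem' := ⟨1, A.one_mem, fun q => by rw [one_smul, sub_self]; rfl⟩
  add_mem' := by
    rintro φ φ' ⟨a, ha, h1⟩ ⟨b, hb, h2⟩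
    refine ⟨a * b, A.mul_mem ha hb, fun q => ?_⟩
    rw [AddMonoidHom.add_apply, h1, h2, h.addA ha hb]
    rfl
  neg_mem' := by
    rintro φ ⟨a, ha, h1⟩
    refine ⟨a⁻¹, A.inv_mem ha, fun q => ?_⟩
    rw [AddMonoidHom.neg_apply, h1, ← QuotientAddGroup.mk_neg]
    congr 1
    have h2 := h.addA (A.inv_mem ha) ha q
    rw [inv_mul_cancel, one_smul, sub_self] at h2
    exact neg_eq_of_add_eq_zero_left h2.symm

/-- the family of `ψ_b` -/
noncomputable def Psi (g : P) : AddSubgroup (Q ⧸ tr g X →+ Q ⧸ X) where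
  carrier := {ψ | ∃ a ∈ A, ∀ q : Q, ψ (QuotientAddGroup.mk q) =
    QuotientAddGroup.mk ((g * a * g⁻¹) • q - q)}
  zero_mem' := ⟨1, A.one_mem, fun q => by rw [mul_one, mul_inv_cancel, one_smul, sub_self]; rfl⟩
  add_mem' := by
    rintro φ φ' ⟨a, ha, h1⟩ ⟨b, hb, h2⟩
    refine ⟨a * b, A.mul_mem ha hb, fun q => ?_⟩
    rw [AddMonoidHom.add_apply, h1, h2, h.addB ha hb]
    rfl
  neg_mem' := by
    rintro φ ⟨a, ha, h1⟩
    refine ⟨a⁻¹, A.inv_mem ha, fun q => ?_⟩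
    rw [AddMonoidHom.neg_apply, h1, ← QuotientAddGroup.mk_neg]
    congr 1
    have h2 := h.addB (g := g) (A.inv_mem ha) ha q
    rw [inv_mul_cancel, mul_one, mul_inv_cancel, one_smul, sub_self] at h2
    exact neg_eq_of_add_eq_zero_left h2.symm

theorem exists_phi (g : P) {a : P} (ha : a ∈ A) : ∃ φ : Q ⧸ X →+ Q ⧸ tr g X,
    ∀ q : Q, φ (QuotientAddGroup.mk q) = QuotientAddGroup.mk (a • q - q) :=
  ⟨QuotientAddGroup.map X (tr g X) (DistribSMul.toAddMonoidHom Q a - AddMonoidHom.id Q) (by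
    intro x hx
    change a • x - x ∈ tr g X
    rw [h.fixX a ha x hx, sub_self]; exact zero_mem _), fun q => rfl⟩

theorem exists_psi (g : P) {a : P} (ha : a ∈ A) : ∃ ψ : Q ⧸ tr g X →+ Q ⧸ X,
    ∀ q : Q, ψ (QuotientAddGroup.mk q) = QuotientAddGroup.mk ((g * a * g⁻¹) • q - q) :=
  ⟨QuotientAddGroup.map (tr g X) X (DistribSMul.toAddMonoidHom Q (g * a * g⁻¹) - AddMonoidHom.id Q)
    (by
      intro x hx
      change (g * a * g⁻¹) • x - x ∈ X
      rw [h.fixB ha hx, sub_self]; exact zero_mem _), fun q => rfl⟩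

theorem card_tr (g : P) : Nat.card (tr g X) = Nat.card X := by
  apply Nat.card_congr
  exact
    { toFun := fun q => ⟨g⁻¹ • (q : Q), q.2⟩
      invFun := fun q => ⟨g • (q : Q), by rw [mem_tr, inv_smul_smul]; exact q.2⟩
      left_inv := fun q => Subtype.ext (smul_inv_smul g (q : Q))
      right_inv := fun q => Subtype.ext (inv_smul_smul g (q : Q)) }

theorem card_quot (g : P) : Nat.card (Q ⧸ tr g X) = Nat.card X := by
  have h1 := AddSubgroup.card_eq_card_quotient_mul_card_addSubgroup (tr g X)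
  rw [h.card_tr, h.cardQ] at h1
  exact (Nat.eq_of_mul_eq_mul_right Nat.card_pos h1).symm

theorem card_Phi {g : P} (hg : g ∉ M) : Nat.card (h.Phi g) = Nat.card A := by
  obtain ⟨v, hvX, hvT, hvM⟩ := h.hv
  have hv0 : v ≠ 0 := by
    rintro rfl
    exact hg (hvM g (smul_zero g))
  choose f hf using fun a : A => h.exists_phi g a.2
  symm
  apply Nat.card_congr
  refine Equiv.ofBijective (fun a => (⟨f a, a, a.2, hf a⟩ : h.Phi g)) ⟨?_, ?_⟩
  · intro a b hab
    have h1 : f a = f b := congrArg Subtype.val hab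
    have h2 : (a : P) • (g • v) - g • v = (b : P) • (g • v) - g • v := by
      have h3 := DFunLike.congr_fun h1 (QuotientAddGroup.mk (g • v))
      rw [hf, hf, QuotientAddGroup.eq] at h3
      have h4 : -((a : P) • (g • v) - g • v) + ((b : P) • (g • v) - g • v) ∈ X :=
        X.add_mem (X.neg_mem (h.quad a a.2 _)) (h.quad b b.2 _)
      exact neg_add_eq_zero.mp (h.inter hg h4 h3)
    have h3 : ((b : P)⁻¹ * a) • (g • v) = g • v := by
      rw [mul_smul, inv_smul_eq_iff]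
      exact sub_left_injective h2
    have h4 := h.eq_one_of_fix hg hvX hv0 (A.mul_mem (A.inv_mem b.2) a.2) h3
    exact Subtype.ext (inv_mul_eq_one.mp h4).symm
  · rintro ⟨φ, a, ha, h1⟩
    refine ⟨⟨a, ha⟩, Subtype.ext ?_⟩
    ext q
    change f ⟨a, ha⟩ (QuotientAddGroup.mk q) = φ (QuotientAddGroup.mk q)
    rw [hf, h1]

/-- Coordinates of the quotient module. -/
theorem coordinates {g : P} (hg : g ∉ M) : ∃ (F : Type) (_ : Field F) (_ : Fintype F)
    (ξ : (Q ⧸ tr g X) ≃+ F) (η : (Q ⧸ X) ≃+ F),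
    Nat.card F = Nat.card A ∧
    (∀ a ∈ A, ∃ f : F, ∀ q : Q, ξ (QuotientAddGroup.mk (a • q - q)) = f * η (QuotientAddGroup.mk q)) ∧
    (∀ f : F, ∃ a ∈ A, ∀ q : Q,
      ξ (QuotientAddGroup.mk (a • q - q)) = f * η (QuotientAddGroup.mk q)) ∧
    (∀ a ∈ A, ∃ f : F, ∀ q : Q,
      η (QuotientAddGroup.mk ((g * a * g⁻¹) • q - q)) = f * ξ (QuotientAddGroup.mk q)) ∧
    (∀ f : F, ∃ a ∈ A, ∀ q : Q,
      η (QuotientAddGroup.mk ((g * a * g⁻¹) • q - q)) = f * ξ (QuotientAddGroup.mk q)) := by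
  obtain ⟨v, hvX, hvT, hvM⟩ := h.hv
  have hv0 : v ≠ 0 := by
    rintro rfl
    exact hg (hvM g (smul_zero g))
  have hXn : Nontrivial X := ⟨⟨⟨v, hvX⟩, 0, fun h2 => hv0 (congrArg Subtype.val h2)⟩⟩
  have hnt : Nontrivial (Q ⧸ tr g X) := by
    rw [← Finite.one_lt_card_iff_nontrivial, h.card_quot, Finite.one_lt_card_iff_nontrivial]
    exact hXn
  obtain ⟨F, iF, iFF, ξ, η, h1, h2, h3, h4⟩ := Jor.coords p (X := Q ⧸ tr g X) (Y := Q ⧸ X) (by
      intro x
      obtain ⟨q, rfl⟩ := QuotientAddGroup.mk_surjective x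
      rw [← QuotientAddGroup.mk_nsmul, h.exp]
      rfl) hnt (h.Phi g) (h.Psi g) (by
      rintro φ ⟨a, ha, hφ⟩ hne
      have ha1 : a ≠ 1 := by
        rintro rfl
        apply hne
        ext q
        change φ (QuotientAddGroup.mk q) = 0
        rw [hφ, one_smul, sub_self]
        rfl
      obtain ⟨a', ha', -, hm⟩ := h.match2 hg ha ha1
      obtain ⟨ψ, hψ⟩ := h.exists_psi g ha'
      exact ⟨ψ, ⟨a', ha', hψ⟩, h.pair hg ha ha' hm φ ψ hφ hψ⟩) (by
      rintro ψ ⟨a', ha', hψ⟩ hne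
      have ha1 : a' ≠ 1 := by
        rintro rfl
        apply hne
        ext q
        change ψ (QuotientAddGroup.mk q) = 0
        rw [hψ, mul_one, mul_inv_cancel, one_smul, sub_self]
        rfl
      obtain ⟨a, ha, -, hm⟩ := h.match1 hg ha' ha1
      obtain ⟨φ, hφ⟩ := h.exists_phi g ha
      exact ⟨φ, ⟨a, ha, hφ⟩, h.pair hg ha ha' hm φ ψ hφ hψ⟩) (by
      rw [h.card_Phi hg, h.card_quot, h.card])
  refine ⟨F, iF, iFF, ξ, η, ?_, ?_, ?_, ?_, ?_⟩
  · rw [h.card, ← h.card_quot g]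
    exact Nat.card_congr ξ.symm.toEquiv
  · intro a ha
    obtain ⟨φ, hφ⟩ := h.exists_phi g ha
    obtain ⟨f, hf⟩ := h1 φ ⟨a, ha, hφ⟩
    exact ⟨f, fun q => by rw [← hφ]; exact hf _⟩
  · intro f
    obtain ⟨φ, ⟨a, ha, hφ⟩, hf⟩ := h2 f
    exact ⟨a, ha, fun q => by rw [← hφ]; exact hf _⟩
  · intro a ha
    obtain ⟨φ, hφ⟩ := h.exists_psi g ha
    obtain ⟨f, hf⟩ := h3 φ ⟨a, ha, hφ⟩
    exact ⟨f, fun q => by rw [← hφ]; exact hf _⟩
  · intro f
    obtain ⟨φ, ⟨a, ha, hφ⟩, hf⟩ := h4 f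
    exact ⟨a, ha, fun q => by rw [← hφ]; exact hf _⟩

end QReg

end Main

end Cfsg.Agent.H88.MA
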