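import Cfsg.Agent.H88.MA3

/-!
# The quotient module is a natural SL₂-module, assembly
-/

set_option autoImplicit false
set_option linter.unusedSectionVars false

namespace Cfsg.Agent.H88.MA

open Cfsg.Agent.H33 Matrix

section SL2

variable {F : Type*} [Field F]

/-- upper transvection -/
def up (f : F) : Matrix.SpecialLinearGroup (Fin 2) F :=
  ⟨!![1, f; 0, 1], by rw [Matrix.det_fin_two_of]; ring⟩

/-- lower transvection -/
def lo (f : F) : Matrix.SpecialLinearGroup (Fin 2) F :=
  ⟨!![1, 0; f, 1], by rw [Matrix.det_fin_two_of]; ring⟩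

theorem sl2_gen (H : Subgroup (Matrix.SpecialLinearGroup (Fin 2) F)) (h1 : ∀ f, up f ∈ H)
    (h2 : ∀ f, lo f ∈ H) : H = ⊤ := by
  have key : ∀ m : Matrix.SpecialLinearGroup (Fin 2) F, m.1 1 0 ≠ 0 → m ∈ H := by
    intro m hc
    have hdet := m.2
    rw [Matrix.det_fin_two] at hdet
    have e : m = up ((m.1 0 0 - 1) / m.1 1 0) * lo (m.1 1 0) * up ((m.1 1 1 - 1) / m.1 1 0) := by
      apply Subtype.ext
      change m.1 = (!![1, (m.1 0 0 - 1) / m.1 1 0; 0, 1] * !![1, 0; m.1 1 0, 1]) *
        !![1, (m.1 1 1 - 1) / m.1 1 0; 0, 1]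
      ext i j
      fin_cases i <;> fin_cases j <;> simp [Matrix.mul_apply, Fin.sum_univ_two]
      · field_simp; ring
      · field_simp
        linear_combination (-1) * hdet
      · field_simp; ring
    rw [e]
    exact H.mul_mem (H.mul_mem (h1 _) (h2 _)) (h1 _)
  rw [eq_top_iff]
  intro m _
  by_cases hc : m.1 1 0 = 0
  · have hdet := m.2
    rw [Matrix.det_fin_two, hc, mul_zero, sub_zero] at hdet
    have ha : m.1 0 0 ≠ 0 := left_ne_zero_of_mul_eq_one hdet
    have h3 : lo 1 * m ∈ H := by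
      apply key
      change ((!![1, 0; 1, 1] : Matrix (Fin 2) (Fin 2) F) * m.1) 1 0 ≠ 0
      simp [Matrix.mul_apply, Fin.sum_univ_two, hc, ha]
    exact (H.mul_mem_cancel_left (h2 1)).mp h3
  · exact key m hc

end SL2

section Main

variable {P : Type*} [Group P] [Finite P] {p : ℕ} [Fact p.Prime] {T M A : Subgroup P}
  {Q : Type*} [AddCommGroup Q] [Finite Q] [DistribMulAction P Q] {X : AddSubgroup Q}

theorem QReg.natural (h : QReg p T M A X) (hf : ∀ g : P, (∀ q : Q, g • q = q) → g = 1) :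
    ∃ (F : Type) (_ : Field F) (_ : Fintype F), Nat.card F = Nat.card A ∧
      ∃ (ρ : P →* Matrix.SpecialLinearGroup (Fin 2) F) (vec : Q →+ (Fin 2 → F)),
        Function.Bijective ρ ∧ Function.Bijective vec ∧
        ∀ (z : P) (q : Q), vec (z • q) = (ρ z).1 *ᵥ vec q := by
  classical
  obtain ⟨g, hg⟩ := h.exists_nM
  obtain ⟨F, iF, iFF, ξ, η, hcard, hA1, hA2, hB1, hB2⟩ := h.coordinates hg
  let vec : Q →+ (Fin 2 → F) :=
    { toFun := fun q => ![ξ (QuotientAddGroup.mk q), η (QuotientAddGroup.mk q)]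
      map_zero' := by
        ext i
        fin_cases i
        · exact map_zero ξ
        · exact map_zero η
      map_add' := fun q q' => by
        ext i
        fin_cases i
        · exact map_add ξ (QuotientAddGroup.mk q) (QuotientAddGroup.mk q')
        · exact map_add η (QuotientAddGroup.mk q) (QuotientAddGroup.mk q') }
  have hv0 : ∀ q, vec q 0 = ξ (QuotientAddGroup.mk q) := fun q => rfl
  have hv1 : ∀ q, vec q 1 = η (QuotientAddGroup.mk q) := fun q => rfl
  have hinj : Function.Injective vec := by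
    rw [injective_iff_map_eq_zero]
    intro q hq
    have h0 := congrFun hq 0
    have h1 := congrFun hq 1
    rw [hv0, Pi.zero_apply, EmbeddingLike.map_eq_zero_iff] at h0
    rw [hv1, Pi.zero_apply, EmbeddingLike.map_eq_zero_iff] at h1
    exact h.inter hg ((QuotientAddGroup.eq_zero_iff q).mp h1) ((QuotientAddGroup.eq_zero_iff q).mp h0)
  have hbij : Function.Bijective vec := by
    rw [Nat.bijective_iff_injective_and_card]
    refine ⟨hinj, ?_⟩
    rw [h.cardQ, Nat.card_fun, Nat.card_eq_fintype_card (α := Fin 2), Fintype.card_fin, hcard,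
      h.card, pow_two]
  have hmv : ∀ (f : F) (w : Fin 2 → F), (up f).1 *ᵥ w = ![w 0 + f * w 1, w 1] := by
    intro f w
    ext i
    fin_cases i <;> simp [up, Matrix.mulVec, dotProduct, Fin.sum_univ_two]
  have hml : ∀ (f : F) (w : Fin 2 → F), (lo f).1 *ᵥ w = ![w 0, w 1 + f * w 0] := by
    intro f w
    ext i
    fin_cases i <;> simp [lo, Matrix.mulVec, dotProduct, Fin.sum_univ_two, add_comm]
  have hup : ∀ (a : P) (f : F), a ∈ A → (∀ q : Q, ξ (QuotientAddGroup.mk (a • q - q)) =
      f * η (QuotientAddGroup.mk q)) → ∀ q, vec (a • q) = (up f).1 *ᵥ vec q := by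
    intro a f ha hf q
    rw [hmv]
    ext i
    fin_cases i
    · change ξ (QuotientAddGroup.mk (a • q)) = ξ (QuotientAddGroup.mk q) +
        f * η (QuotientAddGroup.mk q)
      rw [← hf, ← map_add, ← QuotientAddGroup.mk_add]
      congr 2; abel
    · change η (QuotientAddGroup.mk (a • q)) = η (QuotientAddGroup.mk q)
      congr 1
      rw [eq_comm, QuotientAddGroup.eq, neg_add_eq_sub]
      exact h.quad a ha q
  have hlo : ∀ (a : P) (f : F), a ∈ A → (∀ q : Q, η (QuotientAddGroup.mk ((g * a * g⁻¹) • q - q)) =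
      f * ξ (QuotientAddGroup.mk q)) → ∀ q, vec ((g * a * g⁻¹) • q) = (lo f).1 *ᵥ vec q := by
    intro a f ha hf q
    rw [hml]
    ext i
    fin_cases i
    · change ξ (QuotientAddGroup.mk ((g * a * g⁻¹) • q)) = ξ (QuotientAddGroup.mk q)
      congr 1
      rw [eq_comm, QuotientAddGroup.eq, neg_add_eq_sub]
      exact h.quadB ha q
    · change η (QuotientAddGroup.mk ((g * a * g⁻¹) • q)) = η (QuotientAddGroup.mk q) +
        f * ξ (QuotientAddGroup.mk q)
      rw [← hf, ← map_add, ← QuotientAddGroup.mk_add]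
      congr 2; abel
  -- uniqueness
  have huniq : ∀ m m' : Matrix.SpecialLinearGroup (Fin 2) F,
      (∀ q, m.1 *ᵥ vec q = m'.1 *ᵥ vec q) → m = m' := by
    intro m m' hmm
    apply Subtype.ext
    apply Matrix.ext_of_mulVec_single
    intro i
    obtain ⟨q, hq⟩ := hbij.2 (Pi.single i 1)
    rw [← hq]
    exact hmm q
  -- existence
  let S : Subgroup P :=
    { carrier := {z | ∃ m : Matrix.SpecialLinearGroup (Fin 2) F, ∀ q, vec (z • q) = m.1 *ᵥ vec q}
      one_mem' := ⟨1, fun q => by rw [one_smul, Matrix.SpecialLinearGroup.coe_one, Matrix.one_mulVec]⟩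
      mul_mem' := by
        rintro z z' ⟨m, hm⟩ ⟨m', hm'⟩
        refine ⟨m * m', fun q => ?_⟩
        rw [mul_smul, hm, hm', Matrix.mulVec_mulVec, Matrix.SpecialLinearGroup.coe_mul]
      inv_mem' := by
        rintro z ⟨m, hm⟩
        refine ⟨m⁻¹, fun q => ?_⟩
        have h1 := hm (z⁻¹ • q)
        rw [smul_inv_smul] at h1
        rw [h1, Matrix.mulVec_mulVec, ← Matrix.SpecialLinearGroup.coe_mul, inv_mul_cancel,
          Matrix.SpecialLinearGroup.coe_one, Matrix.one_mulVec] }
  have hS : S = ⊤ := by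
    rw [eq_top_iff, ← h.gen g hg]
    apply sup_le
    · intro a ha
      obtain ⟨f, hf⟩ := hA1 a ha
      exact ⟨up f, hup a f ha hf⟩
    · rw [cj_le_iff]
      intro a ha
      obtain ⟨f, hf⟩ := hB1 a ha
      exact ⟨lo f, hlo a f ha hf⟩
  have hex : ∀ z : P, ∃ m : Matrix.SpecialLinearGroup (Fin 2) F,
      ∀ q, vec (z • q) = m.1 *ᵥ vec q := by
    intro z
    have : z ∈ S := by rw [hS]; exact Subgroup.mem_top z
    exact this
  choose r hr using hex
  let ρ : P →* Matrix.SpecialLinearGroup (Fin 2) F :=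
    { toFun := r
      map_one' := huniq _ _ fun q => by
        rw [← hr, one_smul, Matrix.SpecialLinearGroup.coe_one, Matrix.one_mulVec]
      map_mul' := fun z z' => huniq _ _ fun q => by
        rw [← hr, mul_smul, hr, hr, Matrix.mulVec_mulVec, Matrix.SpecialLinearGroup.coe_mul] }
  refine ⟨F, iF, iFF, hcard, ρ, vec, ⟨?_, ?_⟩, hbij, fun z q => hr z q⟩
  · rw [injective_iff_map_eq_one]
    intro z hz
    apply hf
    intro q
    apply hinj
    rw [hr]
    change (ρ z).1 *ᵥ vec q = vec q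
    rw [hz, Matrix.SpecialLinearGroup.coe_one, Matrix.one_mulVec]
  · rw [← MonoidHom.range_eq_top]
    apply sl2_gen
    · intro f
      obtain ⟨a, ha, hf⟩ := hA2 f
      refine ⟨a, huniq _ _ fun q => ?_⟩
      change (r a).1 *ᵥ vec q = _
      rw [← hr, hup a f ha hf]
    · intro f
      obtain ⟨a, ha, hf⟩ := hB2 f
      refine ⟨g * a * g⁻¹, huniq _ _ fun q => ?_⟩
      change (r (g * a * g⁻¹)).1 *ᵥ vec q = _
      rw [← hr, hlo a f ha hf]

end Main

end Cfsg.Agent.H88.MA
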