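import Cfsg.Agent.BlkInd.TCdef
import Cfsg.Agent.Char.AbQuot
import Cfsg.Agent.Char.ExtCyclic
import Cfsg.Agent.Char.Berger

/-!
# Piece TC2 of S4609: elements of the quotient with cyclic centralizer are good
-/

set_option autoImplicit false
set_option linter.style.haveILetI false
set_option linter.unusedSectionVars false
set_option linter.unusedVariables false

namespace Cfsg.Agent.BlkInd.TC

open scoped BigOperators ComplexConjugate
open Cfsg Cfsg.Agent.CharBase Cfsg.Agent.Char Cfsg.Agent.Blk Cfsg.Agent.BlkC Cfsg.Agent.BlkInd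

universe u

variable {X : Type u} [Group X] [Fintype X] {C : Subgroup X} [hCn : C.Normal] [Fintype C] {θ : IrrCharacter C}

/-- If `ψ ∈ Irr(Y)` restricts to `θ` on `C` and `χ` is a constituent of `Ind ψ` then `χ` lies over `θ`. -/
theorem ov_of_ind {Y : Subgroup X} [Fintype Y] (hCY : C ≤ Y) {ψ : Y → ℂ} (hψ : IsIrrCharacter Y ψ)
    (hres : ∀ n : C, ψ ⟨n, hCY n.2⟩ = (θ : C → ℂ) n) (χ : IrrCharacter X)
    (h : classInner (indFun Y ψ) (χ : X → ℂ) ≠ 0) : Ov C θ χ := by
  classical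
  have hχc := isCharacter_of_isIrr χ.2
  have hcl := isClassFunction_of_isCharacter hχc
  rw [frobenius_reciprocity Y ψ _ hcl] at h
  letI : Fintype (C.subgroupOf Y) := Fintype.ofFinite _
  let e : C.subgroupOf Y ≃* C := Subgroup.subgroupOfEquivOfLe hCY
  let θ' : C.subgroupOf Y → ℂ := fun n => (θ : C → ℂ) (e n)
  have hθ' : IsIrrCharacter (C.subgroupOf Y) θ' :=
    isIrrCharacter_comp_surjective θ.2 e.toMonoidHom e.surjective
  have hresχ : IsCharacter Y (fun y : Y => (χ : X → ℂ) y) := isCharacter_restrict hχc Y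
  have h1 : classInner (fun y : Y => (χ : X → ℂ) y) ψ ≠ 0 := by
    rw [classInner_comm_of_isCharacter hresχ (isCharacter_of_isIrr hψ)]
    exact h
  have h2 : classInner (indFun (C.subgroupOf Y) θ') ψ ≠ 0 := by
    rw [frobenius_reciprocity _ _ _ (isClassFunction_of_isCharacter (isCharacter_of_isIrr hψ))]
    have : (fun n : C.subgroupOf Y => ψ n) = θ' := by
      funext n
      exact hres (e n)
    rw [this, classInner_self_of_irr hθ']
    exact one_ne_zero
  have h3 := classInner_ne_zero_of_common hresχ (indFun_isCharacter _ _ (isCharacter_of_isIrr hθ')) hψ h1 h2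
  rw [frobenius_reciprocity' _ _ _ (isClassFunction_of_isCharacter hresχ)] at h3
  have h4 : classInner (fun n : C => (χ : X → ℂ) n) (θ : C → ℂ) =
      classInner (fun n : C.subgroupOf Y => (χ : X → ℂ) ((n : Y) : X)) θ' := by
    rw [← classInner_comp_equiv e]
    rfl
  unfold Ov
  rw [h4]
  exact h3

/-- Elements of the quotient with cyclic centralizer are good. -/
theorem gd_of_cyclic (hinv : Iv C θ) (g : X ⧸ C) (h : IsCyclic (Subgroup.centralizer ({g} : Set (X ⧸ C)))) :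
    Gd C θ g := by
  classical
  by_contra hcon
  have hvan : ∀ χ : IrrCharacter X, Ov C θ χ → ∀ t : X, (QuotientGroup.mk t : X ⧸ C) = g → (χ : X → ℂ) t = 0 := by
    intro χ hχ t ht
    by_contra h0
    exact hcon ⟨χ, hχ, t, ht, h0⟩
  set Y : Subgroup X := (Subgroup.centralizer ({g} : Set (X ⧸ C))).comap (QuotientGroup.mk' C) with hY
  letI : Fintype Y := Fintype.ofFinite _
  have hmemY : ∀ x : X, x ∈ Y ↔ g * (x : X ⧸ C) = (x : X ⧸ C) * g := by
    intro x
    rw [hY, Subgroup.mem_comap, Subgroup.mem_centralizer_singleton_iff]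
    exact eq_comm
  have hCY : C ≤ Y := by
    intro c hc
    rw [hmemY, (QuotientGroup.eq_one_iff c).mpr hc, mul_one, one_mul]
  haveI hCYn : (C.subgroupOf Y).Normal := Subgroup.normal_subgroupOf
  letI : Fintype (C.subgroupOf Y) := Fintype.ofFinite _
  -- cyclic quotient
  have hcyc : IsCyclic (Y ⧸ C.subgroupOf Y) := by
    let f : Y →* Subgroup.centralizer ({g} : Set (X ⧸ C)) :=
      ((QuotientGroup.mk' C).comp Y.subtype).codRestrict _ (fun y => by
        exact y.2)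
    have hker : f.ker = C.subgroupOf Y := by
      ext y
      rw [MonoidHom.mem_ker, Subgroup.mem_subgroupOf, Subtype.ext_iff]
      exact QuotientGroup.eq_one_iff (y : X)
    have h1 : Function.Injective (QuotientGroup.lift (C.subgroupOf Y) f (fun y hy => by
        rw [hker]; exact hy)) := by
      rw [← MonoidHom.ker_eq_bot_iff, eq_bot_iff]
      intro q hq
      obtain ⟨y, rfl⟩ := QuotientGroup.mk_surjective q
      rw [MonoidHom.mem_ker, QuotientGroup.lift_mk] at hq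
      rw [Subgroup.mem_bot, QuotientGroup.eq_one_iff, ← hker]
      exact hq
    exact isCyclic_of_injective _ h1
  have hab : ∀ a b : Y ⧸ C.subgroupOf Y, a * b = b * a := by
    letI := hcyc.commGroup
    exact fun a b => mul_comm a b
  -- the extension
  let e : C.subgroupOf Y ≃* C := Subgroup.subgroupOfEquivOfLe hCY
  let θ' : C.subgroupOf Y → ℂ := fun n => (θ : C → ℂ) (e n)
  have hθ' : IsIrrCharacter (C.subgroupOf Y) θ' :=
    isIrrCharacter_comp_surjective θ.2 e.toMonoidHom e.surjective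
  have hinv' : ∀ y : Y, Cfsg.Agent.Char.cj (C.subgroupOf Y) y θ' = θ' := by
    intro y
    funext n
    have := hinv (y : X) (e n)
    exact this
  obtain ⟨ϑ, hϑ, hext⟩ := exists_extension_of_cyclic (C.subgroupOf Y) hcyc hθ' hinv'
  have hϑcl := isClassFunction_of_isCharacter (isCharacter_of_isIrr hϑ)
  -- the dual group
  haveI : Finite ((Y ⧸ C.subgroupOf Y) →* ℂˣ) := by
    letI : CommGroup (Y ⧸ C.subgroupOf Y) :=
      { (inferInstance : Group (Y ⧸ C.subgroupOf Y)) with mul_comm := hab }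
    exact (Nat.finite_of_card_ne_zero (by
      have := CommGroup.card_monoidHom_of_hasEnoughRootsOfUnity (Y ⧸ C.subgroupOf Y) ℂ
      rw [this]
      exact Nat.card_pos.ne'))
  letI : Fintype ((Y ⧸ C.subgroupOf Y) →* ℂˣ) := Fintype.ofFinite _
  letI : Fintype (IrrCharacter X) := Fintype.ofFinite _
  -- induced characters vanish over `g`
  have hind : ∀ (ν : (Y ⧸ C.subgroupOf Y) →* ℂˣ) (t : X), (QuotientGroup.mk t : X ⧸ C) = g →
      indFun Y ((inflHom (C.subgroupOf Y) ν : Y → ℂ) * ϑ) t = 0 := by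
    intro ν t ht
    have hirr : IsIrrCharacter Y ((inflHom (C.subgroupOf Y) ν : Y → ℂ) * ϑ) := isIrrCharacter_hom_mul hϑ _
    rw [classFun_apply_eq_sum (indFun_isClassFunction Y _)]
    refine Finset.sum_eq_zero fun χ _ => ?_
    by_cases h0 : classInner (indFun Y ((inflHom (C.subgroupOf Y) ν : Y → ℂ) * ϑ)) (χ : X → ℂ) = 0
    · rw [h0, zero_mul]
    · rw [hvan χ (ov_of_ind hCY hirr (fun n => ?_) χ h0) t ht, mul_zero]
      have h1 : (⟨n, hCY n.2⟩ : Y) ∈ C.subgroupOf Y := n.2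
      have h2 := hext ⟨_, h1⟩
      simp only at h2
      rw [Pi.mul_apply, h2, inflHom_apply, (QuotientGroup.eq_one_iff _).mpr h1, map_one, Units.val_one, one_mul]
      rfl
  -- so the extension vanishes over `g`
  have hϑ0 : ∀ (t : X) (ht : (QuotientGroup.mk t : X ⧸ C) = g) (htY : t ∈ Y), ϑ ⟨t, htY⟩ = 0 := by
    intro t ht htY
    have hsum : ∑ ν : (Y ⧸ C.subgroupOf Y) →* ℂˣ,
        ((ν ((⟨t, htY⟩ : Y) : Y ⧸ C.subgroupOf Y)⁻¹ : ℂˣ) : ℂ) *
          indFun Y ((inflHom (C.subgroupOf Y) ν : Y → ℂ) * ϑ) t = 0 :=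
      Finset.sum_eq_zero fun ν _ => by rw [hind ν t ht, mul_zero]
    have hterm : ∀ x : X, ∑ ν : (Y ⧸ C.subgroupOf Y) →* ℂˣ,
        ((ν ((⟨t, htY⟩ : Y) : Y ⧸ C.subgroupOf Y)⁻¹ : ℂˣ) : ℂ) *
          extendByZero Y ((inflHom (C.subgroupOf Y) ν : Y → ℂ) * ϑ) (x⁻¹ * t * x) =
        if x ∈ Y then (Nat.card (Y ⧸ C.subgroupOf Y) : ℂ) * ϑ ⟨t, htY⟩ else 0 := by
      intro x
      by_cases hxt : x⁻¹ * t * x ∈ Y
      · have h1 : ∀ ν : (Y ⧸ C.subgroupOf Y) →* ℂˣ,
            ((ν ((⟨t, htY⟩ : Y) : Y ⧸ C.subgroupOf Y)⁻¹ : ℂˣ) : ℂ) *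
            extendByZero Y ((inflHom (C.subgroupOf Y) ν : Y → ℂ) * ϑ) (x⁻¹ * t * x) =
            ((ν (((⟨t, htY⟩ : Y)⁻¹ * ⟨x⁻¹ * t * x, hxt⟩ : Y) : Y ⧸ C.subgroupOf Y) : ℂˣ) : ℂ) *
              ϑ ⟨x⁻¹ * t * x, hxt⟩ := by
          intro ν
          rw [extendByZero_of_mem _ _ hxt, Pi.mul_apply, inflHom_apply, ← mul_assoc, ← Units.val_mul,
            ← map_mul]
          rfl
        rw [Finset.sum_congr rfl fun ν _ => h1 ν, ← Finset.sum_mul, sum_dual_eq hab]
        have h2 : (((⟨t, htY⟩ : Y)⁻¹ * ⟨x⁻¹ * t * x, hxt⟩ : Y) : Y ⧸ C.subgroupOf Y) = 1 ↔ x ∈ Y := by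
          rw [QuotientGroup.eq_one_iff, Subgroup.mem_subgroupOf]
          change t⁻¹ * (x⁻¹ * t * x) ∈ C ↔ _
          rw [← QuotientGroup.eq_one_iff, hmemY]
          simp only [QuotientGroup.mk_mul, QuotientGroup.mk_inv, ht]
          constructor
          · intro h3
            have h4 : (x : X ⧸ C)⁻¹ * g * x = g := by
              have := congrArg (fun z => g * z) h3
              simpa [mul_assoc] using this
            calc g * (x : X ⧸ C) = x * ((x : X ⧸ C)⁻¹ * g * x) := by group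
              _ = x * g := by rw [h4]
          · intro h3
            calc g⁻¹ * ((x : X ⧸ C)⁻¹ * g * x) = g⁻¹ * ((x : X ⧸ C)⁻¹ * (g * x)) := by group
              _ = 1 := by rw [h3]; group
        by_cases hx : x ∈ Y
        · rw [if_pos hx, if_pos (h2.mpr hx)]
          congr 1
          have := hϑcl ⟨t, htY⟩ (⟨x, hx⟩ : Y)⁻¹
          rw [← this]
          congr 1
          apply Subtype.ext
          simp
        · rw [if_neg hx, if_neg (fun h3 => hx (h2.mp h3)), zero_mul]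
      · have hx : x ∉ Y := fun hx => hxt (Y.mul_mem (Y.mul_mem (Y.inv_mem hx) htY) hx)
        rw [if_neg hx]
        refine Finset.sum_eq_zero fun ν _ => ?_
        rw [extendByZero_of_notMem _ _ hxt, mul_zero]
    have h3 : (Nat.card Y : ℂ)⁻¹ * ((Nat.card Y : ℂ) * ((Nat.card (Y ⧸ C.subgroupOf Y) : ℂ) * ϑ ⟨t, htY⟩)) = 0 := by
      rw [← hsum]
      unfold indFun
      have h4 : ∀ ν : (Y ⧸ C.subgroupOf Y) →* ℂˣ,
          ((ν ((⟨t, htY⟩ : Y) : Y ⧸ C.subgroupOf Y)⁻¹ : ℂˣ) : ℂ) *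
          ((Nat.card Y : ℂ)⁻¹ * ∑ x : X, extendByZero Y ((inflHom (C.subgroupOf Y) ν : Y → ℂ) * ϑ) (x⁻¹ * t * x)) =
          (Nat.card Y : ℂ)⁻¹ * ∑ x : X, ((ν ((⟨t, htY⟩ : Y) : Y ⧸ C.subgroupOf Y)⁻¹ : ℂˣ) : ℂ) *
            extendByZero Y ((inflHom (C.subgroupOf Y) ν : Y → ℂ) * ϑ) (x⁻¹ * t * x) := by
        intro ν
        rw [← Finset.mul_sum]; ring
      rw [Finset.sum_congr rfl fun ν _ => h4 ν, ← Finset.mul_sum, Finset.sum_comm,
        Finset.sum_congr rfl fun x _ => hterm x, ← Finset.sum_filter, Finset.sum_const, nsmul_eq_mul]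
      congr 2
      have h5 : (Finset.univ.filter (fun x : X => x ∈ Y)).card = Nat.card Y := by
        rw [Nat.card_eq_fintype_card, Fintype.card_subtype]
      rw [h5]
    have hY0 : (Nat.card Y : ℂ) ≠ 0 := by exact_mod_cast Nat.card_pos.ne'
    have hA0 : (Nat.card (Y ⧸ C.subgroupOf Y) : ℂ) ≠ 0 := by exact_mod_cast Nat.card_pos.ne'
    rw [← mul_assoc, inv_mul_cancel₀ hY0, one_mul] at h3
    exact (mul_eq_zero.mp h3).resolve_left hA0
  -- contradiction with the coset norm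
  obtain ⟨t, ht⟩ := QuotientGroup.mk_surjective g
  have htY : t ∈ Y := by
    rw [hmemY, ht]
  have hsq := BG.coset_sq hCY hϑ (by
    have : (fun b : C => ϑ ⟨(b : X), hCY b.2⟩) = (θ : C → ℂ) := by
      funext b
      have h1 : (⟨b, hCY b.2⟩ : Y) ∈ C.subgroupOf Y := b.2
      exact hext ⟨_, h1⟩
    rw [this]
    exact θ.2) ⟨t, htY⟩
  rw [Finset.sum_eq_zero] at hsq
  · have : (Nat.card C : ℝ) ≠ 0 := by exact_mod_cast Nat.card_pos.ne'
    exact this hsq.symm
  · intro b _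
    rw [Complex.normSq_eq_zero]
    refine hϑ0 ((b : X) * t) ?_ (Y.mul_mem (hCY b.2) htY)
    rw [QuotientGroup.mk_mul, (QuotientGroup.eq_one_iff (b : X)).mpr b.2, one_mul, ht]

end Cfsg.Agent.BlkInd.TC
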